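import Cfsg.Agent.H106.RC.Cover

/-!
# S3510, triality: the rules (IR) and (KL) (helper579)

* `kl` : `D = [C, x]` of order prime to `3` and `l`, `x` a `3`-element : every `l`-subgroup of `C` is centralised by a
  `D`-conjugate of `x`.
* `ir_kl` : the same for a cover, `C` = centraliser in `N` of the other members; `hgen` = the generic part (`Fgen`).
-/

set_option autoImplicit false
open Cfsg

namespace Cfsg.Agent.H579.RC

open MulAction Cfsg.Agent.H106.RC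
open scoped Pointwise

section kl

variable {G : Type*} [Group G] [Finite G]

/-- coprime conjugacy for a `3`-element acting on `D P` -/
theorem kl {t l : ℕ} [Fact t.Prime] [Fact l.Prime] {D P : Subgroup G} {x : G} {k : ℕ} (hx : x ^ t ^ k = 1)
    (hDx : ∀ d ∈ D, x * d * x⁻¹ ∈ D) (hDP : ∀ p ∈ P, ∀ d ∈ D, p * d * p⁻¹ ∈ D)
    (hcm : ∀ p ∈ P, p * x * p⁻¹ * x⁻¹ ∈ D) (hP : IsPGroup l P)
    (h3 : ¬ t ∣ Nat.card D) (hl : ¬ l ∣ Nat.card D) :
    ∃ d ∈ D, ∀ p ∈ P, (d⁻¹ * x * d) * p = p * (d⁻¹ * x * d) := by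
  classical
  -- `D ∩ P = 1`
  have hdisj : ∀ y, y ∈ D → y ∈ P → y = 1 := by
    intro y hy hy'
    obtain ⟨m, hm⟩ := (IsPGroup.iff_orderOf.1 hP) ⟨y, hy'⟩
    rw [Subgroup.orderOf_mk] at hm
    rcases Nat.eq_zero_or_pos m with h0 | h0
    · rw [h0, pow_zero] at hm
      exact orderOf_eq_one_iff.1 hm
    · exfalso
      apply hl
      have h1 : orderOf y ∣ Nat.card D := by
        have := orderOf_dvd_natCard (⟨y, hy⟩ : D)
        rwa [Subgroup.orderOf_mk] at this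
      exact (hm ▸ dvd_pow_self l h0.ne').trans h1
  -- the group `E = D P`
  let E : Subgroup G := D ⊔ P
  have hDn : ∀ e ∈ E, ∀ d ∈ D, e * d * e⁻¹ ∈ D := by
    have h1 : E ≤ Subgroup.normalizer (D : Set G) := by
      apply sup_le
      · exact Subgroup.le_normalizer
      · intro p hp
        rw [Subgroup.mem_normalizer_iff]
        intro d
        constructor
        · exact hDP p hp d
        · intro h2
          have h3 := hDP p⁻¹ (P.inv_mem hp) _ h2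
          have h4 : p⁻¹ * (p * d * p⁻¹) * p⁻¹⁻¹ = d := by group
          rwa [h4] at h3
    intro e he d hd
    exact (Subgroup.mem_normalizer_iff.1 (h1 he) d).1 hd
  have hEm : E.map (MulAut.conj x).toMonoidHom ≤ E := by
    change (D ⊔ P).map (MulAut.conj x).toMonoidHom ≤ E
    rw [Subgroup.map_sup]
    apply sup_le
    · rintro _ ⟨d, hd, rfl⟩
      exact (le_sup_left : D ≤ E) (hDx d hd)
    · rintro _ ⟨p, hp, rfl⟩
      have h1 := hcm p hp
      have h2 : (MulAut.conj x).toMonoidHom p = (p * x * p⁻¹ * x⁻¹)⁻¹ * p := by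
        change x * p * x⁻¹ = _
        group
      rw [h2]
      exact E.mul_mem (E.inv_mem ((le_sup_left : D ≤ E) h1)) ((le_sup_right : P ≤ E) hp)
  have hEx : ∀ e ∈ E, x * e * x⁻¹ ∈ E := fun e he => hEm ⟨e, he, rfl⟩
  -- pass to `E`
  have hxE : x ∈ Subgroup.normalizer (E : Set G) := by
    have h1 : E.map (MulAut.conj x).toMonoidHom = E := by
      apply Subgroup.eq_of_le_of_card_ge hEm
      rw [Nat.card_congr (E.equivMapOfInjective (MulAut.conj x).toMonoidHom (MulAut.conj x).injective).toEquiv]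
    rw [Subgroup.mem_normalizer_iff]
    intro e
    constructor
    · exact hEx e
    · intro he
      have h2 : x * e * x⁻¹ ∈ E.map (MulAut.conj x).toMonoidHom := by rw [h1]; exact he
      obtain ⟨e', he', h3⟩ := h2
      have h4 : e' = e := (MulAut.conj x).injective h3
      exact h4 ▸ he'
  let x' : Subgroup.normalizer (E : Set G) := ⟨x, hxE⟩
  let φ : MulAut E := E.normalizerMonoidHom x'
  have hφ : ∀ e : E, ((φ e : E) : G) = x * (e : G) * x⁻¹ := fun e => rfl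
  have hφk : φ ^ t ^ k = 1 := by
    have h1 : x' ^ t ^ k = 1 := Subtype.ext hx
    change (E.normalizerMonoidHom x') ^ t ^ k = 1
    rw [← map_pow, h1, map_one]
  have hpg : IsPGroup t (Subgroup.zpowers φ) := by
    intro g
    obtain ⟨⟨g, hg⟩, hg'⟩ : ∃ g' : Subgroup.zpowers φ, g' = g := ⟨g, rfl⟩
    obtain ⟨n, rfl⟩ := Subgroup.mem_zpowers_iff.1 hg
    refine ⟨k, ?_⟩
    rw [← hg']
    apply Subtype.ext
    change (φ ^ n) ^ t ^ k = 1
    rw [← zpow_natCast, ← zpow_mul, mul_comm, zpow_mul, zpow_natCast, hφk, one_zpow]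
  let D' : Subgroup E := D.subgroupOf E
  let P' : Subgroup E := P.subgroupOf E
  have hD'n : D'.Normal := ⟨fun d hd e => hDn e.1 e.2 d.1 hd⟩
  have hdis : Disjoint D' P' := by
    rw [disjoint_iff, eq_bot_iff]
    intro y hy
    rw [Subgroup.mem_bot]
    exact Subtype.ext (hdisj y.1 hy.1 hy.2)
  have hsup : D' ⊔ P' = ⊤ := by
    change D.subgroupOf E ⊔ P.subgroupOf E = ⊤
    rw [← Subgroup.subgroupOf_sup (le_sup_left : D ≤ E) (le_sup_right : P ≤ E), Subgroup.subgroupOf_self]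
  have hcompl : Subgroup.IsComplement' D' P' := by
    apply Subgroup.isComplement'_of_disjoint_and_mul_eq_univ hdis
    rw [← Subgroup.normal_mul, hsup, Subgroup.coe_top]
  have hidx : P'.index = Nat.card D' := hcompl.index_eq_card
  have hcD : Nat.card D' = Nat.card D := Nat.card_congr (Subgroup.subgroupOfEquivOfLe (le_sup_left : D ≤ E)).toEquiv
  have hP' : IsPGroup l P' := hP.comap_subtype
  let S₀ : Sylow l E := hP'.toSylow (by rw [hidx, hcD]; exact hl)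
  have hS₀ : (S₀ : Subgroup E) = P' := rfl
  have hns : ¬ t ∣ Nat.card (Sylow l E) := by
    intro h
    apply h3
    rw [← hcD, ← hidx]
    exact h.trans (Sylow.card_dvd_index S₀)
  obtain ⟨S, hS⟩ := hpg.nonempty_fixed_point_of_prime_not_dvd_card (Sylow l E) hns
  have hS' : (⟨φ, Subgroup.mem_zpowers φ⟩ : Subgroup.zpowers φ) • S = S := hS ⟨φ, Subgroup.mem_zpowers φ⟩
  have hS1 : ∀ e : E, e ∈ (S : Subgroup E) → φ e ∈ (S : Subgroup E) := by
    intro e he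
    have h1 : (⟨φ, Subgroup.mem_zpowers φ⟩ : Subgroup.zpowers φ) • e ∈
        ((⟨φ, Subgroup.mem_zpowers φ⟩ : Subgroup.zpowers φ) • S : Sylow l E) := Set.smul_mem_smul_set he
    rw [hS'] at h1
    exact h1
  obtain ⟨e, he⟩ := MulAction.exists_smul_eq E S₀ S
  have hem : e ∈ D' ⊔ P' := by rw [hsup]; trivial
  obtain ⟨d, hd, p, hp, rfl⟩ := (Subgroup.mem_sup_of_normal_left).1 hem
  have hSP : ∀ y : E, y ∈ (S : Subgroup E) ↔ d⁻¹ * y * d ∈ P' := by
    intro y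
    have h1 : (S : Subgroup E) = MulAut.conj (d * p) • P' := by
      rw [← he]
      rfl
    rw [h1, Subgroup.mem_smul_pointwise_iff_exists]
    constructor
    · rintro ⟨s, hs, rfl⟩
      have h2 : d⁻¹ * (MulAut.conj (d * p) • s) * d = p * s * p⁻¹ := by
        rw [MulAut.smul_def, MulAut.conj_apply]
        group
      rw [h2]
      exact P'.mul_mem (P'.mul_mem hp hs) (P'.inv_mem hp)
    · intro h2
      refine ⟨p⁻¹ * (d⁻¹ * y * d) * p, P'.mul_mem (P'.mul_mem (P'.inv_mem hp) h2) hp, ?_⟩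
      rw [MulAut.smul_def, MulAut.conj_apply]
      group
  refine ⟨d, hd, fun q hq => ?_⟩
  have hqE : q ∈ E := (le_sup_right : P ≤ E) hq
  set y := (d : G)⁻¹ * x * (d : G) with hy
  -- `y q y⁻¹ ∈ P`
  have hyP : y * q * y⁻¹ ∈ P := by
    have h1 : d * ⟨q, hqE⟩ * d⁻¹ ∈ (S : Subgroup E) := by
      rw [hSP]
      have : d⁻¹ * (d * (⟨q, hqE⟩ : E) * d⁻¹) * d = ⟨q, hqE⟩ := by group
      rw [this]
      exact hq
    have h2 := (hSP _).1 (hS1 _ h1)
    have h3 : ((d⁻¹ * φ (d * ⟨q, hqE⟩ * d⁻¹) * d : E) : G) = y * q * y⁻¹ := by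
      rw [Subgroup.coe_mul, Subgroup.coe_mul, hφ]
      change (d : G)⁻¹ * (x * ((d : G) * q * (d : G)⁻¹) * x⁻¹) * d = _
      rw [hy]
      group
    have h4 : ((d⁻¹ * φ (d * ⟨q, hqE⟩ * d⁻¹) * d : E) : G) ∈ P := h2
    rwa [h3] at h4
  -- `y q y⁻¹ q⁻¹ ∈ D`
  have hyD : y * q * y⁻¹ * q⁻¹ ∈ D := by
    have hdD : (d : G) ∈ D := hd
    have h1 : (d : G)⁻¹ * (x * d * x⁻¹) ∈ D := D.mul_mem (D.inv_mem hdD) (hDx _ hdD)
    have h2 : y = (d : G)⁻¹ * (x * d * x⁻¹) * x := by rw [hy]; group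
    set c := (d : G)⁻¹ * (x * d * x⁻¹) with hc
    have h3 : y * q * y⁻¹ * q⁻¹ = c * (q * x * q⁻¹ * x⁻¹)⁻¹ * (q * c⁻¹ * q⁻¹) := by rw [h2]; group
    rw [h3]
    exact D.mul_mem (D.mul_mem h1 (D.inv_mem (hcm q hq))) (hDP q hq _ (D.inv_mem h1))
  have h5 := hdisj _ hyD (P.mul_mem hyP (P.inv_mem hq))
  have h6 : y * q * y⁻¹ = q := by rwa [mul_inv_eq_one] at h5
  rwa [mul_inv_eq_iff_eq_mul] at h6

end kl

section cover

variable {G Ω ι : Type*} [Group G] [MulAction G Ω]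

/-- the centraliser in `N` of the members `x j`, `j ≠ i` -/
def Cen (N : Subgroup G) (x : ι → G) (i : ι) : Subgroup G where
  carrier := {c | c ∈ N ∧ ∀ j, j ≠ i → c * x j = x j * c}
  mul_mem' := by
    rintro a b ⟨ha, ha'⟩ ⟨hb, hb'⟩
    refine ⟨N.mul_mem ha hb, fun j hj => ?_⟩
    rw [mul_assoc, hb' j hj, ← mul_assoc, ha' j hj, mul_assoc]
  one_mem' := ⟨N.one_mem, fun j _ => by rw [one_mul, mul_one]⟩
  inv_mem' := by
    rintro a ⟨ha, ha'⟩
    refine ⟨N.inv_mem ha, fun j hj => ?_⟩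
    rw [inv_mul_eq_iff_eq_mul, ← mul_assoc, ha' j hj, mul_inv_cancel_right]

/-- the commutator group `[C, x i]` -/
def Dcm (N : Subgroup G) (x : ι → G) (i : ι) : Subgroup G :=
  Subgroup.closure {z | ∃ c ∈ Cen N x i, z = c * x i * c⁻¹ * (x i)⁻¹}

variable {N : Subgroup G} {x : ι → G} {i : ι}

theorem cm_mem_Dcm {c : G} (hc : c ∈ Cen N x i) : c * x i * c⁻¹ * (x i)⁻¹ ∈ Dcm N x i :=
  Subgroup.subset_closure ⟨c, hc, rfl⟩

theorem conj_mem_Cen (hN : N.Normal) (hcm : ∀ j, x i * x j = x j * x i) {c : G} (hc : c ∈ Cen N x i) :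
    x i * c * (x i)⁻¹ ∈ Cen N x i := by
  refine ⟨hN.conj_mem _ hc.1 _, fun j hj => ?_⟩
  have e1 := hcm j
  have e2 : (x i)⁻¹ * x j = x j * (x i)⁻¹ := by rw [inv_mul_eq_iff_eq_mul, ← mul_assoc, e1, mul_inv_cancel_right]
  calc x i * c * (x i)⁻¹ * x j = x i * c * ((x i)⁻¹ * x j) := by group
    _ = x i * (c * x j) * (x i)⁻¹ := by rw [e2]; group
    _ = (x i * x j) * c * (x i)⁻¹ := by rw [hc.2 j hj]; group
    _ = x j * (x i * c * (x i)⁻¹) := by rw [e1]; group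

theorem Dcm_le_Cen (hN : N.Normal) (hcm : ∀ j, x i * x j = x j * x i) : Dcm N x i ≤ Cen N x i := by
  rw [Dcm, Subgroup.closure_le]
  rintro _ ⟨c, hc, rfl⟩
  have h : c * x i * c⁻¹ * (x i)⁻¹ = c * (x i * c⁻¹ * (x i)⁻¹) := by group
  rw [h]
  exact (Cen N x i).mul_mem hc (conj_mem_Cen hN hcm ((Cen N x i).inv_mem hc))

theorem conj_mem_Dcm {c d : G} (hc : c ∈ Cen N x i) (hd : d ∈ Dcm N x i) : c * d * c⁻¹ ∈ Dcm N x i := by
  have h : (Dcm N x i).map (MulAut.conj c).toMonoidHom ≤ Dcm N x i := by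
    rw [Dcm, MonoidHom.map_closure, Subgroup.closure_le]
    rintro _ ⟨_, ⟨b, hb, rfl⟩, rfl⟩
    have h1 : (MulAut.conj c).toMonoidHom (b * x i * b⁻¹ * (x i)⁻¹) =
        ((c * b) * x i * (c * b)⁻¹ * (x i)⁻¹) * (c * x i * c⁻¹ * (x i)⁻¹)⁻¹ := by
      change c * (b * x i * b⁻¹ * (x i)⁻¹) * c⁻¹ = _
      group
    rw [h1]
    exact Subgroup.mul_mem _ (cm_mem_Dcm ((Cen N x i).mul_mem hc hb)) (Subgroup.inv_mem _ (cm_mem_Dcm hc))
  exact h ⟨d, hd, rfl⟩

theorem conj_mem_Dcm' (hN : N.Normal) (hcm : ∀ j, x i * x j = x j * x i) {d : G} (hd : d ∈ Dcm N x i) :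
    x i * d * (x i)⁻¹ ∈ Dcm N x i := by
  have h : (Dcm N x i).map (MulAut.conj (x i)).toMonoidHom ≤ Dcm N x i := by
    rw [Dcm, MonoidHom.map_closure, Subgroup.closure_le]
    rintro _ ⟨_, ⟨b, hb, rfl⟩, rfl⟩
    have h1 : (MulAut.conj (x i)).toMonoidHom (b * x i * b⁻¹ * (x i)⁻¹) =
        (x i * b * (x i)⁻¹) * x i * (x i * b * (x i)⁻¹)⁻¹ * (x i)⁻¹ := by
      change x i * (b * x i * b⁻¹ * (x i)⁻¹) * (x i)⁻¹ = _
      group
    rw [h1]
    exact cm_mem_Dcm (conj_mem_Cen hN hcm hb)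
  exact h ⟨d, hd, rfl⟩

theorem cov_of_Dcm [DecidableEq ι] (hc : Cov Ω x) {y : G} (hy : y ∈ Dcm N x i) :
    Cov Ω (Function.update x i y) := by
  apply hc.mv
  have h : Dcm N x i ≤ Subgroup.closure {z | ∃ c : G, (∀ j, j ≠ i → c * x j = x j * c) ∧ z = c * x i * c⁻¹} := by
    rw [Dcm, Subgroup.closure_le]
    rintro _ ⟨c, hc, rfl⟩
    apply Subgroup.mul_mem
    · exact Subgroup.subset_closure ⟨c, hc.2, rfl⟩
    · apply Subgroup.inv_mem
      exact Subgroup.subset_closure ⟨1, by simp, by simp⟩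
  exact h hy

/-- (IR): the order of `[C, x i]` is divisible only by the primes `r j`, `j ≠ i` -/
theorem ir_card [DecidableEq ι] [Finite G] {r : ι → ℕ} (hx : PF x r) (hc : Cov Ω x) (hN : N.Normal)
    (hgen : ∀ (y : G) (l : ℕ), y ∈ N → y ≠ 1 → l.Prime → y ^ l = 1 → (∀ j, j ≠ i → r j ≠ l) →
      (∀ j, j ≠ i → y * x j = x j * y) → Cov Ω (Function.update x i y) → False)
    {l : ℕ} (hl : l.Prime) (hlr : ∀ j, j ≠ i → r j ≠ l) : ¬ l ∣ Nat.card (Dcm N x i) := by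
  intro hd
  have := Fact.mk hl
  obtain ⟨y, hy⟩ := exists_prime_orderOf_dvd_card' l hd
  have h1 := Dcm_le_Cen hN (hx.comm i) y.2
  refine hgen y l h1.1 ?_ hl ?_ hlr h1.2 (cov_of_Dcm hc y.2)
  · intro h2
    have h3 : y = 1 := Subtype.ext h2
    rw [h3, orderOf_one] at hy
    exact hl.one_lt.ne hy
  · have h2 := pow_orderOf_eq_one y
    rw [hy] at h2
    exact congrArg Subtype.val h2

/-- (KL) for a cover: if the generic part `hgen` holds, every `l`-subgroup `P` of `N` centralised by the `x j`, `j ≠ i`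
(`l` none of the `r j`, `j ≠ i`), is centralised by a conjugate of `x i` under `C_N(x j : j ≠ i)` -/
theorem ir_kl [DecidableEq ι] [Finite G] {r : ι → ℕ} (hx : PF x r) (hc : Cov Ω x) (hN : N.Normal)
    (hgen : ∀ (y : G) (l : ℕ), y ∈ N → y ≠ 1 → l.Prime → y ^ l = 1 → (∀ j, j ≠ i → r j ≠ l) →
      (∀ j, j ≠ i → y * x j = x j * y) → Cov Ω (Function.update x i y) → False)
    {l : ℕ} (hl : l.Prime) (hlr : ∀ j, j ≠ i → r j ≠ l) {P : Subgroup G} (hP : IsPGroup l P) (hPN : P ≤ N)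
    (hPc : ∀ p ∈ P, ∀ j, j ≠ i → p * x j = x j * p) :
    ∃ d ∈ N, (∀ j, j ≠ i → d * x j = x j * d) ∧ ∀ p ∈ P, (d⁻¹ * x i * d) * p = p * (d⁻¹ * x i * d) := by
  have := Fact.mk hl
  have := Fact.mk (hx.prime i)
  have hPC : P ≤ Cen N x i := fun p hp => ⟨hPN hp, hPc p hp⟩
  obtain ⟨d, hd, h⟩ := kl (t := r i) (l := l) (D := Dcm N x i) (P := P) (x := x i) (k := 1)
    (by rw [pow_one]; exact hx.pow i) (fun d hd => conj_mem_Dcm' hN (hx.comm i) hd)
    (fun p hp d hd => conj_mem_Dcm (hPC hp) hd) (fun p hp => cm_mem_Dcm (hPC hp)) hP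
    (ir_card hx hc hN hgen (hx.prime i) (fun j hj h => hj (hx.inj h))) (ir_card hx hc hN hgen hl hlr)
  have h1 := Dcm_le_Cen hN (hx.comm i) hd
  exact ⟨d, h1.1, h1.2, h⟩

/-- (KL) for one element of prime order `l`: it has a conjugate under `C_N(x j : j ≠ i)` commuting with all `x j` -/
theorem ir_elt [DecidableEq ι] [Finite G] {r : ι → ℕ} (hx : PF x r) (hc : Cov Ω x) (hN : N.Normal)
    (hgen : ∀ (y : G) (l : ℕ), y ∈ N → y ≠ 1 → l.Prime → y ^ l = 1 → (∀ j, j ≠ i → r j ≠ l) →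
      (∀ j, j ≠ i → y * x j = x j * y) → Cov Ω (Function.update x i y) → False)
    {l : ℕ} (hl : l.Prime) (hlr : ∀ j, j ≠ i → r j ≠ l) {y : G} (hy : y ∈ N) {k : ℕ} (hyl : y ^ l ^ k = 1)
    (hyc : ∀ j, j ≠ i → y * x j = x j * y) :
    ∃ d ∈ N, (∀ j, j ≠ i → d * x j = x j * d) ∧ ∀ j, (d * y * d⁻¹) * x j = x j * (d * y * d⁻¹) := by
  have hz : Subgroup.zpowers y ≤ Cen N x i := by
    rw [Subgroup.zpowers_le]
    exact ⟨hy, hyc⟩
  obtain ⟨d, hd, h1, h2⟩ := ir_kl hx hc hN hgen hl hlr (P := Subgroup.zpowers y) (by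
    intro g
    obtain ⟨n, hn⟩ := Subgroup.mem_zpowers_iff.1 g.2
    refine ⟨k, Subtype.ext ?_⟩
    rw [Subgroup.coe_pow, ← hn, ← zpow_natCast, ← zpow_mul, mul_comm, zpow_mul, zpow_natCast, hyl, one_zpow]
    rfl) (fun p hp => (hz hp).1) (fun p hp => (hz hp).2)
  refine ⟨d, hd, h1, fun j => ?_⟩
  rcases eq_or_ne j i with rfl | hj
  · have h3 := h2 y (Subgroup.mem_zpowers y)
    calc d * y * d⁻¹ * x j = d * (y * (d⁻¹ * x j * d)) * d⁻¹ := by group
      _ = d * (d⁻¹ * x j * d * y) * d⁻¹ := by rw [h3]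
      _ = x j * (d * y * d⁻¹) := by group
  · have h3 : d⁻¹ * x j = x j * d⁻¹ := by
      rw [inv_mul_eq_iff_eq_mul, ← mul_assoc, h1 j hj, mul_inv_cancel_right]
    calc d * y * d⁻¹ * x j = d * y * (d⁻¹ * x j) := by group
      _ = d * (y * x j) * d⁻¹ := by rw [h3]; group
      _ = (d * x j) * y * d⁻¹ := by rw [hyc j hj]; group
      _ = x j * (d * y * d⁻¹) := by rw [h1 j hj]; group

end cover

end Cfsg.Agent.H579.RC
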