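import Cfsg.Agent.H864.RC.Def3
import Cfsg.Agent.H890.SpIndex
import Cfsg.Agent.ClassicalGeometry.TwoFamilies

/-!
# S3510, triality type iii: one-parameter groups commuting with a `p'`-family (helper579)

`exists_opg` : an element of order `p` of `E Q` commuting with the `p'`-family `g` gives a one-parameter group
`1 + t X + t² Y` in `E Q` commuting with the `g i`.
-/

set_option autoImplicit false
open Cfsg

namespace Cfsg.Agent.H579.RC.Opg

open Module QuadraticMap MulAction
open Cfsg.Agent.LieClassical.OrthCore Cfsg.Agent.LieClassical.OrthTrans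
open Cfsg.Agent.H890.SpParity

variable {F V : Type*} [Field F] [AddCommGroup V] [Module F V] {Q : QuadraticForm F V}

/-- the linear map `1 + t X + t² Y` -/
def fo (X Y : V →ₗ[F] V) (t : F) : V →ₗ[F] V := LinearMap.id + t • X + t ^ 2 • Y

theorem fo_apply (X Y : V →ₗ[F] V) (t : F) (v : V) : fo X Y t v = v + t • X v + t ^ 2 • Y v := rfl

/-- the group law -/
theorem fo_add {X Y : V →ₗ[F] V} (h2 : ∀ v, X (X v) = (2 : F) • Y v) (h3 : ∀ v, X (Y v) = 0) (h3' : ∀ v, Y (X v) = 0)
    (h4 : ∀ v, Y (Y v) = 0) (t u : F) (v : V) : fo X Y t (fo X Y u v) = fo X Y (t + u) v := by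
  simp only [fo_apply, map_add, map_smul, h2, h3, h3', h4]
  module

/-- the linear equivalence -/
def ao (X Y : V →ₗ[F] V) (h : ∀ (t u : F) (v : V), fo X Y t (fo X Y u v) = fo X Y (t + u) v) (t : F) : V ≃ₗ[F] V :=
  LinearEquiv.ofLinearMap (fo X Y t) (fo X Y (-t))
    (LinearMap.ext fun v => by
      rw [LinearMap.comp_apply, h, add_neg_cancel, fo_apply]
      simp)
    (LinearMap.ext fun v => by
      rw [LinearMap.comp_apply, h, neg_add_cancel, fo_apply]
      simp)

theorem ao_apply (X Y : V →ₗ[F] V) (h : ∀ (t u : F) (v : V), fo X Y t (fo X Y u v) = fo X Y (t + u) v) (t : F) (v : V) :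
    ao X Y h t v = v + t • X v + t ^ 2 • Y v := rfl

/-- the conclusion of the box -/
def Res (Q : QuadraticForm F V) {ι : Type*} (p : ℕ) (g : ι → (V ≃ₗ[F] V)) : Prop :=
  ∃ (X Y : V →ₗ[F] V) (a : F → (V ≃ₗ[F] V)), X ≠ 0 ∧ (p = 2 → finrank F (LinearMap.range Y) ≤ 1) ∧
      (∀ t v, a t v = v + t • X v + t ^ 2 • Y v) ∧ (∀ t, a t ∈ E Q) ∧
      (∀ t u, a (t + u) = a t * a u) ∧ ∀ t i, a t * g i = g i * a t

theorem res_of {ι : Type*} {p : ℕ} {g : ι → (V ≃ₗ[F] V)} {X Y : V →ₗ[F] V} (hX : X ≠ 0)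
    (hY : p = 2 → finrank F (LinearMap.range Y) ≤ 1)
    (h : ∀ (t u : F) (v : V), fo X Y t (fo X Y u v) = fo X Y (t + u) v) (hE : ∀ t, ao X Y h t ∈ E Q)
    (hcX : ∀ i v, X (g i v) = g i (X v)) (hcY : ∀ i v, Y (g i v) = g i (Y v)) : Res Q p g := by
  refine ⟨X, Y, ao X Y h, hX, hY, fun t v => rfl, hE, fun t u => ?_, fun t i => ?_⟩
  · ext v
    exact (h t u v).symm
  · ext v
    change ao X Y h t (g i v) = g i (ao X Y h t v)
    rw [ao_apply, ao_apply, hcX, hcY, map_add, map_add, map_smul, map_smul]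

/-- squares are in `E` -/
theorem sq_mem_E [FiniteDimensional F V] (hG : Good Q) {g : V ≃ₗ[F] V} (hg : g ∈ O Q) : g * g ∈ E Q := by
  have hcomm : ∀ g ∈ O Q, ∀ h ∈ O Q, g * h * g⁻¹ * h⁻¹ ∈ E Q := by
    intro g hg h hh
    rw [← hG.commutator_eq_E]
    exact Subgroup.commutator_mem_commutator hg hh
  rw [O_eq_closure hG.nondeg] at hg
  have hle : ∀ x ∈ Subgroup.closure (reflSet Q ∪ siegelSet Q), x ∈ O Q := fun x hx => by
    rw [O_eq_closure hG.nondeg]; exact hx
  induction hg using Subgroup.closure_induction with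
  | mem x hx =>
    rcases hx with ⟨v, hv, rfl⟩ | hx
    · rw [refl_mul_self]; exact one_mem _
    · exact mul_mem (Subgroup.subset_closure hx) (Subgroup.subset_closure hx)
  | one => rw [one_mul]; exact one_mem _
  | mul g h hg hh h1 h2 =>
    have e : g * h * (g * h) = (g * g) * (g⁻¹ * h * g⁻¹⁻¹ * h⁻¹) * (h * h) := by group
    rw [e]
    exact mul_mem (mul_mem h1 (hcomm _ (inv_mem (hle g hg)) _ (hle h hh))) h2
  | inv g hg h =>
    have e : g⁻¹ * g⁻¹ = (g * g)⁻¹ := by group
    rw [e]
    exact inv_mem h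

theorem two_Q (x : V) : polar Q x x = 2 * Q x := by
  rw [QuadraticMap.polar_self, nsmul_eq_mul, Nat.cast_ofNat]

/-- `p` odd: a nonzero skew `X` with `X³ = 0` -/
theorem res_of_skew [FiniteDimensional F V] (hG : Good Q) (h2 : (2 : F) ≠ 0) {ι : Type*} {p : ℕ} (hp2 : p ≠ 2)
    {g : ι → (V ≃ₗ[F] V)} {X : V →ₗ[F] V} (hX : X ≠ 0) (hs : ∀ v w, polar Q (X v) w = - polar Q v (X w))
    (h3 : ∀ v, X (X (X v)) = 0) (hcX : ∀ i v, X (g i v) = g i (X v)) : Res Q p g := by
  let Y : V →ₗ[F] V := (2 : F)⁻¹ • (X ∘ₗ X)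
  have hY : ∀ v, Y v = (2 : F)⁻¹ • X (X v) := fun v => rfl
  have h : ∀ (t u : F) (v : V), fo X Y t (fo X Y u v) = fo X Y (t + u) v := by
    refine fo_add (fun v => ?_) (fun v => ?_) (fun v => ?_) (fun v => ?_)
    · rw [hY, smul_smul, mul_inv_cancel₀ h2, one_smul]
    · rw [hY, map_smul, h3, smul_zero]
    · rw [hY, h3, smul_zero]
    · rw [hY, hY, map_smul, map_smul, h3, smul_zero, smul_zero]
  have hYs : ∀ v w, polar Q (Y v) w = polar Q v (Y w) := by
    intro v w
    rw [hY, hY, polar_smul_left, polar_smul_right, hs, hs, neg_neg]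
  have hadj : ∀ t v w, polar Q (fo X Y t v) w = polar Q v (fo X Y (-t) w) := by
    intro t v w
    rw [fo_apply, fo_apply, polar_add_left, polar_add_left, polar_add_right, polar_add_right, polar_smul_left,
      polar_smul_left, polar_smul_right, polar_smul_right, hs, hYs]
    simp only [smul_eq_mul]
    ring
  have hO : ∀ t, ao X Y h t ∈ O Q := by
    intro t v
    have h5 : polar Q (fo X Y t v) (fo X Y t v) = polar Q v v := by
      rw [hadj, h, neg_add_cancel, fo_apply]
      simp
    rw [two_Q, two_Q] at h5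
    exact mul_left_cancel₀ h2 h5
  refine res_of hX (fun h => absurd h hp2) h (fun t => ?_) hcX (fun i v => ?_)
  · have h6 : ao X Y h t = ao X Y h (t / 2) * ao X Y h (t / 2) := by
      ext v
      change fo X Y t v = fo X Y (t / 2) (fo X Y (t / 2) v)
      rw [h]
      congr 2
      field_simp
      ring
    rw [h6]
    exact sq_mem_E hG (hO _)
  · rw [hY, hY, hcX, hcX, map_smul]

/-- the case of odd characteristic -/
theorem odd_case [FiniteDimensional F V] (hG : Good Q) {ι : Type*} {p : ℕ} [CharP F p] (hp : p.Prime) (hp2 : p ≠ 2)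
    {g : ι → (V ≃ₗ[F] V)} {c : V ≃ₗ[F] V} (hcE : c ∈ O Q) (hcp : c ^ p = 1) (hc1 : c ≠ 1)
    (hcc : ∀ i, c * g i = g i * c) : Res Q p g := by
  have := Fact.mk hp
  have h2 : (2 : F) ≠ 0 := by
    intro h
    have h1 := (CharP.cast_eq_zero_iff F p 2).1 (by exact_mod_cast h)
    exact hp2 ((Nat.prime_dvd_prime_iff_eq hp Nat.prime_two).1 h1)
  have hnt : Nontrivial V := Module.nontrivial_of_finrank_pos (R := F) (by have := hG.dim; omega)
  have hch : CharP (Module.End F V) p :=
    charP_of_injective_algebraMap (FaithfulSMul.algebraMap_injective F (Module.End F V)) p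
  have hpol : ∀ v w, polar Q (c v) (c w) = polar Q v w := by
    intro v w
    simp only [QuadraticMap.polar]
    rw [← map_add, hcE, hcE, hcE]
  let C : Module.End F V := (c : V →ₗ[F] V)
  let D : Module.End F V := ((c⁻¹ : V ≃ₗ[F] V) : V →ₗ[F] V)
  have hCD : C * D = 1 := by
    ext v
    exact c.apply_symm_apply v
  have hDC : D * C = 1 := by
    ext v
    exact c.symm_apply_apply v
  have hcomm : Commute C D := by
    change C * D = D * C
    rw [hCD, hDC]
  have hpw : ∀ (n : ℕ) (v : V), (C ^ n) v = (c ^ n : V ≃ₗ[F] V) v := by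
    intro n
    induction n with
    | zero => intro v; rfl
    | succ n ih => intro v; rw [pow_succ, Module.End.mul_apply, ih, pow_succ]; rfl
  have hCp : C ^ p = 1 := by
    ext v
    rw [hpw, hcp]; rfl
  have hDp : D ^ p = 1 := by
    have h1 : (C * D) ^ p = C ^ p * D ^ p := hcomm.mul_pow p
    rw [hCD, one_pow, hCp, one_mul] at h1
    exact h1.symm
  set X : Module.End F V := C - D with hXdef
  have hXp : X ^ p = 0 := by
    rw [hXdef, sub_pow_char_of_commute p hcomm, hCp, hDp, sub_self]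
  have hX1 : X ≠ 0 := by
    intro h
    have h3 : C = D := sub_eq_zero.1 h
    apply hc1
    have h4 : c ^ 2 = 1 := by
      ext v
      rw [← hpw, pow_two]
      have h5 : C * C = 1 := by nth_rw 2 [h3]; exact hCD
      rw [h5]; rfl
    have h5 := pow_gcd_eq_one.2 ⟨h4, hcp⟩
    have h6 : Nat.gcd 2 p = 1 := (Nat.coprime_primes Nat.prime_two hp).2 (Ne.symm hp2)
    rwa [h6, pow_one] at h5
  have hXs : ∀ v w, polar Q (X v) w = - polar Q v (X w) := by
    intro v w
    have e1 : ∀ v, X v = c v - c.symm v := fun v => rfl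
    rw [e1, e1, polar_sub_left, polar_sub_right]
    have e2 : ∀ v w, polar Q (c v) w = polar Q v (c.symm w) := by
      intro v w
      have := hpol v (c.symm w)
      rwa [LinearEquiv.apply_symm_apply] at this
    have e3 : polar Q (c.symm v) w = polar Q v (c w) := by
      have := e2 w v
      rw [polar_comm Q v (c w), this, polar_comm]
    rw [e2, e3]
    ring
  have hXpow : ∀ (m : ℕ) (v w : V), polar Q ((X ^ m) v) w = (-1) ^ m * polar Q v ((X ^ m) w) := by
    intro m
    induction m with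
    | zero => intro v w; simp
    | succ m ih =>
      intro v w
      have e1 : (X ^ (m + 1)) v = X ((X ^ m) v) := by rw [pow_succ', Module.End.mul_apply]
      have e2 : (X ^ (m + 1)) w = (X ^ m) (X w) := by rw [pow_succ, Module.End.mul_apply]
      rw [e1, e2, hXs, ih, pow_succ (-1 : F)]
      ring
  -- the index
  classical
  have hex : ∃ k, X ^ k = 0 := ⟨p, hXp⟩
  obtain ⟨k, hk, hmin⟩ : ∃ k, X ^ k = 0 ∧ ∀ m < k, X ^ m ≠ 0 := ⟨Nat.find hex, Nat.find_spec hex, fun m hm => Nat.find_min hex hm⟩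
  have hk2 : 2 ≤ k := by
    rcases Nat.lt_or_ge k 2 with h | h
    · interval_cases k
      · rw [pow_zero] at hk
        exact absurd hk one_ne_zero
      · rw [pow_one] at hk
        exact absurd hk hX1
    · exact h
  obtain ⟨m, hm1, hm2, hm3⟩ : ∃ m, Odd m ∧ m < k ∧ k ≤ 3 * m := by
    rcases Nat.even_or_odd k with h | h
    · exact ⟨k - 1, Nat.Even.sub_odd (by omega) h odd_one, by omega, by omega⟩
    · obtain ⟨j, rfl⟩ := h
      exact ⟨2 * j - 1, ⟨j - 1, by omega⟩, by omega, by omega⟩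
  refine res_of_skew hG h2 hp2 (X := X ^ m) (hmin m hm2) (fun v w => ?_) (fun v => ?_) (fun i v => ?_)
  · rw [hXpow, hm1.neg_one_pow]
    ring
  · have e1 : X ^ (3 * m) = 0 := by
      obtain ⟨j, hj⟩ := Nat.exists_eq_add_of_le hm3
      rw [hj, pow_add, hk, zero_mul]
    have e2 : (X ^ m) ((X ^ m) ((X ^ m) v)) = (X ^ (3 * m)) v := by
      rw [← Module.End.mul_apply, ← Module.End.mul_apply, ← pow_add, ← pow_add]
      congr 2
      ring
    rw [e2, e1]; rfl
  · have e1 : ∀ v, X (g i v) = g i (X v) := by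
      intro v
      have e2 : ∀ v, c (g i v) = g i (c v) := fun v => LinearEquiv.congr_fun (hcc i) v
      have e3 : ∀ v, c.symm (g i v) = g i (c.symm v) := by
        intro v
        apply c.injective
        rw [LinearEquiv.apply_symm_apply, e2, LinearEquiv.apply_symm_apply]
      change c (g i v) - c.symm (g i v) = g i (c v - c.symm v)
      rw [e2, e3, map_sub]
    have e4 : ∀ (n : ℕ) (v : V), (X ^ n) (g i v) = g i ((X ^ n) v) := by
      intro n
      induction n with
      | zero => intro v; rfl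
      | succ n ih => intro v; rw [pow_succ, Module.End.mul_apply, Module.End.mul_apply, e1, ih]
    exact e4 m v

/-! ### Characteristic two -/

/-- in even characteristic the isometries of the right parity are in `E Q` -/
theorem mem_E_of_even [Finite F] (hG : Good Q) (h2 : (2 : F) = 0) {g : V ≃ₗ[F] V} (hg : g ∈ O Q)
    (he : Even (finrank F (fix g) + finrank F V)) : g ∈ E Q := by
  have : FiniteDimensional F V := Module.finite_of_finrank_pos (by have := hG.dim; omega)
  obtain ⟨x, y, hxy⟩ := hG.exists_hyp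
  obtain ⟨w, hw0, _, hw1, hw2⟩ := hG.perp x y hxy
  have hsq : ∀ x : F, ∃ y, y ^ 2 = x := by
    have hinj : Function.Injective (fun y : F => y ^ 2) := by
      intro a b hab
      have h3 : (a - b) ^ 2 = 0 := by
        have h4 : a ^ 2 = b ^ 2 := hab
        linear_combination h4 + (b ^ 2 - a * b) * h2
      exact sub_eq_zero.1 (eq_zero_of_pow_eq_zero h3)
    exact fun x => Finite.injective_iff_surjective.1 hinj x
  have H : Hyp2 Q x y := ⟨h2, hsq, hG.nondeg, hxy.left, hxy.right, hxy.pair, w, hw0, hw1, hw2⟩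
  rcases H.mem_O_cases hg with h | ⟨e, he', rfl⟩
  · exact h
  · exact absurd he (odd_refl_E H.nd he' _)

section two

variable {N : V →ₗ[F] V}

/-- the isometry `1 + N` -/
structure Inv (Q : QuadraticForm F V) (N : V →ₗ[F] V) : Prop where
  two : (2 : F) = 0
  sq : ∀ v, N (N v) = 0
  form : ∀ v, Q (N v) = polar Q v (N v)

theorem dbl (h2 : (2 : F) = 0) (x : V) : x + x = 0 := by
  rw [← two_smul F, h2, zero_smul]

theorem dblF (h2 : (2 : F) = 0) (x : F) : x + x = 0 := by
  rw [← two_mul, h2, zero_mul]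

theorem Inv.iso (h : Inv Q N) (v : V) : Q (v + N v) = Q v := by
  rw [Q_add, h.form]
  have := dblF h.two (polar Q v (N v))
  linear_combination this

theorem Inv.pol (h : Inv Q N) (v w : V) : polar Q (v + N v) (w + N w) = polar Q v w := by
  have e : v + N v + (w + N w) = (v + w) + N (v + w) := by rw [map_add]; abel
  simp only [QuadraticMap.polar]
  rw [e, h.iso, h.iso, h.iso]

theorem Inv.nn (h : Inv Q N) (v w : V) : polar Q (N v) (N w) = 0 := by
  have h1 := h.pol (N v) w
  rw [h.sq, add_zero, polar_add_right] at h1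
  linear_combination h1

theorem Inv.sym (h : Inv Q N) (v w : V) : polar Q (N v) w = polar Q v (N w) := by
  have h1 := h.pol v w
  rw [polar_add_left, polar_add_right, polar_add_right, h.nn] at h1
  have := dblF h.two (polar Q v (N w))
  linear_combination h1 - this

/-- `Q N` is additive -/
theorem Inv.add (h : Inv Q N) (v w : V) : Q (N (v + w)) = Q (N v) + Q (N w) := by
  rw [map_add, Q_add, h.nn, add_zero]

/-- the isometry -/
def Inv.eqv (h : Inv Q N) : V ≃ₗ[F] V :=
  LinearEquiv.ofLinearMap (LinearMap.id + N) (LinearMap.id + N)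
    (LinearMap.ext fun v => by
      change (v + N v) + N (v + N v) = v
      rw [map_add, h.sq, add_zero, add_assoc, dbl h.two, add_zero])
    (LinearMap.ext fun v => by
      change (v + N v) + N (v + N v) = v
      rw [map_add, h.sq, add_zero, add_assoc, dbl h.two, add_zero])

theorem Inv.eqv_apply (h : Inv Q N) (v : V) : h.eqv v = v + N v := rfl

theorem Inv.mem_O (h : Inv Q N) : h.eqv ∈ O Q := fun v => h.iso v

theorem Inv.fix_eq (h : Inv Q N) : fix h.eqv = LinearMap.ker N := by
  ext v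
  rw [mem_fix, h.eqv_apply, LinearMap.mem_ker]
  constructor
  · intro h1
    exact left_eq_add.1 h1.symm
  · intro h1
    rw [h1, add_zero]

/-- alternating: even rank -/
theorem Inv.even [FiniteDimensional F V] (hQ : Nondeg Q) (h : Inv Q N) (h0 : ∀ v, Q (N v) = 0) :
    Even (finrank F (LinearMap.ker N) + finrank F V) := by
  let B : LinearMap.BilinForm F V := (polarBilin Q).compl₁₂ LinearMap.id N
  have hB : ∀ v w, B v w = polar Q v (N w) := fun v w => rfl
  have halt : B.IsAlt := by
    intro v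
    rw [hB, ← h.form, h0]
  obtain ⟨m, hm⟩ := Cfsg.Agent.ClassicalGeometry.TwoFamilies.exists_finrank_eq_ker_add B halt
  have hker : LinearMap.ker B = LinearMap.ker N := by
    ext v
    rw [LinearMap.mem_ker, LinearMap.mem_ker]
    constructor
    · intro h1
      apply hQ
      intro w
      rw [h.sym, ← hB, h1]
      rfl
    · intro h1
      ext w
      rw [hB, ← h.sym, h1]
      simp
  rw [hker] at hm
  exact ⟨finrank F (LinearMap.ker N) + m, by rw [hm]; ring⟩

end two

/-- `p = 2`, `Q N = 0` -/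
theorem two_a [Finite F] (hG : Good Q) {ι : Type*} {p : ℕ} {g : ι → (V ≃ₗ[F] V)} {N : V →ₗ[F] V} (h : Inv Q N)
    (hN0 : N ≠ 0) (h0 : ∀ v, Q (N v) = 0) (hcN : ∀ i v, N (g i v) = g i (N v)) : Res Q p g := by
  have : FiniteDimensional F V := Module.finite_of_finrank_pos (by have := hG.dim; omega)
  have hgr : ∀ (t u : F) (v : V), fo N 0 t (fo N 0 u v) = fo N 0 (t + u) v :=
    fo_add (fun v => by rw [h.sq, LinearMap.zero_apply, smul_zero]) (fun v => by simp) (fun v => by simp) (fun v => by simp)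
  refine res_of hN0 (fun _ => ?_) hgr (fun t => ?_) hcN (fun i v => by simp)
  · rw [LinearMap.range_zero, finrank_bot]; exact Nat.zero_le _
  · have ht : Inv Q (t • N) := by
      refine ⟨h.two, fun v => ?_, fun v => ?_⟩
      · rw [LinearMap.smul_apply, LinearMap.smul_apply, map_smul, h.sq, smul_zero, smul_zero]
      · rw [LinearMap.smul_apply, QuadraticMap.map_smul, h0, smul_zero, polar_smul_right, ← h.form, h0, smul_zero]
    have e : ao N 0 hgr t = ht.eqv := by
      ext v
      rw [ao_apply, ht.eqv_apply, LinearMap.zero_apply, smul_zero, add_zero, LinearMap.smul_apply]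
    rw [e]
    apply mem_E_of_even hG h.two ht.mem_O
    rw [ht.fix_eq]
    refine ht.even hG.nondeg (fun v => ?_)
    rw [LinearMap.smul_apply, QuadraticMap.map_smul, h0, smul_zero]

/-- `p = 2`, two independent fixed vectors -/
theorem two_b (hG : Good Q) {ι : Type*} {p : ℕ} {g : ι → (V ≃ₗ[F] V)} (hg : ∀ i v, Q (g i v) = Q v) {e b : V}
    (he : Q e = 0) (he0 : e ≠ 0) (heb : polar Q e b = 0) (hb : ∀ a : F, b ≠ a • e) (hge : ∀ i, g i e = e)
    (hgb : ∀ i, g i b = b) : Res Q p g := by
  let X : V →ₗ[F] V := (polarBilin Q e).smulRight b - (polarBilin Q b).smulRight e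
  let Y : V →ₗ[F] V := -(Q b) • (polarBilin Q e).smulRight e
  have hX : ∀ v, X v = polar Q e v • b - polar Q b v • e := fun v => rfl
  have hY : ∀ v, Y v = -(Q b) • polar Q e v • e := fun v => rfl
  have hw : ∀ t : F, polar Q e (t • b) = 0 := fun t => by rw [polar_smul_right, heb, smul_zero]
  have hgp : ∀ i v w, polar Q (g i v) (g i w) = polar Q v w := by
    intro i v w
    simp only [QuadraticMap.polar]
    rw [← map_add, hg, hg, hg]
  have happ : ∀ (t : F) (v : V), siegel Q e (t • b) he (hw t) v = v + t • X v + t ^ 2 • Y v := by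
    intro t v
    rw [siegel_apply, hX, hY, QuadraticMap.map_smul, polar_smul_left]
    simp only [smul_eq_mul]
    module
  refine ⟨X, Y, fun t => siegel Q e (t • b) he (hw t), ?_, fun _ => ?_, happ, fun t => siegel_mem_E _ _, fun t u => ?_,
    fun t i => ?_⟩
  · intro h
    have h1 : ∃ v, polar Q e v ≠ 0 := by
      by_contra hcon
      push Not at hcon
      exact he0 (hG.nondeg e hcon)
    obtain ⟨v, hv⟩ := h1
    apply hb ((polar Q e v)⁻¹ * polar Q b v)
    have h2 := hX v
    rw [h, LinearMap.zero_apply] at h2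
    rw [mul_smul, ← sub_eq_zero.1 h2.symm, smul_smul, inv_mul_cancel₀ hv, one_smul]
  · have h1 : LinearMap.range Y ≤ Submodule.span F {e} := by
      rintro _ ⟨v, rfl⟩
      rw [hY]
      exact Submodule.smul_mem _ _ (Submodule.smul_mem _ _ (Submodule.mem_span_singleton_self e))
    exact (Submodule.finrank_mono h1).trans (finrank_span_singleton he0).le
  · have h1 : (t + u) • b = t • b + u • b := add_smul _ _ _
    have h2 : polar Q e (t • b + u • b) = 0 := by rw [← h1]; exact hw _
    beta_reduce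
    rw [siegel_mul he (hw t) (hw u) h2]
    congr 1
  · ext v
    change siegel Q e (t • b) he (hw t) (g i v) = g i (siegel Q e (t • b) he (hw t) v)
    rw [happ, happ, hX, hX, hY, hY]
    have e1 : polar Q e (g i v) = polar Q e v := by
      have := hgp i e v
      rwa [hge] at this
    have e2 : polar Q b (g i v) = polar Q b v := by
      have := hgp i b v
      rwa [hgb] at this
    rw [e1, e2]
    simp only [map_add, map_sub, map_smul, hge, hgb]

/-- the case of even characteristic -/
theorem two_case [Finite F] (hG : Good Q) {ι : Type*} [Finite ι] (h2 : (2 : F) = 0) {p : ℕ} {g : ι → (V ≃ₗ[F] V)}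
    (hg : ∀ i v, Q (g i v) = Q v) {r : ι → ℕ} (hr : ∀ i, Odd (r i)) (hpow : ∀ i, g i ^ r i = 1)
    (hc : ∀ i j, g i * g j = g j * g i) {c : V ≃ₗ[F] V} (hcE : c ∈ E Q) (hcp : c ^ 2 = 1) (hc1 : c ≠ 1)
    (hcc : ∀ i, c * g i = g i * c) : Res Q p g := by
  classical
  have : FiniteDimensional F V := Module.finite_of_finrank_pos (by have := hG.dim; omega)
  have hVf : Finite V := Module.finite_of_finite F
  have hfin : Finite (V ≃ₗ[F] V) := Finite.of_injective (fun f : V ≃ₗ[F] V => (f : V → V)) DFunLike.coe_injective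
  have := Fintype.ofFinite ι
  let A : Subgroup (V ≃ₗ[F] V) := Subgroup.closure (Set.range g)
  have := Fintype.ofFinite A
  have hAg : ∀ i, g i ∈ A := fun i => Subgroup.subset_closure ⟨i, rfl⟩
  have hcg : ∀ (y : V ≃ₗ[F] V), (∀ i, y * g i = g i * y) → ∀ a ∈ A, y * a = a * y := by
    intro y hy a ha
    have h1 : A ≤ Subgroup.centralizer {y} := by
      rw [Subgroup.closure_le]
      rintro _ ⟨i, rfl⟩
      change g i ∈ Subgroup.centralizer {y}
      rw [Subgroup.mem_centralizer_singleton_iff]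
      exact (hy i).symm
    exact ((Subgroup.mem_centralizer_singleton_iff.1 (h1 ha))).symm
  have hAA : ∀ a ∈ A, ∀ b ∈ A, a * b = b * a := by
    intro a ha b hb
    exact hcg a (fun i => (hcg (g i) (fun j => hc i j) a ha).symm) b hb
  -- the order of `A` is odd
  have hm : Odd (∏ i, r i) := Finset.prod_induction r Odd (fun a b ha hb => ha.mul hb) odd_one (fun i _ => hr i)
  have hAm : ∀ a ∈ A, a ^ (∏ i, r i) = 1 := by
    intro a ha
    induction ha using Subgroup.closure_induction with
    | mem x hx =>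
      obtain ⟨i, rfl⟩ := hx
      obtain ⟨k, hk⟩ := Finset.dvd_prod_of_mem r (Finset.mem_univ i)
      rw [hk, pow_mul, hpow, one_pow]
    | one => exact one_pow _
    | mul x y hx hy h1 h2 =>
      have h3 : Commute x y := hAA x hx y hy
      rw [h3.mul_pow, h1, h2, one_mul]
    | inv x hx h1 => rw [inv_pow, h1, inv_one]
  have hodd : Odd (Fintype.card A) := by
    rw [← Nat.not_even_iff_odd]
    intro hev
    have := Fact.mk Nat.prime_two
    obtain ⟨a, ha⟩ := exists_prime_orderOf_dvd_card 2 hev.two_dvd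
    have h1 := orderOf_dvd_of_pow_eq_one (Subtype.ext (hAm a a.2) : a ^ (∏ i, r i) = 1)
    rw [ha] at h1
    exact (Nat.not_even_iff_odd.2 hm) (even_iff_two_dvd.2 h1)
  have hcardF : ((Fintype.card A : ℕ) : F) = 1 := by
    obtain ⟨k, hk⟩ := hodd
    rw [hk]
    push_cast
    rw [h2, zero_mul, zero_add]
  have hcardV : ∀ v : V, (Fintype.card A) • v = v := by
    intro v
    rw [← Nat.cast_smul_eq_nsmul F, hcardF, one_smul]
  -- the average
  let ev : V →ₗ[F] V := ∑ a : A, ((a : V ≃ₗ[F] V) : V →ₗ[F] V)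
  have hev : ∀ v, ev v = ∑ a : A, (a : V ≃ₗ[F] V) v := fun v => by
    change (∑ a : A, ((a : V ≃ₗ[F] V) : V →ₗ[F] V)) v = _
    rw [LinearMap.sum_apply]
    rfl
  have he1 : ∀ b ∈ A, ∀ v, b (ev v) = ev v := by
    intro b hb v
    rw [hev, map_sum]
    exact Fintype.sum_equiv (Equiv.mulLeft (⟨b, hb⟩ : A)) _ _ (fun a => rfl)
  have he2 : ∀ v, ev (ev v) = ev v := by
    intro v
    rw [hev (ev v), Finset.sum_congr rfl (fun (a : A) _ => he1 a a.2 v), Finset.sum_const, Finset.card_univ, hcardV]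
  have hpol : ∀ a ∈ A, ∀ v, Q (a v) = Q v := by
    intro a ha
    have h1 : A ≤ O Q := by
      rw [Subgroup.closure_le]
      rintro _ ⟨i, rfl⟩
      exact hg i
    exact h1 ha
  have hpol' : ∀ a ∈ A, ∀ v w, polar Q (a v) (a w) = polar Q v w := by
    intro a ha v w
    simp only [QuadraticMap.polar]
    rw [← map_add, hpol a ha, hpol a ha, hpol a ha]
  have he4 : ∀ v w, polar Q (ev v) w = polar Q v (ev w) := by
    intro v w
    have e1 : polar Q (ev v) w = ∑ a : A, polar Q ((a : V ≃ₗ[F] V) v) w := by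
      rw [hev]
      have := map_sum ((polarBilin Q).flip w) (fun a : A => (a : V ≃ₗ[F] V) v) Finset.univ
      exact this
    have e2 : polar Q v (ev w) = ∑ a : A, polar Q v ((a : V ≃ₗ[F] V) w) := by
      rw [hev]
      exact map_sum (polarBilin Q v) (fun a : A => (a : V ≃ₗ[F] V) w) Finset.univ
    rw [e1, e2]
    refine Fintype.sum_equiv (Equiv.inv A) _ _ (fun a => ?_)
    have h1 := hpol' a a.2 v (((a⁻¹ : A) : V ≃ₗ[F] V) w)
    have h2 : (a : V ≃ₗ[F] V) (((a⁻¹ : A) : V ≃ₗ[F] V) w) = w := (a : V ≃ₗ[F] V).apply_symm_apply w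
    rw [h2] at h1
    exact h1
  -- the nilpotent map
  let N : V →ₗ[F] V := (c : V →ₗ[F] V) - LinearMap.id
  have hN : ∀ v, N v = c v - v := fun v => rfl
  have hcO : ∀ v, Q (c v) = Q v := E_le_O hcE
  have hneg : ∀ v : V, -v = v := fun v => by
    rw [neg_eq_iff_add_eq_zero]; exact dbl h2 v
  have hInv : Inv Q N := by
    refine ⟨h2, fun v => ?_, fun v => ?_⟩
    · have e1 : c (c v) = v := by
        have := LinearEquiv.congr_fun hcp v
        rw [pow_two] at this
        exact this
      rw [hN, hN, map_sub, e1]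
      have e2 := dbl h2 (v - c v)
      rw [← e2]; abel
    · have e1 : Q (c v - v) = Q (c v) + Q v - polar Q (c v) v := by
        rw [sub_eq_add_neg, Q_add, QuadraticMap.map_neg, polar_neg_right]; ring
      rw [hN, e1, hcO, polar_sub_right, two_Q, polar_comm Q v (c v)]
      linear_combination (2 * Q v - polar Q (c v) v) * h2
  have hN0 : N ≠ 0 := by
    intro h
    apply hc1
    ext v
    have := LinearMap.congr_fun h v
    rw [hN, LinearMap.zero_apply] at this
    exact sub_eq_zero.1 this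
  have hcA : ∀ a ∈ A, ∀ v, N (a v) = a (N v) := by
    intro a ha v
    have h1 : c (a v) = a (c v) := LinearEquiv.congr_fun (hcg c hcc a ha) v
    rw [hN, hN, h1, map_sub]
  have hNe : ∀ v, N (ev v) = ev (N v) := by
    intro v
    rw [hev, hev, map_sum]
    exact Finset.sum_congr rfl (fun a _ => hcA a a.2 v)
  by_cases h0 : ∀ v, Q (N v) = 0
  · exact two_a hG hInv hN0 h0 (fun i v => hcA _ (hAg i) v)
  push Not at h0
  obtain ⟨v0, hv0⟩ := h0
  -- `φ v = Q (N v)`
  let φ : V →+ F :=
    { toFun := fun v => Q (N v)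
      map_zero' := by rw [map_zero, QuadraticMap.map_zero]
      map_add' := hInv.add }
  have hφ : ∀ v, φ v = Q (N v) := fun v => rfl
  have hφe : ∀ v, φ (ev v) = φ v := by
    intro v
    rw [hev, map_sum]
    have : ∀ a : A, φ ((a : V ≃ₗ[F] V) v) = φ v := fun a => by
      rw [hφ, hφ, hcA a a.2, hpol a a.2]
    rw [Finset.sum_congr rfl (fun a _ => this a), Finset.sum_const, Finset.card_univ, nsmul_eq_mul, hcardF, one_mul]
  let N1 : V →ₗ[F] V := N ∘ₗ ev
  let N2 : V →ₗ[F] V := N + N ∘ₗ ev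
  have hN1 : ∀ v, N1 v = N (ev v) := fun v => rfl
  have hN2 : ∀ v, N2 v = N (v + ev v) := fun v => by rw [map_add]; rfl
  have h1 : Inv Q N1 := by
    refine ⟨h2, fun v => ?_, fun v => ?_⟩
    · rw [hN1, hN1, ← hNe, hInv.sq]
    · rw [hN1, hInv.form, he4, ← hNe, he2]
  have h2' : Inv Q N2 := by
    refine ⟨h2, fun v => ?_, fun v => ?_⟩
    · rw [hN2, hN2, map_add, ← hNe, hInv.sq, hInv.sq, add_zero]
    · have e1 : polar Q (ev v) (N (v + ev v)) = 0 := by
        rw [he4, ← hNe, map_add ev, he2, dbl h2, map_zero]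
        simp
      rw [hN2, hInv.form, polar_add_left, e1, add_zero]
  have h20 : ∀ v, Q (N2 v) = 0 := by
    intro v
    rw [hN2, ← hφ, map_add, hφe, dblF h2]
  have hmul : c = h1.eqv * h2'.eqv := by
    ext v
    change c v = h1.eqv (h2'.eqv v)
    rw [h2'.eqv_apply, h1.eqv_apply, map_add N1, hN1 (N2 v), hN2, ← hNe, hInv.sq, add_zero, hN1, map_add N, hN]
    have e1 := dbl h2 (N (ev v))
    calc c v = v + (c v - v) + 0 := by abel
      _ = v + (c v - v) + (N (ev v) + N (ev v)) := by rw [e1]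
      _ = _ := by abel
  have hE2 : h2'.eqv ∈ E Q := by
    apply mem_E_of_even hG h2 h2'.mem_O
    rw [h2'.fix_eq]
    exact h2'.even hG.nondeg h20
  have hE1 : h1.eqv ∈ E Q := by
    have : h1.eqv = c * h2'.eqv⁻¹ := by rw [hmul, mul_inv_cancel_right]
    rw [this]
    exact mul_mem hcE (inv_mem hE2)
  have hev1 := even_E hG.nondeg hE1
  rw [h1.fix_eq] at hev1
  have hrk : Even (finrank F (LinearMap.range N1)) := by
    have h3 := LinearMap.finrank_range_add_finrank_ker N1
    rw [← h3] at hev1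
    rw [Nat.even_iff] at hev1 ⊢
    omega
  -- two independent vectors
  have hx0 : N1 v0 ≠ 0 := by
    intro h
    apply hv0
    rw [← hφ, ← hφe, hφ, ← hN1, h, QuadraticMap.map_zero]
  obtain ⟨w0, hw0⟩ : ∃ w0, ∀ a : F, N1 w0 ≠ a • N1 v0 := by
    by_contra hcon
    push Not at hcon
    have h3 : LinearMap.range N1 ≤ Submodule.span F {N1 v0} := by
      rintro _ ⟨w, rfl⟩
      obtain ⟨a, ha⟩ := hcon w
      rw [ha]
      exact Submodule.smul_mem _ _ (Submodule.mem_span_singleton_self _)
    have h4 := Submodule.finrank_mono h3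
    rw [finrank_span_singleton hx0] at h4
    have h5 : finrank F (LinearMap.range N1) ≠ 0 := by
      intro h
      rw [Submodule.finrank_eq_zero] at h
      have : N1 v0 ∈ LinearMap.range N1 := ⟨v0, rfl⟩
      rw [h] at this
      exact hx0 this
    rw [Nat.even_iff] at hrk
    omega
  have hfx : ∀ i v, g i (N1 v) = N1 v := by
    intro i v
    rw [hN1, hNe]
    exact he1 _ (hAg i) _
  have hpp : ∀ v w, polar Q (N1 v) (N1 w) = 0 := h1.nn
  by_cases hq : Q (N1 v0) = 0
  · exact two_b hG hg hq hx0 (hpp _ _) hw0 (fun i => hfx i _) (fun i => hfx i _)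
  · have hsq : ∀ x : F, ∃ y, y ^ 2 = x := by
      have hinj : Function.Injective (fun y : F => y ^ 2) := by
        intro a b hab
        have h3 : (a - b) ^ 2 = 0 := by
          have h4 : a ^ 2 = b ^ 2 := hab
          linear_combination h4 + (b ^ 2 - a * b) * h2
        exact sub_eq_zero.1 (eq_zero_of_pow_eq_zero h3)
      exact fun x => Finite.injective_iff_surjective.1 hinj x
    obtain ⟨t, ht⟩ := hsq (Q (N1 w0) / Q (N1 v0))
    refine two_b hG hg (e := t • N1 v0 + N1 w0) (b := N1 v0) ?_ ?_ ?_ ?_ (fun i => ?_) (fun i => hfx i _)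
    · rw [Q_add, QuadraticMap.map_smul, polar_smul_left, hpp, smul_zero, add_zero, smul_eq_mul, ← pow_two, ht,
        div_mul_cancel₀ _ hq, dblF h2]
    · intro h
      apply hw0 t
      rw [← hneg (t • N1 v0)]
      exact eq_neg_of_add_eq_zero_right h
    · rw [polar_add_left, polar_smul_left, hpp, hpp, smul_zero, add_zero]
    · intro s hs
      by_cases hs0 : s = 0
      · rw [hs0, zero_smul] at hs
        exact hx0 hs
      · apply hw0 (s⁻¹ - t)
        have h5 : s⁻¹ • N1 v0 = t • N1 v0 + N1 w0 := by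
          rw [inv_smul_eq_iff₀ hs0]
          exact hs
        rw [sub_smul, h5]
        abel
    · rw [map_add, map_smul, hfx, hfx]

end Cfsg.Agent.H579.RC.Opg

namespace Cfsg.Agent.H864.RC

open Module QuadraticMap MulAction
open Cfsg.Agent.LieClassical.OrthCore Cfsg.Agent.LieClassical.OrthTrans
open Cfsg.Agent.LieClassical.OrthSimple Cfsg.Agent.ClassicalGeometry.OrthSemi
open Cfsg.Agent.ClassicalGeometry.OrthAut1 Cfsg.Agent.H106.RC Cfsg.Agent.H93.RC Cfsg.Agent.H566.RC
open Cfsg.Agent.LieClassical.QuadForms Cfsg.Agent.ClassicalGeometry.TrialityOct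
open Cfsg.Agent.ClassicalGeometry.Triality Cfsg.Agent.ClassicalGeometry.TrialitySpaces
open Cfsg.Agent.H198.TriBase Cfsg.Agent.H198.TriAut Cfsg.Agent.H206.Balance Cfsg.Agent.H198.TriDia
open Cfsg.Agent.H198.TwComp Cfsg.Agent.H198

variable {F : Type} [Field F]

/-- existence: an element of order `p` commuting with the `p'`-family `g` gives a one-parameter group in `E Q` -/
theorem exists_opg [Finite F] {ι : Type} [Finite ι] {p : ℕ} [CharP F p] (hp : p.Prime)
    (hG : Good (plusForm 4 F)) {g : ι → (V8 F ≃ₗ[F] V8 F)} (hg : ∀ i, g i ∈ E (plusForm 4 F)) {r : ι → ℕ}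
    (hr : ∀ i, (r i).Prime) (hrp : ∀ i, r i ≠ p) (hpow : ∀ i, g i ^ r i = 1) (hc : ∀ i j, g i * g j = g j * g i)
    {c : V8 F ≃ₗ[F] V8 F} (hcE : c ∈ E (plusForm 4 F)) (hcp : c ^ p = 1) (hc1 : c ≠ 1)
    (hcc : ∀ i, c * g i = g i * c) :
    ∃ (X Y : V8 F →ₗ[F] V8 F) (a : F → (V8 F ≃ₗ[F] V8 F)), X ≠ 0 ∧ (p = 2 → finrank F (LinearMap.range Y) ≤ 1) ∧
      (∀ t v, a t v = v + t • X v + t ^ 2 • Y v) ∧ (∀ t, a t ∈ E (plusForm 4 F)) ∧
      (∀ t u, a (t + u) = a t * a u) ∧ ∀ t i, a t * g i = g i * a t := by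
  have : FiniteDimensional F (V8 F) := inferInstance
  by_cases hp2 : p = 2
  · subst hp2
    have h2 : (2 : F) = 0 := by exact_mod_cast CharP.cast_eq_zero F 2
    exact H579.RC.Opg.two_case hG h2 (fun i v => E_le_O (hg i) v) (fun i => (hr i).odd_of_ne_two (hrp i)) hpow hc hcE
      hcp hc1 hcc
  · exact H579.RC.Opg.odd_case hG hp hp2 (E_le_O hcE) hcp hc1 hcc

end Cfsg.Agent.H864.RC
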