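import Cfsg.Agent.H579.RC.CaseTwo
import Cfsg.Agent.H993.RC.TwoBFinal
import Cfsg.Agent.H452.RC.GDecMain
import Cfsg.Agent.H452.RC.DecMain
import Cfsg.Agent.H906.RC.Small

/-!
# S3510, family E, box E10, final form (helper579; case B: helper993)
-/

set_option autoImplicit false

namespace Cfsg.Agent.H579.RC

/-- **E10** `CaseTwo` -/
theorem case_two : H380.RC.CaseTwo :=
  caseTwo_of H452.RC.dec_main H452.RC.gdec_main H906.RC.small_stmt H993.RC.two_b

end Cfsg.Agent.H579.RC
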