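import Cfsg.Agent.H993.RC.TwoDefs

/-!
# S3510, family E, box E10 (`CaseTwo`): case A (helper579)

`caseA` : a proper invariant nondegenerate subspace on which the element of order `p` is not the identity.
`caseTwo_of : DecStmt → GDecStmt → SmallStmt → TwoB → CaseTwo`.
-/

set_option autoImplicit false
set_option linter.unusedSectionVars false

namespace Cfsg.Agent.H579.RC

open Matrix Cfsg Cfsg.Agent.LieClassical.HermBasic Cfsg.Agent.LieClassical.HermSiegel
  Cfsg.Agent.ClassicalGeometry.PSUAutBasic Cfsg.Agent.ClassicalGeometry.PSUAutCount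
  Cfsg.Agent.ClassicalGeometry Cfsg.Agent.ClassicalGeometry.HermOrtho Cfsg.Agent.H380.RC Cfsg.Agent.H993.RC

theorem rank_one_aux {K W : Type*} [Field K] [AddCommGroup W] [Module K W] [FiniteDimensional K W]
    (h3 : Module.finrank K W = 3) (D : Module.End K W) (hDD : ∀ v, D (D v) = 0) :
    (∀ v w, D v ≠ 0 → ∃ c : K, D w = c • D v) ∧ ∀ e : W, ∃ w, D w = 0 ∧ ∀ c : K, w ≠ c • e := by
  have hrange : LinearMap.range D ≤ LinearMap.ker D := by
    rintro _ ⟨v, rfl⟩
    exact LinearMap.mem_ker.2 (hDD v)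
  have h1 := LinearMap.finrank_range_add_finrank_ker D
  have h2 := Submodule.finrank_mono hrange
  have hrk : Module.finrank K (LinearMap.range D) ≤ 1 := by omega
  have hker : 2 ≤ Module.finrank K (LinearMap.ker D) := by omega
  constructor
  · intro v w hv
    obtain ⟨g, hg⟩ := finrank_le_one_iff.1 hrk
    obtain ⟨a, ha⟩ := hg ⟨D v, ⟨v, rfl⟩⟩
    obtain ⟨b, hb⟩ := hg ⟨D w, ⟨w, rfl⟩⟩
    have ha' : a • (g : W) = D v := congrArg Subtype.val ha
    have hb' : b • (g : W) = D w := congrArg Subtype.val hb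
    have ha0 : a ≠ 0 := by
      rintro rfl
      rw [zero_smul] at ha'
      exact hv ha'.symm
    refine ⟨b * a⁻¹, ?_⟩
    rw [← ha', ← hb', smul_smul, mul_assoc, inv_mul_cancel₀ ha0, mul_one]
  · intro e
    by_contra hno
    push Not at hno
    have h4 : LinearMap.ker D ≤ Submodule.span K {e} := by
      intro w hw
      obtain ⟨c, hc⟩ := hno w (LinearMap.mem_ker.1 hw)
      rw [hc]
      exact Submodule.smul_mem _ _ (Submodule.mem_span_singleton_self e)
    have h5 := Submodule.finrank_mono h4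
    have h6 : Module.finrank K (Submodule.span K {e}) ≤ 1 := (finrank_span_le_card ({e} : Set W)).trans (by simp)
    omega

section

variable {G Ω : Type} [Group G] [Finite G] [Finite Ω] [Nonempty Ω] [MulAction G Ω] {N : Subgroup G} {F : Type} [Field F]
  [Fintype F] {n q : ℕ} {U : UEnv G Ω N F n q} {ι : Type} [Finite ι] {x : ι → G} {f : ι → (Fin n → F) → (Fin n → F)}
  {r : ι → ℕ} {i₀ : ι}

/-- the context of `CaseTwo` -/
structure CTwo (U : UEnv G Ω N F n q) (x : ι → G) (f : ι → (Fin n → F) → (Fin n → F)) (r : ι → ℕ) (i₀ : ι) : Prop where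
  hU : UFam U x f r
  cov : H106.RC.Cov Ω x
  h42 : ¬ (n = 4 ∧ q = 2)
  lin : ∀ i : ι, Lin (f i)
  h0 : ¬ (r i₀).Coprime q
  ih : H106.RC.IH (Nat.card (PSU n F q))

/-- `A` is proper, invariant, nondegenerate, and `f i₀` is not the identity on `A` -/
structure Bad (q : ℕ) (f : ι → (Fin n → F) → (Fin n → F)) (i₀ : ι) (A : Submodule F (Fin n → F)) : Prop where
  nd : NDeg q A
  st : ∀ i : ι, Stab (f i) A
  ne : ∃ v ∈ A, f i₀ v ≠ v

theorem Bad.two_le (h : CTwo U x f r i₀) {A : Submodule F (Fin n → F)} (hA : Bad q f i₀ A) :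
    2 ≤ Module.finrank F A := by
  by_contra hlt
  have h1 : Module.finrank F A ≤ 1 := by omega
  obtain ⟨g, hg⟩ := finrank_le_one_iff.1 h1
  obtain ⟨v, hv, hv1⟩ := hA.ne
  obtain ⟨c, hc⟩ := hg ⟨_, hA.st i₀ g.1 g.2⟩
  have h2 : f i₀ g.1 = c • g.1 := (congrArg Subtype.val hc).symm
  have h3 := fam_scal h.hU h.lin h.h0 h2
  obtain ⟨d, hd⟩ := hg ⟨v, hv⟩
  have h4 : v = d • g.1 := (congrArg Subtype.val hd).symm
  apply hv1
  rw [h4, h.lin i₀, h3]

/-- (A1) -/
theorem decA (hdec : DecStmt) (hsmall : SmallStmt) (h : CTwo U x f r i₀) {A : Submodule F (Fin n → F)}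
    (hA : Bad q f i₀ A) (hA1 : A ≠ ⊤) (h3 : 3 ≤ Module.finrank F A) (h32 : ¬ (Module.finrank F A = 3 ∧ q = 2)) :
    False := by
  refine hdec U x f r h.hU h.cov ⟨A, hA.nd, hA1, h3, h32, hA.st, ?_, ?_⟩
  · rintro i ⟨c, hc⟩
    by_contra hcop
    have hi : i = i₀ := by
      by_contra hi
      exact hcop (fam_coprime h.hU h.h0 hi)
    subst hi
    obtain ⟨v, hv, hv1⟩ := hA.ne
    exact hv1 (fam_scal h.hU h.lin h.h0 (hc v hv))
  · refine (hsmall U.hF U.hn U.h32 h.ih).1 _ h3 ?_ h32
    have h4 := Submodule.finrank_lt hA1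
    rwa [Module.finrank_fin_fun] at h4

theorem herm_cancel {a b : F} (h : a * b ^ q = 0) (hb : b ≠ 0) : a = 0 :=
  (mul_eq_zero.1 h).resolve_right (pow_ne_zero _ hb)

/-- (A2) -/
theorem decA2 (hdec : DecStmt) (hsmall : SmallStmt) (h : CTwo U x f r i₀) {A : Submodule F (Fin n → F)}
    (hA : Bad q f i₀ A) (h3 : Module.finrank F A = 3) (hq : q = 2) : False := by
  classical
  have hF := U.hF
  have hn := U.hn
  obtain ⟨hp, hchar, k0, hk0⟩ := fam_char h.hU h.h0
  have hr2 : r i₀ = 2 := by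
    have h1 : r i₀ ∣ 2 := by
      rw [hq] at hk0
      rw [hk0]
      apply dvd_pow_self
      rintro rfl
      norm_num at hk0
    exact (Nat.prime_dvd_prime_iff_eq hp Nat.prime_two).1 h1
  have hlft := h.hU.lft
  have hadd : ∀ i v w, f i (v + w) = f i v + f i w := fun i => Ind.map_add (hlft i)
  have hsm : ∀ i (c : F) v, f i (c • v) = c • f i v := h.lin
  have hherm : ∀ i v w, hermForm n F q (f i v) (f i w) = hermForm n F q v w := fun i => lin_herm (hlft i) (h.lin i)
  -- `D = u - 1`
  let D : Module.End F (Fin n → F) := lmap (hlft i₀) (h.lin i₀) - 1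
  have hD : ∀ v, D v = f i₀ v - v := fun v => rfl
  have hDD : ∀ v, D (D v) = 0 := by
    intro v
    have h1 := fam_nil h.hU h.lin h.h0
    rw [hr2, pow_two] at h1
    exact congrArg (fun g : Module.End F (Fin n → F) => g v) h1
  have hDA : ∀ v ∈ A, D v ∈ A := fun v hv => A.sub_mem (hA.st i₀ v hv) hv
  have hDc : ∀ i v, f i (D v) = D (f i v) := by
    intro i v
    rw [hD, hD, Ind.map_sub (hlft i), h.hU.comm]
  obtain ⟨v0, hv0, hv1⟩ := hA.ne
  obtain ⟨e, he⟩ : ∃ e, e = D v0 := ⟨_, rfl⟩
  have heA : e ∈ A := by rw [he]; exact hDA _ hv0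
  have he0 : e ≠ 0 := by rw [he, hD]; exact sub_ne_zero.2 hv1
  have hDe : D e = 0 := by rw [he, hDD]
  -- the range of `D` on `A` is a line
  obtain ⟨hr1, hr2'⟩ := rank_one_aux h3 (D.restrict hDA) (fun v => Subtype.ext (hDD v))
  have hline : ∀ v ∈ A, ∃ c : F, D v = c • e := by
    intro v hv
    obtain ⟨c, hc⟩ := hr1 ⟨v0, hv0⟩ ⟨v, hv⟩ (fun h0 => he0 (he.trans (congrArg Subtype.val h0)))
    exact ⟨c, by rw [he]; exact congrArg Subtype.val hc⟩
  -- orthogonality
  have hort : ∀ v w, D w = 0 → hermForm n F q (D v) w = 0 := by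
    intro v w hw
    rw [hD] at hw
    rw [hD, herm_sub_left]
    nth_rewrite 1 [← sub_eq_zero.1 hw]
    rw [hherm, sub_self]
  -- the plane `K`
  have hK2 : ∃ w0 ∈ A, D w0 = 0 ∧ ∀ c : F, w0 ≠ c • e := by
    obtain ⟨w, hw, hw1⟩ := hr2' ⟨e, heA⟩
    exact ⟨w.1, w.2, congrArg Subtype.val hw, fun c hc => hw1 c (Subtype.ext hc)⟩
  -- coordinates in `K`
  obtain ⟨w0, hw0A, hw0D, hw0⟩ := hK2
  have hspan : ∀ v ∈ A, D v = 0 → ∃ a b : F, v = a • w0 + b • e := by
    intro v hv hDv
    -- `A = ⟨v0, w0, e⟩`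
    have hli : LinearIndependent F ![v0, w0, e] := by
      rw [Fintype.linearIndependent_iff]
      intro g hg
      rw [Fin.sum_univ_three] at hg
      simp only [Matrix.cons_val_zero, Matrix.cons_val_one, Matrix.cons_val_two, Matrix.head_cons, Matrix.tail_cons]
        at hg
      change g 0 • v0 + g 1 • w0 + g 2 • e = 0 at hg
      have h1 := congrArg D hg
      rw [map_add, map_add, map_smul, map_smul, map_smul, hw0D, hDe, ← he, smul_zero, smul_zero, add_zero, add_zero,
        map_zero] at h1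
      have g0 := (smul_eq_zero.1 h1).resolve_right he0
      rw [g0, zero_smul, zero_add] at hg
      have g1 : g 1 = 0 := by
        by_contra hne
        apply hw0 (-((g 1)⁻¹ * g 2))
        rw [← sub_eq_zero]
        have h2 : w0 - -((g 1)⁻¹ * g 2) • e = (g 1)⁻¹ • (g 1 • w0 + g 2 • e) := by
          rw [smul_add, smul_smul, smul_smul, inv_mul_cancel₀ hne, one_smul, neg_smul, sub_neg_eq_add]
        rw [h2, hg, smul_zero]
      rw [g1, zero_smul, zero_add] at hg
      have g2 := (smul_eq_zero.1 hg).resolve_right he0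
      intro i
      fin_cases i
      · exact g0
      · exact g1
      · exact g2
    have hsp : Submodule.span F (Set.range ![v0, w0, e]) = A := by
      apply Submodule.eq_of_le_of_finrank_eq
      · rw [Submodule.span_le]
        rintro _ ⟨i, rfl⟩
        fin_cases i
        · exact hv0
        · exact hw0A
        · exact heA
      · rw [finrank_span_eq_card hli, h3]
        rfl
    rw [← hsp, Submodule.mem_span_range_iff_exists_fun] at hv
    obtain ⟨g, hg⟩ := hv
    rw [Fin.sum_univ_three] at hg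
    change g 0 • v0 + g 1 • w0 + g 2 • e = v at hg
    rw [← hg, map_add, map_add, map_smul, map_smul, map_smul, hw0D, hDe, ← he, smul_zero, smul_zero, add_zero,
      add_zero] at hDv
    rw [(smul_eq_zero.1 hDv).resolve_right he0, zero_smul, zero_add] at hg
    exact ⟨g 1, g 2, hg.symm⟩
  -- the members on `e`
  have hfe : ∀ i, ∃ a : F, f i e = a • e := by
    intro i
    obtain ⟨a, ha⟩ := hline (f i v0) (hA.st i v0 hv0)
    exact ⟨a, by rw [he, hDc, ha, he]⟩
  -- a common eigenvector
  obtain ⟨w, hwA, hwD, hwe, hwf⟩ : ∃ w ∈ A, D w = 0 ∧ (∀ c : F, w ≠ c • e) ∧ ∀ i, ∃ b : F, f i w = b • w := by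
    by_cases hall : ∀ i, ∃ b : F, f i w0 = b • w0
    · exact ⟨w0, hw0A, hw0D, hw0, hall⟩
    push Not at hall
    obtain ⟨j, hj⟩ := hall
    obtain ⟨b, d, hbd⟩ := hspan (f j w0) (hA.st j w0 hw0A) (by rw [← hDc, hw0D, Ind.map_zero (hlft j)])
    obtain ⟨a, ha⟩ := hfe j
    have hj0 : j ≠ i₀ := by
      rintro rfl
      apply hj 1
      rw [hD] at hw0D
      rw [one_smul, sub_eq_zero.1 hw0D]
    have hab : a ≠ b := by
      rintro rfl
      obtain ⟨k, hk⟩ := h.hU.ord j
      have h2 : ∀ m : ℕ, (f j)^[m] w0 = a ^ m • w0 + (m * a ^ (m - 1) * d) • e := by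
        intro m
        induction m with
        | zero => simp
        | succ m ih =>
          rw [Function.iterate_succ_apply', ih, hadd, hsm, hsm, hbd, ha, smul_add, smul_smul,
            smul_smul, smul_smul, add_assoc, ← add_smul, pow_succ]
          congr 2
          rcases m with _ | m
          · simp
          · rw [Nat.add_sub_cancel, Nat.add_sub_cancel, pow_succ, Nat.cast_add (m + 1) 1, Nat.cast_one]
            ring
      have h3 := h2 (r j ^ k)
      rw [hk] at h3
      have h4 : a ^ r j ^ k = 1 := by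
        by_contra hne
        apply hw0 ((1 - a ^ r j ^ k)⁻¹ * (((r j ^ k : ℕ) : F) * a ^ (r j ^ k - 1) * d))
        have h5 : (1 - a ^ r j ^ k) • w0 = (((r j ^ k : ℕ) : F) * a ^ (r j ^ k - 1) * d) • e := by
          rw [sub_smul, one_smul]
          nth_rewrite 1 [h3]
          abel
        rw [mul_smul, ← h5, smul_smul, inv_mul_cancel₀ (sub_ne_zero.2 (Ne.symm hne)), one_smul]
      rw [h4, one_smul] at h3
      have h5 := (smul_eq_zero.1 (left_eq_add.1 h3)).resolve_right he0
      have ha0 : a ≠ 0 := by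
        rintro rfl
        rw [zero_pow (pow_ne_zero _ (h.hU.pf.prime j).ne_zero)] at h4
        exact zero_ne_one h4
      rcases mul_eq_zero.1 h5 with h6 | h6
      · rcases mul_eq_zero.1 h6 with h7 | h7
        · exact coprime_natCast hF (h.hU.pf.prime j) (fam_coprime h.hU h.h0 hj0) h7
        · exact pow_ne_zero _ ha0 h7
      · apply hj a
        rw [hbd, h6, zero_smul, add_zero]
    have hab' : b - a ≠ 0 := sub_ne_zero.2 (Ne.symm hab)
    obtain ⟨s, hs⟩ : ∃ s, s = (b - a)⁻¹ * d := ⟨_, rfl⟩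
    have hs' : d + s * a = b * s := by
      have h1 : (b - a) * s = d := by rw [hs, mul_inv_cancel_left₀ hab']
      linear_combination -h1
    refine ⟨w0 + s • e, A.add_mem hw0A (A.smul_mem _ heA), by rw [map_add, map_smul, hw0D, hDe, smul_zero, add_zero],
      ?_, ?_⟩
    · intro c hc
      apply hw0 (c - s)
      rw [sub_smul, ← hc]
      abel
    · intro i
      have hfj : f j (w0 + s • e) = b • (w0 + s • e) := by
        rw [hadd, hsm, hbd, ha, smul_add, smul_smul, smul_smul, ← hs', add_smul, add_assoc]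
      obtain ⟨β, γ, hβ⟩ := hspan (f i (w0 + s • e)) (hA.st i _ (A.add_mem hw0A (A.smul_mem _ heA)))
        (by rw [← hDc, map_add, map_smul, hw0D, hDe, smul_zero, add_zero, Ind.map_zero (hlft i)])
      have hβ' : f i (w0 + s • e) = β • (w0 + s • e) + (γ - β * s) • e := by
        rw [hβ, smul_add, smul_smul, sub_smul]
        abel
      have hcm := h.hU.comm j i (w0 + s • e)
      generalize w0 + s • e = z at hfj hβ' hcm ⊢
      rw [hfj, hsm, hβ', hadd, hsm, hsm, hfj, ha] at hcm
      have h1 : ((γ - β * s) * (a - b)) • e = 0 := by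
        have h5 : ((γ - β * s) * (a - b)) • e =
            (β • (b • z) + (γ - β * s) • (a • e)) - b • (β • z + (γ - β * s) • e) := by module
        rw [h5, hcm, sub_self]
      have h2 := (smul_eq_zero.1 h1).resolve_right he0
      have h4 := (mul_eq_zero.1 h2).resolve_right (sub_ne_zero.2 hab)
      exact ⟨β, by rw [hβ', h4, zero_smul, add_zero]⟩
  -- `w` is not singular
  have hee : hermForm n F q e e = 0 := by
    nth_rewrite 1 [he]
    exact hort v0 e hDe
  have hew : hermForm n F q e w = 0 := by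
    nth_rewrite 1 [he]
    exact hort v0 w hwD
  have hev : hermForm n F q e v0 ≠ 0 := by
    intro h1
    apply he0
    apply hA.nd e heA
    intro v hv
    -- `v = a v0 + (v - a v0)` with `D (v - a v0) = 0`
    obtain ⟨c, hc⟩ := hline v hv
    have h2 : D (v - c • v0) = 0 := by rw [map_sub, map_smul, hc, he, sub_self]
    have h4 := hort v0 (v - c • v0) h2
    rw [← he, herm_sub_right hF, herm_smul_right, h1, mul_zero, sub_zero] at h4
    exact h4
  have hww : hermForm n F q w w ≠ 0 := by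
    intro h1
    obtain ⟨s, hs⟩ : ∃ s, s = hermForm n F q w v0 * (hermForm n F q e v0)⁻¹ := ⟨_, rfl⟩
    apply hwe s
    rw [← sub_eq_zero]
    apply hA.nd _ (A.sub_mem hwA (A.smul_mem _ heA))
    intro v hv
    obtain ⟨c, hc⟩ := hline v hv
    have h2 : D (v - c • v0) = 0 := by rw [map_sub, map_smul, hc, he, sub_self]
    obtain ⟨a, b, hab⟩ := hspan _ (A.sub_mem hv (A.smul_mem _ hv0)) h2
    obtain ⟨a', b', hab'⟩ := hspan w hwA hwD
    have ha' : a' ≠ 0 := by
      rintro rfl
      apply hwe b'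
      rw [hab', zero_smul, zero_add]
    have hz0 : hermForm n F q (w - s • e) v0 = 0 := by
      rw [herm_sub_left, herm_smul_left, hs, mul_assoc, inv_mul_cancel₀ hev, mul_one, sub_self]
    have hze : hermForm n F q (w - s • e) e = 0 := by
      rw [herm_sub_left, herm_smul_left, hee, mul_zero, sub_zero]
      exact herm_eq_zero_swap hF hew
    have hzw : hermForm n F q (w - s • e) w = 0 := by
      rw [herm_sub_left, herm_smul_left, hew, mul_zero, sub_zero, h1]
    have hzw0 : hermForm n F q (w - s • e) w0 = 0 := by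
      have h4 : w0 = a'⁻¹ • w - (a'⁻¹ * b') • e := by
        rw [hab', smul_add, smul_smul, smul_smul, inv_mul_cancel₀ ha', one_smul]
        abel
      rw [h4, herm_sub_right hF, herm_smul_right, herm_smul_right, hzw, hze, mul_zero, mul_zero, sub_zero]
    have h5 : v = c • v0 + (a • w0 + b • e) := by rw [← hab]; abel
    rw [h5, herm_add_right hF, herm_add_right hF, herm_smul_right, herm_smul_right, herm_smul_right, hz0, hzw0, hze]
    simp
  -- the complement of `w`
  have hspw : NDeg q (Submodule.span F {w}) := by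
    intro v hv hv'
    obtain ⟨c, rfl⟩ := Submodule.mem_span_singleton.1 hv
    have h1 := hv' w (Submodule.mem_span_singleton_self w)
    rw [herm_smul_left] at h1
    rw [(mul_eq_zero.1 h1).resolve_right hww, zero_smul]
  have hmem : ∀ v, v ∈ hermPerp q ((Submodule.span F {w} : Submodule F (Fin n → F)) : Set (Fin n → F)) ↔
      hermForm n F q v w = 0 := by
    intro v
    rw [mem_hermPerp]
    constructor
    · intro h1
      exact h1 w (Submodule.mem_span_singleton_self w)
    · intro h1 z hz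
      obtain ⟨c, rfl⟩ := Submodule.mem_span_singleton.1 hz
      rw [herm_smul_right, h1, mul_zero]
  have hwne : w ≠ 0 := by
    rintro rfl
    exact hwe 0 (by rw [zero_smul])
  have hfin : Module.finrank F (hermPerp q ((Submodule.span F {w} : Submodule F (Fin n → F)) : Set (Fin n → F)) :
      Submodule F (Fin n → F)) = n - 1 := by
    have h1 := finrank_hermPerp_of_nondeg hF _ hspw
    rw [finrank_span_singleton hwne] at h1
    omega
  have hn5 : 5 ≤ n := by
    have h1 := U.h32
    have h2 := h.h42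
    omega
  have hDw : f i₀ w = w := by
    rw [hD] at hwD
    exact sub_eq_zero.1 hwD
  refine decA hdec hsmall h (A := hermPerp q ((Submodule.span F {w} : Submodule F (Fin n → F)) : Set (Fin n → F)))
    ⟨hermPerp_nondeg hF _ hspw, ?_, ?_⟩ ?_ (by omega) (by omega)
  · intro i v hv
    rw [hmem] at hv ⊢
    obtain ⟨b, hb⟩ := hwf i
    have hb0 : b ≠ 0 := by
      rintro rfl
      rw [zero_smul, ← Ind.map_zero (hlft i)] at hb
      exact hwne (Ind.injective (hlft i) hb)
    have h1 := hherm i v w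
    rw [hb, herm_smul_right, hv, mul_comm] at h1
    exact herm_cancel h1 hb0
  · refine ⟨v0 - (hermForm n F q v0 w * (hermForm n F q w w)⁻¹) • w, ?_, ?_⟩
    · rw [hmem, herm_sub_left, herm_smul_left, mul_assoc, inv_mul_cancel₀ hww, mul_one, sub_self]
    · intro h1
      apply hv1
      rw [Ind.map_sub (hlft i₀), hsm, hDw, sub_left_inj] at h1
      exact h1
  · intro h1
    have h2 : w ∈ hermPerp q ((Submodule.span F {w} : Submodule F (Fin n → F)) : Set (Fin n → F)) := by
      rw [h1]; trivial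
    rw [hmem] at h2
    exact hww h2

/-- (A3) -/
theorem decA3 (hgdec : GDecStmt) (h : CTwo U x f r i₀) {A : Submodule F (Fin n → F)}
    (hA : Bad q f i₀ A) (h2 : Module.finrank F A = 2) (hq : 4 ≤ q) : False := by
  have hn := U.hn
  have hA1 : A ≠ ⊤ := by
    rintro rfl
    rw [finrank_top, Module.finrank_fin_fun] at h2
    omega
  obtain ⟨v0, hv0, hv1⟩ := hA.ne
  obtain ⟨e, heA, he0, hTe, hTv, hee, -, -, hS⟩ := fam_two h.hU h.lin h.h0 h2 hA.st hv0 hv1
  refine hgdec U x f ⟨h.hU.pf.ne, h.hU.lft, h.hU.comm⟩ h.cov A (f i₀) hA.nd hA1 (by omega) (by omega) (by omega)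
    (fun i => ⟨h.lin i, hA.st i⟩) ?_ (Ind.map_add (h.hU.lft i₀)) (h.lin i₀) (hA.st i₀)
    (fun v _ w _ => lin_herm (h.hU.lft i₀) (h.lin i₀) v w) ?_ (Or.inr (Or.inr ⟨r i₀, 1, h.hU.pf.prime i₀, 1, ?_⟩))
  · rintro i ⟨c, hc⟩
    by_cases hi : i = i₀
    · subst hi
      exact absurd (fam_scal h.hU h.lin h.h0 (hc v0 hv0)) hv1
    · exact ⟨r i, h.hU.pf.prime i, fam_coprime h.hU h.h0 hi, h.hU.pf.pow i⟩
  · intro i
    by_cases hi : i = i₀
    · subst hi
      exact ⟨1, 1, fun v _ => by rw [one_smul, Function.iterate_one]⟩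
    · obtain ⟨c, hc⟩ := hS i hi
      exact ⟨0, c, fun v hv => by rw [hc v hv]; rfl⟩
  · intro v _
    rw [pow_one, fam_pow h.hU h.lin h.h0, one_smul]

/-- the structure of a bad plane: singular vectors `e`, `v`, `f i₀ e = e`, `f i₀ v = v + e` -/
theorem plane (h : CTwo U x f r i₀) {A : Submodule F (Fin n → F)}
    (hA : Bad q f i₀ A) (h2 : Module.finrank F A = 2) :
    ∃ e ∈ A, ∃ v ∈ A, e ≠ 0 ∧ hermForm n F q e e = 0 ∧ hermForm n F q v v = 0 ∧ hermForm n F q v e ≠ 0 ∧
      hermForm n F q v e + hermForm n F q v e ^ q = 0 ∧ f i₀ e = e ∧ f i₀ v = v + e ∧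
      (∀ w ∈ A, ∃ a b : F, w = a • v + b • e) ∧ ∀ j, j ≠ i₀ → ScalOn (f j) A := by
  have hF := U.hF
  obtain ⟨v0, hv0, hv1⟩ := hA.ne
  obtain ⟨e, heA, he0, hTe, hTv, hee, -, hsp, hS⟩ := fam_two h.hU h.lin h.h0 h2 hA.st hv0 hv1
  have hγ : hermForm n F q v0 e ≠ 0 := by
    intro h1
    apply he0
    apply hA.nd e heA
    intro w hw
    obtain ⟨a, b, rfl⟩ := hsp w hw
    rw [herm_add_right hF, herm_smul_right, herm_smul_right, herm_eq_zero_swap hF h1, hee]
    simp
  have htr : hermForm n F q v0 e + hermForm n F q v0 e ^ q = 0 := by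
    have h1 := lin_herm (h.hU.lft i₀) (h.lin i₀) v0 v0
    rw [hTv, herm_add_left, herm_add_right hF, herm_add_right hF, hee, add_zero, add_assoc, add_eq_left,
      herm_swap hF v0 e] at h1
    exact h1
  -- make `v` singular
  obtain ⟨s, hs⟩ := exists_sub_pow hF (μ := hermForm n F q v0 v0 * (hermForm n F q v0 e)⁻¹) (by
    have h1 : hermForm n F q v0 e ^ q = - hermForm n F q v0 e := by linear_combination htr
    rw [mul_pow, inv_pow, h1, herm_self_pow hF, inv_neg]
    ring)
  have hg' : hermForm n F q e v0 = - hermForm n F q v0 e := by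
    rw [herm_swap hF v0 e]
    linear_combination htr
  have hs' : (s - s ^ q) * hermForm n F q v0 e = hermForm n F q v0 v0 := by
    rw [hs, mul_assoc, inv_mul_cancel₀ hγ, mul_one]
  refine ⟨e, heA, v0 + s • e, A.add_mem hv0 (A.smul_mem _ heA), he0, hee, ?_, ?_, ?_, hTe, ?_, ?_, hS⟩
  · rw [herm_add_left, herm_add_right hF, herm_add_right hF, herm_smul_left, herm_smul_left, herm_smul_right,
      herm_smul_right, hee, hg']
    linear_combination -hs'
  · rw [herm_add_left, herm_smul_left, hee, mul_zero, add_zero]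
    exact hγ
  · rw [herm_add_left, herm_smul_left, hee, mul_zero, add_zero]
    exact htr
  · rw [Ind.map_add (h.hU.lft i₀), h.lin i₀, hTe, hTv]
    abel
  · intro w hw
    obtain ⟨a, b, rfl⟩ := hsp w hw
    refine ⟨a, b - a * s, ?_⟩
    rw [smul_add, smul_smul, sub_smul]
    abel

/-- (A4a) `f i₀` is a transvection -/
theorem caseRoot (h : CTwo U x f r i₀) {A : Submodule F (Fin n → F)}
    (hA : Bad q f i₀ A) (h2 : Module.finrank F A = 2)
    (hB : ∀ w ∈ hermPerp q (A : Set (Fin n → F)), f i₀ w = w) : False := by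
  have hF := U.hF
  obtain ⟨e, heA, v, hvA, he0, hee, hvv, hve, htr, hTe, hTv, hsp, hS⟩ := plane h hA h2
  have hμ : (hermForm n F q v e)⁻¹ + (hermForm n F q v e)⁻¹ ^ q = 0 := by
    have h1 : hermForm n F q v e ^ q = - hermForm n F q v e := by linear_combination htr
    rw [inv_pow, h1, inv_neg]
    ring
  have hact : ∀ w, f i₀ w = act (transv hF e hee _ hμ) w := by
    intro w
    obtain ⟨a, ha, b, hb, rfl⟩ := exists_add_perp hF A hA.nd w
    obtain ⟨c, d, rfl⟩ := hsp a ha
    rw [act_transv, Ind.map_add (h.hU.lft i₀), Ind.map_add (h.hU.lft i₀), h.lin i₀, h.lin i₀, hTe, hTv, hB b hb,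
      herm_add_left, herm_add_left, herm_smul_left, herm_smul_left, hee, mem_hermPerp.1 hb e heA, mul_zero, add_zero,
      add_zero, mul_comm c, inv_mul_cancel_left₀ hve, smul_add]
    abel
  have hx : x i₀ = U.el (transv hF e hee _ hμ) := by
    have h1 := h.hU.lft i₀
    rw [show f i₀ = act (transv hF e hee _ hμ) from funext hact] at h1
    exact h1.inj (U.lft_el _)
  refine U.root (ι := {j // j ≠ i₀}) (x := fun j => x j) (f := fun j => f j) (r := fun j => r j)
    (fun j => h.hU.pf.prime _) (fun j => fam_coprime h.hU h.h0 j.2) (fun j => h.hU.pf.pow _) (fun j => h.hU.pf.ne _)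
    (fun i j => h.hU.pf.comm _ _) (fun j => h.hU.lft _) he0 hee ?_ hμ (inv_ne_zero hve) ?_
  · intro j
    obtain ⟨c, hc⟩ := hS j j.2
    exact ⟨c, hc e heA⟩
  · intro ω
    obtain ⟨j, hj⟩ := h.cov ω
    by_cases hji : j = i₀
    · left
      rw [← hx, ← hji]
      exact hj
    · exact Or.inr ⟨⟨j, hji⟩, hj⟩

/-- transvections commute with linear isometries for which the centre is an eigenvector -/
theorem act_transv_comm {y : G} {g : (Fin n → F) → (Fin n → F)} (hg : U.Lft y g) (hl : Lin g) {e : Fin n → F}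
    (hee : hermForm n F q e e = 0) (he0 : e ≠ 0) {a : F} (ha : g e = a • e) {μ : F} (hμ : μ + μ ^ q = 0)
    (hnorm : a * a ^ q = 1) (v : Fin n → F) :
    g (act (transv U.hF e hee μ hμ) v) = act (transv U.hF e hee μ hμ) (g v) := by
  rw [act_transv, act_transv, Ind.map_add hg, hl, ha, smul_smul]
  congr 2
  have h1 := lin_herm hg hl v e
  rw [ha, herm_smul_right] at h1
  calc μ * hermForm n F q v e * a = μ * (a ^ q * hermForm n F q (g v) e) * a := by rw [h1]
    _ = μ * hermForm n F q (g v) e * (a * a ^ q) := by ring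
    _ = _ := by rw [hnorm, mul_one]

/-- (A4b) `n = 4`, `q = 3` -/
theorem case43 (h : CTwo U x f r i₀) (hq : q = 3) {A : Submodule F (Fin n → F)}
    (hA : Bad q f i₀ A) (h2 : Module.finrank F A = 2)
    (hB : Bad q f i₀ (hermPerp q (A : Set (Fin n → F))))
    (h2' : Module.finrank F (hermPerp q (A : Set (Fin n → F)) : Submodule F (Fin n → F)) = 2) : False := by
  classical
  have hF := U.hF
  have hlft := h.hU.lft
  obtain ⟨e, heA, v, hvA, he0, hee, hvv, hve, htr, hTe, hTv, hsp, hS⟩ := plane h hA h2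
  obtain ⟨e2, heB, v2, hvB, he20, -, -, hve2, -, -, -, hsp2, hS2⟩ := plane h hB h2'
  have hchar : CharP F 3 := by
    obtain ⟨hp, hchar, k0, hk0⟩ := fam_char h.hU h.h0
    have h1 : r i₀ ∣ 3 := by
      rw [hq] at hk0
      rw [hk0]
      apply dvd_pow_self
      rintro rfl
      norm_num at hk0
    rwa [(Nat.prime_dvd_prime_iff_eq hp Nat.prime_three).1 h1] at hchar
  have h3F : (3 : F) = 0 := by
    have := CharP.cast_eq_zero F 3
    exact_mod_cast this
  obtain ⟨γ, hγ⟩ : ∃ γ, γ = hermForm n F q v e := ⟨_, rfl⟩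
  rw [← hγ] at hve htr
  have hev : hermForm n F q e v = -γ := by
    rw [herm_swap hF v e, ← hγ]
    linear_combination htr
  have hμ : γ⁻¹ + γ⁻¹ ^ q = 0 := by
    have h1 : γ ^ q = - γ := by linear_combination htr
    rw [inv_pow, h1, inv_neg]
    ring
  -- the element `C = X Y X`
  let X : SU n F q := transv hF e hee _ hμ
  let Y : SU n F q := transv hF v hvv _ hμ
  have hXe : act X e = e := by rw [act_transv, hee, mul_zero, zero_smul, add_zero]
  have hXv : act X v = v + e := by rw [act_transv, ← hγ, inv_mul_cancel₀ hve, one_smul]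
  have hYv : act Y v = v := by rw [act_transv, hvv, mul_zero, zero_smul, add_zero]
  have hYe : act Y e = e - v := by
    rw [act_transv, hev, mul_neg, inv_mul_cancel₀ hve, neg_smul, one_smul, sub_eq_add_neg]
  let C : SU n F q := X * Y * X
  have hC : ∀ w, act C w = act X (act Y (act X w)) := fun w => by rw [act_mul, act_mul]
  have hCe : act C e = -v := by
    rw [hC, hXe, hYe, act_sub, hXe, hXv]
    abel
  have hCv : act C v = e := by
    rw [hC, hXv, act_add, hYv, hYe, show v + (e - v) = e by abel, hXe]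
  have hCB : ∀ w ∈ hermPerp q (A : Set (Fin n → F)), act C w = w := by
    intro w hw
    have hX : act X w = w := by rw [act_transv, mem_hermPerp.1 hw e heA, mul_zero, zero_smul, add_zero]
    have hY : act Y w = w := by rw [act_transv, mem_hermPerp.1 hw v hvA, mul_zero, zero_smul, add_zero]
    rw [hC, hX, hY, hX]
  have hC'e : act C⁻¹ e = v := by rw [← hCv, act_inv_act]
  have hC'v : act C⁻¹ v = -e := by
    have h1 : v = act C (-e) := by rw [act_neg, hCe, neg_neg]
    nth_rewrite 1 [h1]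
    rw [act_inv_act]
  have hC'B : ∀ w ∈ hermPerp q (A : Set (Fin n → F)), act C⁻¹ w = w := by
    intro w hw
    nth_rewrite 1 [← hCB w hw]
    rw [act_inv_act]
  -- the others
  have hnorm : ∀ (j : ι) (a : F) (w w' : Fin n → F), f j w = a • w → f j w' = a • w' → hermForm n F q w w' ≠ 0 →
      a * a ^ q = 1 := by
    intro j a w w' h1 h1' hne
    have h3 := lin_herm (hlft j) (h.lin j) w w'
    rw [h1, h1', herm_smul_left, herm_smul_right, ← mul_assoc] at h3
    exact mul_right_cancel₀ hne (h3.trans (one_mul _).symm)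
  have hdec : ∀ w : Fin n → F, ∃ a b : F, ∃ w' ∈ hermPerp q (A : Set (Fin n → F)), w = (a • v + b • e) + w' := by
    intro w
    obtain ⟨a, ha, b, hb, rfl⟩ := exists_add_perp hF A hA.nd w
    obtain ⟨c, d, rfl⟩ := hsp a ha
    exact ⟨c, d, b, hb, rfl⟩
  have hoth : ∀ j, j ≠ i₀ → ∃ a : F, a * a ^ q = 1 ∧ f j e = a • e ∧ f j v = a • v ∧
      (∀ w ∈ hermPerp q (A : Set (Fin n → F)), f j w = (-a) • w) ∧ r j = 2 := by
    intro j hj
    obtain ⟨a, ha⟩ := hS j hj
    obtain ⟨b, hb⟩ := hS2 j hj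
    have hab : a ≠ b := by
      rintro rfl
      apply h.hU.pf.ne j
      refine (hlft j).eq_one_iff.2 ⟨a, fun w => ?_⟩
      obtain ⟨c, d, w', hw', rfl⟩ := hdec w
      rw [Ind.map_add (hlft j), ha _ (A.add_mem (A.smul_mem _ hvA) (A.smul_mem _ heA)), hb w' hw', ← smul_add]
    have hna := hnorm j a v e (ha v hvA) (ha e heA) (hγ ▸ hve)
    have hnb := hnorm j b v2 e2 (hb v2 hvB) (hb e2 heB) hve2
    have ha4 : a ^ 4 = 1 := by
      rw [hq] at hna
      linear_combination hna
    have hb4 : b ^ 4 = 1 := by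
      rw [hq] at hnb
      linear_combination hnb
    -- the order
    have hr2 : r j = 2 := by
      by_contra hr
      obtain ⟨k, hk⟩ := h.hU.ord j
      have h5 : (r j ^ k).Coprime 4 := by
        apply Nat.Coprime.pow_left
        rw [show 4 = 2 ^ 2 by norm_num]
        apply Nat.Coprime.pow_right
        exact (Nat.coprime_primes (h.hU.pf.prime j) Nat.prime_two).2 hr
      have hone : ∀ (c : F) (w : Fin n → F), w ≠ 0 → f j w = c • w → c ^ 4 = 1 → c = 1 := by
        intro c w hw0 hw hc4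
        have h6 := iter_eig (h.lin j) hw (r j ^ k)
        rw [hk] at h6
        have h7 : (c ^ r j ^ k - 1) • w = 0 := by rw [sub_smul, ← h6, one_smul, sub_self]
        have h8 := sub_eq_zero.1 ((smul_eq_zero.1 h7).resolve_right hw0)
        have h9 := Nat.dvd_gcd (orderOf_dvd_of_pow_eq_one h8) (orderOf_dvd_of_pow_eq_one hc4)
        rw [h5] at h9
        exact orderOf_eq_one_iff.1 (Nat.dvd_one.1 h9)
      exact hab ((hone a e he0 (ha e heA) ha4).trans (hone b e2 he20 (hb e2 heB) hb4).symm)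
    have hab2 : a ^ 2 = b ^ 2 := by
      obtain ⟨c, hc⟩ := ((hlft j).pow (r j)).eq_one_iff.1 (h.hU.pf.pow j)
      rw [hr2] at hc
      have h6 : a ^ 2 = c := by
        have h7 := hc e
        rw [iter_eig (h.lin j) (ha e heA)] at h7
        have h8 : (a ^ 2 - c) • e = 0 := by rw [sub_smul, h7, sub_self]
        exact sub_eq_zero.1 ((smul_eq_zero.1 h8).resolve_right he0)
      have h6' : b ^ 2 = c := by
        have h7 := hc e2
        rw [iter_eig (h.lin j) (hb e2 heB)] at h7
        have h8 : (b ^ 2 - c) • e2 = 0 := by rw [sub_smul, h7, sub_self]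
        exact sub_eq_zero.1 ((smul_eq_zero.1 h8).resolve_right he20)
      rw [h6, h6']
    have hba : b = -a := by
      have h6 : (a - b) * (a + b) = 0 := by linear_combination hab2
      have h7 := (mul_eq_zero.1 h6).resolve_left (sub_ne_zero.2 hab)
      linear_combination h7
    refine ⟨a, hna, ha e heA, ha v hvA, ?_, hr2⟩
    intro w hw
    rw [hb w hw, hba]
  -- the move
  have hcomm : ∀ j, j ≠ i₀ → U.el C * x j = x j * U.el C := by
    intro j hj
    obtain ⟨a, hna, hae, hav, -, -⟩ := hoth j hj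
    have hXc : x j * U.el X * (x j)⁻¹ = U.el X :=
      (hlft j).conj_el (act_transv_comm (hlft j) (h.lin j) hee he0 hae hμ hna)
    have hv0 : v ≠ 0 := by
      rintro rfl
      apply hve
      rw [hγ, herm_zero_left]
    have hYc : x j * U.el Y * (x j)⁻¹ = U.el Y :=
      (hlft j).conj_el (act_transv_comm (hlft j) (h.lin j) hvv hv0 hav hμ hna)
    have hXc' : Commute (U.el X) (x j) := (mul_inv_eq_iff_eq_mul.1 hXc).symm
    have hYc' : Commute (U.el Y) (x j) := (mul_inv_eq_iff_eq_mul.1 hYc).symm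
    have h6 : U.el C = U.el X * U.el Y * U.el X := by rw [← map_mul, ← map_mul]
    rw [h6]
    exact ((hXc'.mul_left hYc').mul_left hXc').eq
  have hcov2 := h.cov.mv_comm i₀ hcomm
  obtain ⟨j, hj⟩ := H106.RC.Cov.two U.env h.cov h.hU.pf.ne i₀
  obtain ⟨a, hna, hae, hav, haB, hrj⟩ := hoth j hj
  obtain ⟨y, hy⟩ : ∃ y, y = U.el C * x i₀ * (U.el C)⁻¹ * (x i₀)⁻¹ := ⟨_, rfl⟩
  rw [← hy] at hcov2
  -- `y ^ 2 = x j`
  obtain ⟨g0, hg0, hg01, hg02⟩ := (hlft i₀).inv
  have hg : U.Lft y (fun w => act C (f i₀ (act C⁻¹ (g0 w)))) := by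
    have h6 := (((U.lft_el C).mul (hlft i₀)).mul (U.lft_el C⁻¹)).mul hg0
    rw [map_inv, ← hy] at h6
    exact h6
  obtain ⟨g, hgd⟩ : ∃ g : (Fin n → F) → (Fin n → F), g = fun w => act C (f i₀ (act C⁻¹ (g0 w))) := ⟨_, rfl⟩
  rw [← hgd] at hg
  have hgw : ∀ w, g w = act C (f i₀ (act C⁻¹ (g0 w))) := fun w => by rw [hgd]
  have hge : g e = e - v := by
    have h6 : g0 e = e := by
      nth_rewrite 1 [← hTe]
      rw [hg02]
    rw [hgw, h6, hC'e, hTv, act_add, hCv, hCe]
    abel
  have hgv : g v = -v - e := by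
    have h6 : g0 v = v - e := by
      have h7 : f i₀ (v - e) = v := by rw [Ind.map_sub (hlft i₀), hTv, hTe]; abel
      nth_rewrite 1 [← h7]
      rw [hg02]
    rw [hgw, h6, act_sub, hC'v, hC'e, Ind.map_sub (hlft i₀), Ind.map_neg (hlft i₀), hTe, hTv, act_sub, act_neg,
      act_add, hCe, hCv]
    have h7 : (3 : F) • v = 0 := by rw [h3F, zero_smul]
    have h8 : - -v - (e + -v) = -v - e + (3 : F) • v := by module
    rw [h8, h7, add_zero]
  have hgB : ∀ w ∈ hermPerp q (A : Set (Fin n → F)), g w = w := by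
    intro w hw
    have h6 : g0 w ∈ hermPerp q (A : Set (Fin n → F)) := by
      intro z hz
      have h7 := lin_herm (hlft i₀) (h.lin i₀) (g0 w) z
      rw [hg01] at h7
      rw [← h7]
      exact mem_hermPerp.1 hw _ (hA.st i₀ z hz)
    rw [hgw, hC'B _ h6, hg01, hCB w hw]
  have hglin : ∀ (c : F) (w : Fin n → F), g (c • w) = c • g w := by
    intro c w
    have h6 : g0 (c • w) = c • g0 w := by
      apply Ind.injective (hlft i₀)
      rw [hg01, h.lin i₀, hg01]
    rw [hgw, hgw, h6, act_smul, h.lin i₀, act_smul]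
  have hgadd := Ind.map_add hg
  have hgg : ∀ w, g (g w) = (-a⁻¹) • f j w := by
    intro w
    have ha0 : a ≠ 0 := by
      rintro rfl
      rw [zero_mul] at hna
      exact zero_ne_one hna
    obtain ⟨c, d, w', hw', rfl⟩ := hdec w
    have hstep : ∀ c d : F, g ((c • v + d • e) + w') = ((-c - d) • v + (d - c) • e) + w' := by
      intro c d
      rw [hgadd, hgadd, hglin, hglin, hge, hgv, hgB w' hw']
      module
    rw [hstep, hstep, Ind.map_add (hlft j), Ind.map_add (hlft j), h.lin j, h.lin j, hae, hav, haB w' hw']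
    have h8 : (-a⁻¹) • (c • a • v + d • a • e + -a • w') = -(c • v) - d • e + w' := by
      match_scalars <;> field_simp
    rw [h8]
    have h9 : ∀ z : Fin n → F, (3 : F) • z = 0 := fun z => by rw [h3F, zero_smul]
    have h11 : (-(-c - d) - (d - c)) • v + (d - c - (-c - d)) • e + w' =
        -(c • v) - d • e + w' + ((3 : F) • (c • v) + (3 : F) • (d • e)) := by
      module
    rw [h11, h9, h9, add_zero, add_zero]
  have hy2 : y * y = x j := by
    have h6 := hg.mul hg
    have h7 := (hlft j).scalar (c := -a⁻¹) (by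
      have h8 : Odd q := by rw [hq]; decide
      rw [h8.neg_pow, inv_pow, neg_mul_neg, ← mul_inv, hna, inv_one])
    rw [show (fun w => g (g w)) = fun w => (-a⁻¹) • f j w from funext hgg] at h6
    exact h6.inj h7
  -- so `x j` fixes everything
  apply h.hU.pf.ne j
  apply U.env.single
  intro ω
  obtain ⟨k, hk⟩ := hcov2 ω
  by_cases hki : k = i₀
  · rw [hki, Function.update_self] at hk
    rw [← hy2, mul_smul, hk, hk]
  · rw [Function.update_of_ne hki] at hk
    obtain ⟨-, -, -, -, -, hrk⟩ := hoth k hki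
    rwa [h.hU.pf.inj (hrk.trans hrj.symm)] at hk

/-- **Case A** of `CaseTwo` -/
theorem caseA (hdec : DecStmt) (hgdec : GDecStmt) (hsmall : SmallStmt) (h : CTwo U x f r i₀)
    {A : Submodule F (Fin n → F)} (hA : Bad q f i₀ A) (hA1 : A ≠ ⊤) : False := by
  have hF := U.hF
  have h2 := hA.two_le h
  have hq2 := LieClassical.HermBasic.two_le hF
  by_cases h3 : 3 ≤ Module.finrank F A
  · by_cases h32 : Module.finrank F A = 3 ∧ q = 2
    · exact decA2 hdec hsmall h hA h32.1 h32.2
    · exact decA hdec hsmall h hA hA1 h3 h32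
  have hA2 : Module.finrank F A = 2 := by omega
  by_cases hq4 : 4 ≤ q
  · exact decA3 hgdec h hA hA2 hq4
  by_cases hB : ∀ w ∈ hermPerp q (A : Set (Fin n → F)), f i₀ w = w
  · exact caseRoot h hA hA2 hB
  push Not at hB
  have hBb : Bad q f i₀ (hermPerp q (A : Set (Fin n → F))) := by
    refine ⟨hermPerp_nondeg hF _ hA.nd, ?_, hB⟩
    intro i w hw z hz
    -- `f i` is onto `A`
    have hsurj : ∃ z' ∈ A, f i z' = z := by
      have hinj : Function.Injective (fun z : A => (⟨f i z, hA.st i z z.2⟩ : A)) := by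
        intro z z' hzz
        exact Subtype.ext (Ind.injective (h.hU.lft i) (congrArg Subtype.val hzz))
      obtain ⟨z', hz'⟩ := (Finite.injective_iff_surjective.1 hinj) ⟨z, hz⟩
      exact ⟨z', z'.2, congrArg Subtype.val hz'⟩
    obtain ⟨z', hz', rfl⟩ := hsurj
    rw [lin_herm (h.hU.lft i) (h.lin i)]
    exact hw z' hz'
  have hdim := finrank_hermPerp_of_nondeg hF A hA.nd
  have hB2 := hBb.two_le h
  by_cases hB3 : 3 ≤ Module.finrank F (hermPerp q (A : Set (Fin n → F)) : Submodule F (Fin n → F))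
  · by_cases h32 : Module.finrank F (hermPerp q (A : Set (Fin n → F)) : Submodule F (Fin n → F)) = 3 ∧ q = 2
    · exact decA2 hdec hsmall h hBb h32.1 h32.2
    · refine decA hdec hsmall h hBb ?_ hB3 h32
      intro h1
      rw [h1, finrank_top, Module.finrank_fin_fun] at hdim
      omega
  · have hn4 : n = 4 := by omega
    have h42 := h.h42
    have hq3 : q = 3 := by
      have h5 : q ≠ 2 := fun h6 => h42 ⟨hn4, h6⟩
      omega
    exact case43 h hq3 hA hA2 hBb (by omega)

end

/-- **E10** -/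
theorem caseTwo_of (hdec : DecStmt) (hgdec : GDecStmt) (hsmall : SmallStmt) (hB : TwoB) : CaseTwo := by
  intro G Ω _ _ _ _ _ N F _ _ n q U ι _ x f r hU hcov hyp
  obtain ⟨h42, hl, ⟨i₀, h0⟩, hIH⟩ := hyp
  by_cases hA : ∃ A : Submodule F (Fin n → F), NDeg q A ∧ A ≠ ⊤ ∧ (∀ i : ι, Stab (f i) A) ∧ ∃ v ∈ A, f i₀ v ≠ v
  · obtain ⟨A, h1, h2, h3, h4⟩ := hA
    exact caseA hdec hgdec hsmall ⟨hU, hcov, h42, hl, h0, hIH⟩ ⟨h1, h3, h4⟩ h2
  · refine hB U x f r hU hcov ⟨h42, hl, hIH, i₀, h0, ?_⟩
    intro A h1 h2 h3 v hv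
    by_contra h4
    exact hA ⟨A, h1, h2, h3, v, hv, h4⟩

end Cfsg.Agent.H579.RC
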