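import Cfsg.Agent.H202.RC.Orbit
import Cfsg.Agent.H106.RC.Cover

/-!
# S3510: covers of the orbits of an abelian subgroup, elements of arbitrary coprime orders (helper579)
-/

set_option autoImplicit false
set_option linter.unusedSectionVars false

namespace Cfsg.Agent.H579.RC

open MulAction Cfsg.Agent.H202.RC Cfsg.Agent.H106.RC

/-- `x i` : commuting permutations normalising `U`, of orders prime to `|U|` -/
structure Cop {U D ι : Type*} [Group U] [MulAction U D] (x : ι → Equiv.Perm D) (α : ι → MulAut U) (r : ι → ℕ) :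
    Prop where
  cop : ∀ i, (r i).Coprime (Nat.card U)
  comm : ∀ i j d, x i (x j d) = x j (x i d)
  acomm : ∀ i j u, α i (α j u) = α j (α i u)
  act : ∀ i u d, x i (u • d) = α i u • x i d
  pow : ∀ i, x i ^ r i = 1
  apow : ∀ i, α i ^ r i = 1

/-- **The abelian case, arbitrary orders.** -/
theorem exists_moved' {U D ι : Type*} [CommGroup U] [Finite U] [MulAction U D] {x : ι → Equiv.Perm D} {α : ι → MulAut U}
    {r : ι → ℕ} [Finite ι] [Nonempty D] (h : Cop x α r) (htr : ∀ d d' : D, ∃ u : U, u • d = d')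
    (hne : ∀ i, ∃ d, x i d ≠ d) : ∃ d, ∀ i, x i d ≠ d := by
  classical
  set A : Set ℕ := {n : ℕ | ∃ d : D, n = Set.ncard {i | x i d ≠ d}} with hA
  have hbd : BddAbove A := by
    refine ⟨Nat.card ι, ?_⟩
    rintro n ⟨d, rfl⟩
    exact Set.ncard_le_card _
  have hAn : A.Nonempty := ⟨_, Classical.arbitrary D, rfl⟩
  have hmem := Nat.sSup_mem hAn hbd
  obtain ⟨d, hn⟩ := hmem
  refine ⟨d, ?_⟩
  by_contra hcon
  push Not at hcon
  obtain ⟨i, hi⟩ := hcon
  have hri : (r i).Coprime (Nat.card U) := h.cop i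
  obtain ⟨d1, hd1⟩ := hne i
  obtain ⟨u, rfl⟩ := htr d d1
  set w : U := u⁻¹ * α i u with hw
  have hwn : nrm (α i) (r i) w = 1 := nrm_sub (h.apow i) u
  have hwd : w • d ≠ d := by
    intro h1
    apply hd1
    rw [h.act, hi]
    have h2 : α i u = u * w := by rw [hw]; group
    rw [h2, mul_smul, h1]
  have hmove : ∀ j, (x j d ≠ d ∨ j = i) → x j (w • d) ≠ w • d := by
    intro j hj h1
    by_cases hji : j = i
    · rw [hji] at h1
      exact hwd (key hri (h.act i) hi hwn h1)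
    · have hj' := hj.resolve_right hji
      apply hj'
      rw [h.act] at h1
      have h2 : x j d = ((α j w)⁻¹ * w) • d := by rw [mul_smul, ← h1, inv_smul_smul]
      have h3 : nrm (α i) (r i) ((α j w)⁻¹ * w) = 1 := by
        rw [map_mul, map_inv, nrm_comm (h.acomm i j), hwn, map_one, inv_one, one_mul]
      have h4 : x i (((α j w)⁻¹ * w) • d) = ((α j w)⁻¹ * w) • d := by
        rw [← h2, h.comm i j, hi]
      rw [h2]
      exact key hri (h.act i) hi h3 h4
  have hlt : Set.ncard {j | x j d ≠ d} < Set.ncard {j | x j (w • d) ≠ w • d} := by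
    refine Set.ncard_lt_ncard (ssubset_iff_subset_not_subset.2 ⟨fun j hj => hmove j (Or.inl hj), fun hsub => ?_⟩)
      (Set.toFinite _)
    exact hsub (show i ∈ {j | x j (w • d) ≠ w • d} from hmove i (Or.inr rfl)) hi
  have hle : Set.ncard {j | x j (w • d) ≠ w • d} ≤ Set.ncard {j | x j d ≠ d} := by
    rw [← hn]
    exact le_csSup hbd ⟨w • d, rfl⟩
  omega

section cover

variable {G Ω ι : Type*} [Group G] [MulAction G Ω]

variable [Finite ι] {x : ι → G} {r : ι → ℕ} in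
/-- **Local cover rule** (`U` abelian, arbitrary orders prime to `|U|`). -/
theorem cover_ab (hr : ∀ i, 0 < r i) (hx : ∀ i, x i ^ r i = 1) (hc : ∀ i j, x i * x j = x j * x i)
    {U : Subgroup G} [Finite U] {ω : Ω} (hcov : ∀ u ∈ U, ∃ i, x i • u • ω = u • ω) (hU : ∀ i, ∀ u ∈ U, x i * u * (x i)⁻¹ ∈ U)
    (hab : ∀ u ∈ U, ∀ v ∈ U, u * v = v * u) (hco : ∀ i, (r i).Coprime (Nat.card U)) :
    ∃ i, ∀ u ∈ U, x i • u • ω = u • ω := by
  classical
  by_contra hcon
  push Not at hcon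
  have hU' : ∀ i u, u ∈ U ↔ x i * u * (x i)⁻¹ ∈ U := by
    intro i u
    refine ⟨hU i u, fun h => ?_⟩
    have h1 : ∀ n : ℕ, x i ^ n * (x i * u * (x i)⁻¹) * (x i ^ n)⁻¹ ∈ U := by
      intro n
      induction n with
      | zero => simpa using h
      | succ n ih =>
        have h2 := hU i _ ih
        have h3 : x i * (x i ^ n * (x i * u * (x i)⁻¹) * (x i ^ n)⁻¹) * (x i)⁻¹ =
            x i ^ (n + 1) * (x i * u * (x i)⁻¹) * (x i ^ (n + 1))⁻¹ := by
          rw [pow_succ']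
          group
        rwa [h3] at h2
    obtain ⟨n, hn⟩ : ∃ n, r i = n + 1 := ⟨r i - 1, by have := hr i; omega⟩
    have h4 := h1 n
    have h5 : x i ^ n = (x i)⁻¹ := by
      rw [eq_inv_iff_mul_eq_one, ← pow_succ, ← hn]
      exact hx i
    rw [h5] at h4
    have h6 : (x i)⁻¹ * (x i * u * (x i)⁻¹) * ((x i)⁻¹)⁻¹ = u := by group
    rwa [h6] at h4
  -- the `x i` with a fixed point in the orbit
  let I := {i : ι // ∃ u ∈ U, x i • u • ω = u • ω}
  have hpres : ∀ (i : I) (y : Ω), y ∈ MulAction.orbit U ω ↔ x i.1 • y ∈ MulAction.orbit U ω := by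
    rintro ⟨i, u, hu, hi⟩ y
    constructor
    · rintro ⟨v, rfl⟩
      refine ⟨⟨x i * (v * u⁻¹) * (x i)⁻¹ * u, U.mul_mem (hU i _ (U.mul_mem v.2 (U.inv_mem hu))) hu⟩, ?_⟩
      change (x i * (v * u⁻¹) * (x i)⁻¹ * u) • ω = x i • (v : G) • ω
      have h1 : (x i)⁻¹ • u • ω = u • ω := by rw [inv_smul_eq_iff, hi]
      rw [mul_smul, mul_smul, h1, mul_smul, mul_smul, inv_smul_smul]
    · rintro ⟨v, hv⟩
      change (v : G) • ω = x i • y at hv
      have h1 : (x i)⁻¹ * (v * u⁻¹) * x i ∈ U := by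
        rw [hU' i]
        have h2 : x i * ((x i)⁻¹ * (v * u⁻¹) * x i) * (x i)⁻¹ = v * u⁻¹ := by group
        rw [h2]
        exact U.mul_mem v.2 (U.inv_mem hu)
      refine ⟨⟨(x i)⁻¹ * (v * u⁻¹) * x i * u, U.mul_mem h1 hu⟩, ?_⟩
      change ((x i)⁻¹ * (v * u⁻¹) * x i * u) • ω = y
      rw [mul_smul, mul_smul, hi, mul_smul, mul_smul, inv_smul_smul, hv, inv_smul_smul]
  let y : I → Equiv.Perm (MulAction.orbit U ω) := fun i =>
    { toFun := fun d => ⟨x i.1 • (d : Ω), (hpres i d).1 d.2⟩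
      invFun := fun d => ⟨(x i.1)⁻¹ • (d : Ω), (hpres i _).2 (by rw [smul_inv_smul]; exact d.2)⟩
      left_inv := fun d => Subtype.ext (inv_smul_smul _ _)
      right_inv := fun d => Subtype.ext (smul_inv_smul _ _) }
  have hy : ∀ (i : I) (d : MulAction.orbit U ω), ((y i d : _) : Ω) = x i.1 • (d : Ω) := fun i d => rfl
  have hypow : ∀ (i : I) (m : ℕ) (d : MulAction.orbit U ω), (((y i ^ m) d : _) : Ω) = x i.1 ^ m • (d : Ω) := by
    intro i m
    induction m with
    | zero => intro d; simp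
    | succ m ih => intro d; rw [pow_succ, Equiv.Perm.mul_apply, ih, hy, pow_succ, mul_smul]
  have hαpow : ∀ (i : ι) (m : ℕ) (u : U), (((conjU (x i) (hU' i) ^ m) u : U) : G) = x i ^ m * u * (x i ^ m)⁻¹ := by
    intro i m
    induction m with
    | zero => intro u; simp
    | succ m ih =>
      intro u
      rw [pow_succ, MulAut.mul_apply, ih, conjU_coe, pow_succ]
      group
  let _ : CommGroup U :=
    { (inferInstance : Group U) with mul_comm := fun a b => Subtype.ext (hab a a.2 b b.2) }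
  have hN : Cop y (fun i => conjU (x i.1) (hU' i.1)) (fun i => r i.1) := by
    refine ⟨fun i => hco _, ?_, ?_, ?_, ?_, ?_⟩
    · intro i j d
      apply Subtype.ext
      rw [hy, hy, hy, hy, ← mul_smul, ← mul_smul, hc]
    · intro i j u
      apply Subtype.ext
      rw [conjU_coe, conjU_coe, conjU_coe, conjU_coe]
      have h1 := hc i.1 j.1
      have h2 : x i.1 * (x j.1 * (u : G) * (x j.1)⁻¹) * (x i.1)⁻¹ = (x i.1 * x j.1) * u * (x i.1 * x j.1)⁻¹ := by group
      rw [h2, h1]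
      group
    · intro i u d
      apply Subtype.ext
      change x i.1 • (u : G) • (d : Ω) = (x i.1 * u * (x i.1)⁻¹) • x i.1 • (d : Ω)
      rw [← mul_smul, ← mul_smul]
      group
    · intro i
      ext d
      rw [hypow, hx, one_smul]
      rfl
    · intro i
      ext u
      rw [hαpow, hx]
      simp
  have hne : ∀ i : I, ∃ d, y i d ≠ d := by
    intro i
    obtain ⟨u, hu, h1⟩ := hcon i.1
    exact ⟨⟨u • ω, ⟨⟨u, hu⟩, rfl⟩⟩, fun h2 => h1 (congrArg Subtype.val h2)⟩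
  have hno : Nonempty (MulAction.orbit U ω) := ⟨⟨ω, MulAction.mem_orbit_self _⟩⟩
  have htr : ∀ d d' : MulAction.orbit U ω, ∃ u : U, u • d = d' := fun d d' => MulAction.exists_smul_eq U d d'
  obtain ⟨d, hd⟩ := exists_moved' hN htr hne
  obtain ⟨u, hu⟩ := d.2
  have hu' : (u : G) • ω = d := hu
  obtain ⟨i, hi⟩ := hcov u u.2
  rw [hu'] at hi
  have hiI : ∃ u ∈ U, x i • u • ω = u • ω := ⟨u, u.2, by rw [hu', hi]⟩
  exact hd ⟨i, hiI⟩ (Subtype.ext hi)

/-- the rule for `y` without fixed points on `U` -/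
theorem fix_of_fpf [Finite ι] {x : ι → G} {r : ι → ℕ} (hr : ∀ i, 0 < r i) (hx : ∀ i, x i ^ r i = 1)
    (hc : ∀ i j, x i * x j = x j * x i) {y : G} {m : ℕ} (hm : 0 < m) (hy : y ^ m = 1) (hcy : ∀ i, x i * y = y * x i)
    {U : Subgroup G} [Finite U] {ω : Ω} (hreg : ∀ i, x i • ω ≠ ω) (hcov : ∀ ω : Ω, y • ω = ω ∨ ∃ i, x i • ω = ω)
    (hU : ∀ i, ∀ u ∈ U, x i * u * (x i)⁻¹ ∈ U) (hyU : ∀ u ∈ U, y * u * y⁻¹ ∈ U)
    (hab : ∀ u ∈ U, ∀ v ∈ U, u * v = v * u) (hco : ∀ i, (r i).Coprime (Nat.card U)) (hmo : m.Coprime (Nat.card U))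
    (hfpf : ∀ u ∈ U, y * u = u * y → u = 1) : ∀ u ∈ U, u • ω = ω := by
  have h1 := cover_ab (ι := Option ι) (x := fun o => o.elim y x) (r := fun o => o.elim m r) (ω := ω) (U := U)
    (by rintro (_ | i); exacts [hm, hr i]) (by rintro (_ | i); exacts [hy, hx i])
    (by
      rintro (_ | i) (_ | j)
      · rfl
      · exact (hcy j).symm
      · exact hcy i
      · exact hc i j)
    (by
      intro u _
      rcases hcov (u • ω) with h | ⟨i, h⟩
      · exact ⟨none, h⟩
      · exact ⟨some i, h⟩)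
    (by rintro (_ | i); exacts [hyU, hU i]) hab (by rintro (_ | i); exacts [hmo, hco i])
  obtain ⟨o, ho⟩ := h1
  rcases o with _ | i
  · have ho' : ∀ u ∈ U, y • u • ω = u • ω := ho
    have hyω : y • ω = ω := by simpa using ho' 1 U.one_mem
    have hyω' : y⁻¹ • ω = ω := by rw [inv_smul_eq_iff, hyω]
    -- `u ↦ u⁻¹ y u y⁻¹` is injective on `U`
    have hinj : Function.Injective (fun u : U => (⟨(u : G)⁻¹ * (y * u * y⁻¹), U.mul_mem (U.inv_mem u.2) (hyU u u.2)⟩ : U)) := by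
      intro u v huv
      have h2 : (u : G)⁻¹ * (y * u * y⁻¹) = (v : G)⁻¹ * (y * v * y⁻¹) := congrArg Subtype.val huv
      have h3 : y * ((u : G) * (v : G)⁻¹) = ((u : G) * (v : G)⁻¹) * y := by
        have h4 : y * u * y⁻¹ = u * ((v : G)⁻¹ * (y * v * y⁻¹)) := by rw [← h2]; group
        have h5 : (u : G) * ((v : G)⁻¹ * (y * v * y⁻¹)) = (u * (v : G)⁻¹) * (y * v * y⁻¹) := by group
        have h6 : y * ((u : G) * (v : G)⁻¹) * y⁻¹ = (y * u * y⁻¹) * (y * v * y⁻¹)⁻¹ := by group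
        have h7 : y * ((u : G) * (v : G)⁻¹) * y⁻¹ = u * (v : G)⁻¹ := by
          rw [h6, h4, h5, mul_inv_cancel_right]
        exact mul_inv_eq_iff_eq_mul.1 h7
      have h4 := hfpf _ (U.mul_mem u.2 (U.inv_mem v.2)) h3
      exact Subtype.ext (mul_inv_eq_one.1 h4)
    have hsurj := Finite.surjective_of_injective hinj
    intro u hu
    obtain ⟨v, hv⟩ := hsurj ⟨u, hu⟩
    have hv' : (v : G)⁻¹ * (y * v * y⁻¹) = u := congrArg Subtype.val hv
    rw [← hv', mul_smul, mul_smul, hyω', mul_smul, ho' v v.2, inv_smul_smul]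
  · exact absurd (by simpa using ho 1 U.one_mem) (hreg i)

end cover

end Cfsg.Agent.H579.RC
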