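import Cfsg.Agent.H579.RC.Line
import Cfsg.Agent.H520.RC.SpDefs

/-!
# S3510, row D: the case (SYM) (helper579)
-/

set_option autoImplicit false
set_option linter.unusedSimpArgs false
open Cfsg

namespace Cfsg.Agent.H579.RC

open MulAction Module Cfsg.Agent.H106.RC Cfsg.Agent.H520.RC

section lin

variable {F V : Type*} [Field F] [AddCommGroup V] [Module F V] {B : LinearMap.BilinForm F V}

/-- a hyperbolic partner of `e`, orthogonal to `f` -/
theorem exists_partner (h : NAlt B) {e f : V} (hef : ∀ s : F, e ≠ s • f) : ∃ e', B e e' = 1 ∧ B f e' = 0 := by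
  have h1 : ∃ g, B f g = 0 ∧ B e g ≠ 0 := by
    by_contra hno
    push Not at hno
    by_cases hf : f = 0
    · apply hef 0
      rw [zero_smul]
      apply h.nd
      intro y
      apply hno
      rw [hf]; simp
    · obtain ⟨g, hg⟩ := h.exists_ne hf
      apply hef (B e g * (B f g)⁻¹)
      rw [← sub_eq_zero]
      apply h.nd
      intro y
      have h2 := hno (y - (B f y * (B f g)⁻¹) • g) (by
        rw [map_sub, map_smul, smul_eq_mul, mul_assoc, inv_mul_cancel₀ hg, mul_one, sub_self])
      rw [map_sub, map_smul, smul_eq_mul] at h2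
      rw [map_sub, LinearMap.sub_apply, map_smul, LinearMap.smul_apply, smul_eq_mul]
      linear_combination h2
  obtain ⟨g, hg, hg1⟩ := h1
  refine ⟨(B e g)⁻¹ • g, ?_, ?_⟩
  · rw [map_smul, smul_eq_mul, inv_mul_cancel₀ hg1]
  · rw [map_smul, hg, smul_zero]

/-- the diagonal element `(b, b⁻¹)`, `b = α + β θ`, of the hyperbolic plane `⟨e, e'⟩` over `F[θ]` -/
theorem exists_dg (h : NAlt B) (h2 : (2 : F) ≠ 0) {θ : V →ₗ[F] V} {δ : F} (hδ : δ ≠ 0) (hsq : ∀ v, θ (θ v) = δ • v)
    (hθs : ∀ u v, B (θ u) v = B u (θ v)) {e e' : V} (h1 : B e e' = 1) (h0 : B (θ e) e' = 0) {α β : F}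
    (hN : α * α - δ * β * β ≠ 0) :
    ∃ y : Sp B, (∀ v, y.1 (θ v) = θ (y.1 v)) ∧ y.1 e = α • e + β • θ e := by
  have hself : ∀ v, B v (θ v) = 0 := by
    intro v
    have h3 : B v (θ v) = - B v (θ v) := (hθs v v).symm.trans (h.swap _ _)
    have h4 : (2 : F) * B v (θ v) = 0 := by linear_combination h3
    exact (mul_eq_zero.1 h4).resolve_left h2
  have hself' : ∀ v, B (θ v) v = 0 := fun v => by rw [hθs]; exact hself v
  have h1' : B e' e = -1 := by rw [h.swap, h1]
  have h0a : B e (θ e') = 0 := by rw [← hθs, h0]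
  have h0b : B e' (θ e) = 0 := h.swap0 h0
  have h0c : B (θ e') e = 0 := h.swap0 h0a
  have h5 : B (θ e) (θ e') = δ := by rw [hθs, hsq, map_smul, h1, smul_eq_mul, mul_one]
  have h5' : B (θ e') (θ e) = -δ := by rw [h.swap, h5]
  -- the maps
  let f : F → F → F → F → V → V := fun α β α' β' v =>
    v + ((α - 1) * B v e' + β * B v (θ e')) • e + (β * B v e' + (α - 1) * (δ⁻¹ * B v (θ e'))) • θ e
      + (-((α' - 1) * B v e) - β' * B v (θ e)) • e' + (-(β' * B v e) - (α' - 1) * (δ⁻¹ * B v (θ e))) • θ e'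
  have hf : ∀ α β α' β' v, f α β α' β' v =
    v + ((α - 1) * B v e' + β * B v (θ e')) • e + (β * B v e' + (α - 1) * (δ⁻¹ * B v (θ e'))) • θ e
      + (-((α' - 1) * B v e) - β' * B v (θ e)) • e' + (-(β' * B v e) - (α' - 1) * (δ⁻¹ * B v (θ e))) • θ e' :=
    fun _ _ _ _ _ => rfl
  have fa : ∀ α β α' β' v, B (f α β α' β' v) e' = α * B v e' + β * B v (θ e') := by
    intro α β α' β' v
    rw [hf]
    simp only [map_add, LinearMap.add_apply, map_smul, LinearMap.smul_apply, smul_eq_mul, h.alt, h1, h0, h0a, h0b, h0c,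
      hself', hself, h5, h5', h1']
    ring
  have fc : ∀ α β α' β' v, B (f α β α' β' v) (θ e') = δ * β * B v e' + α * B v (θ e') := by
    intro α β α' β' v
    rw [hf]
    simp only [map_add, LinearMap.add_apply, map_smul, LinearMap.smul_apply, smul_eq_mul, h.alt, h1, h0, h0a, h0b, h0c,
      hself', hself, h5, h5', h1']
    field_simp
    ring
  have fa' : ∀ α β α' β' v, B (f α β α' β' v) e = α' * B v e + β' * B v (θ e) := by
    intro α β α' β' v
    rw [hf]
    simp only [map_add, LinearMap.add_apply, map_smul, LinearMap.smul_apply, smul_eq_mul, h.alt, h1, h0, h0a, h0b, h0c,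
      hself', hself, h5, h5', h1']
    ring
  have fc' : ∀ α β α' β' v, B (f α β α' β' v) (θ e) = δ * β' * B v e + α' * B v (θ e) := by
    intro α β α' β' v
    rw [hf]
    simp only [map_add, LinearMap.add_apply, map_smul, LinearMap.smul_apply, smul_eq_mul, h.alt, h1, h0, h0a, h0b, h0c,
      hself', hself, h5, h5', h1']
    field_simp
    ring
  -- composition
  have hcomp : ∀ α β α' β' : F, α * α' + δ * β * β' = 1 → α * β' + β * α' = 0 →
      ∀ v, f α' β' α β (f α β α' β' v) = v := by
    intro α β α' β' e1 e2 v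
    rw [hf α' β' α β, fa, fc, fa', fc', hf]
    have c1 : ((α - 1) * B v e' + β * B v (θ e')) + ((α' - 1) * (α * B v e' + β * B v (θ e')) +
        β' * (δ * β * B v e' + α * B v (θ e'))) = 0 := by
      linear_combination (B v e') * e1 + (B v (θ e')) * e2
    have c2 : (β * B v e' + (α - 1) * (δ⁻¹ * B v (θ e'))) + (β' * (α * B v e' + β * B v (θ e')) +
        (α' - 1) * (δ⁻¹ * (δ * β * B v e' + α * B v (θ e')))) = 0 := by
      field_simp
      linear_combination (B v (θ e')) * e1 + (δ * B v e') * e2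
    have c3 : (-((α' - 1) * B v e) - β' * B v (θ e)) + (-((α - 1) * (α' * B v e + β' * B v (θ e))) -
        β * (δ * β' * B v e + α' * B v (θ e))) = 0 := by
      linear_combination (-(B v e)) * e1 + (-(B v (θ e))) * e2
    have c4 : (-(β' * B v e) - (α' - 1) * (δ⁻¹ * B v (θ e))) + (-(β * (α' * B v e + β' * B v (θ e))) -
        (α - 1) * (δ⁻¹ * (δ * β' * B v e + α' * B v (θ e)))) = 0 := by
      field_simp
      linear_combination (-(B v (θ e))) * e1 + (-(δ * B v e)) * e2
    calc _ = v + (((α - 1) * B v e' + β * B v (θ e')) + ((α' - 1) * (α * B v e' + β * B v (θ e')) +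
          β' * (δ * β * B v e' + α * B v (θ e')))) • e
        + ((β * B v e' + (α - 1) * (δ⁻¹ * B v (θ e'))) + (β' * (α * B v e' + β * B v (θ e')) +
          (α' - 1) * (δ⁻¹ * (δ * β * B v e' + α * B v (θ e'))))) • θ e
        + ((-((α' - 1) * B v e) - β' * B v (θ e)) + (-((α - 1) * (α' * B v e + β' * B v (θ e))) -
          β * (δ * β' * B v e + α' * B v (θ e)))) • e'
        + ((-(β' * B v e) - (α' - 1) * (δ⁻¹ * B v (θ e))) + (-(β * (α' * B v e + β' * B v (θ e))) -
          (α - 1) * (δ⁻¹ * (δ * β' * B v e + α' * B v (θ e))))) • θ e' := by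
          module
      _ = v := by
          rw [c1, c2, c3, c4]
          simp only [zero_smul, add_zero]
  have hfadd : ∀ α β α' β' u v, f α β α' β' (u + v) = f α β α' β' u + f α β α' β' v := by
    intro α β α' β' u v
    rw [hf, hf, hf]
    simp only [map_add, LinearMap.add_apply]
    module
  have hfsmul : ∀ α β α' β' (c : F) v, f α β α' β' (c • v) = c • f α β α' β' v := by
    intro α β α' β' c v
    rw [hf, hf]
    simp only [map_smul, LinearMap.smul_apply, smul_eq_mul]
    module
  have hfθ : ∀ α β α' β' v, f α β α' β' (θ v) = θ (f α β α' β' v) := by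
    intro α β α' β' v
    rw [hf, hf]
    simp only [map_add, map_smul, hsq, hθs]
    have d1 : (α - 1) * B v (θ e') + β * (δ * B v e') = (β * B v e' + (α - 1) * (δ⁻¹ * B v (θ e'))) * δ := by
      field_simp
      ring
    have d2 : β * B v (θ e') + (α - 1) * (δ⁻¹ * (δ * B v e')) = (α - 1) * B v e' + β * B v (θ e') := by
      field_simp
      ring
    have d3 : -((α' - 1) * B v (θ e)) - β' * (δ * B v e) = (-(β' * B v e) - (α' - 1) * (δ⁻¹ * B v (θ e))) * δ := by
      field_simp
      ring
    have d4 : -(β' * B v (θ e)) - (α' - 1) * (δ⁻¹ * (δ * B v e)) = -((α' - 1) * B v e) - β' * B v (θ e) := by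
      field_simp
      ring
    simp only [smul_eq_mul]
    rw [d1, d2, d3, d4]
    module
  have hfB : ∀ α β α' β' : F, α * α' + δ * β * β' = 1 → α * β' + β * α' = 0 →
      ∀ u v, B (f α β α' β' u) (f α β α' β' v) = B u v := by
    intro α β α' β' e1 e2 u v
    -- adjoint
    have hadj : ∀ u v, B (f α β α' β' u) v = B u (f α' β' α β v) := by
      intro u v
      rw [hf, hf]
      simp only [map_add, LinearMap.add_apply, map_smul, LinearMap.smul_apply, smul_eq_mul]
      rw [h.swap e v, h.swap e' v, h.swap (θ e) v, h.swap (θ e') v]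
      ring
    rw [hadj, hcomp α β α' β' e1 e2]
  -- the inverse of `b`
  set n := α * α - δ * β * β with hn
  have e1 : α * (α * n⁻¹) + δ * β * (-(β * n⁻¹)) = 1 := by
    field_simp
    rw [hn]
    ring
  have e2 : α * (-(β * n⁻¹)) + β * (α * n⁻¹) = 0 := by ring
  have e1' : (α * n⁻¹) * α + δ * (-(β * n⁻¹)) * β = 1 := by linear_combination e1
  have e2' : (α * n⁻¹) * β + (-(β * n⁻¹)) * α = 0 := by ring
  refine ⟨⟨{ toFun := f α β (α * n⁻¹) (-(β * n⁻¹))
             invFun := f (α * n⁻¹) (-(β * n⁻¹)) α β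
             left_inv := hcomp _ _ _ _ e1 e2
             right_inv := hcomp _ _ _ _ e1' e2'
             map_add' := hfadd _ _ _ _
             map_smul' := hfsmul _ _ _ _ }, hfB _ _ _ _ e1 e2⟩, fun v => hfθ _ _ _ _ v, ?_⟩
  show f α β (α * n⁻¹) (-(β * n⁻¹)) e = _
  rw [hf, h.alt, h1, h0a, hself]
  module

/-- two commuting transvections with `F[θ]`-diagonal coefficient -/
theorem tv_pair (h : NAlt B) (h2 : (2 : F) ≠ 0) {θ : V →ₗ[F] V} {δ : F} (hδ : δ ≠ 0) (hsq : ∀ v, θ (θ v) = δ • v)
    (hθs : ∀ u v, B (θ u) v = B u (θ v)) (e : V) (α β c : F) :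
    tv h (α • e + β • θ e) c * tv h (θ (α • e + β • θ e)) (-δ⁻¹ * c) =
      tv h e ((α * α - δ * β * β) * c) * tv h (θ e) (-δ⁻¹ * ((α * α - δ * β * β) * c)) := by
  have hself : ∀ v, B v (θ v) = 0 := by
    intro v
    have h3 : B v (θ v) = - B v (θ v) := (hθs v v).symm.trans (h.swap _ _)
    have h4 : (2 : F) * B v (θ v) = 0 := by linear_combination h3
    exact (mul_eq_zero.1 h4).resolve_left h2
  have hself' : ∀ v, B (θ v) v = 0 := fun v => by rw [hθs]; exact hself v
  apply Subtype.ext
  apply LinearEquiv.ext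
  intro v
  show (tv h (α • e + β • θ e) c).1 ((tv h (θ (α • e + β • θ e)) (-δ⁻¹ * c)).1 v) =
    (tv h e ((α * α - δ * β * β) * c)).1 ((tv h (θ e) (-δ⁻¹ * ((α * α - δ * β * β) * c))).1 v)
  simp only [tv_apply]
  simp only [map_add, LinearMap.add_apply, map_smul, LinearMap.smul_apply, smul_eq_mul, h.alt, hself', hself, hsq]
  match_scalars <;> field_simp <;> ring

end lin

section main

variable {F V : Type*} [Field F] [Finite F] [AddCommGroup V] [Module F V] [FiniteDimensional F V]
  {B : LinearMap.BilinForm F V} {G : Type*} [Group G] [Finite G] {Ω : Type*} [Nonempty Ω] [MulAction G Ω]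
  {N : Subgroup G} {ρ : ↥(Sp B) →* G}

/-- the last step of (SYM) -/
theorem sym_core (E : SpEnv Ω N ρ) (h2 : (2 : F) ≠ 0) {x : G} {M : SS B} (hM : Lf ρ x M) (hl : M.IsLin) {δ : F}
    (hδ : ¬ IsSquare δ) (hsq : ∀ v, M (M v) = δ • v) (hmu : M.l = δ)
    (hcov : ∀ ω : Ω, (∀ t : ↥(Sp B), (∀ v, t.1 (M v) = M (t.1 v)) → ρ t • ω = ω) ∨ x • ω = ω) : False := by
  classical
  have hδ0 : δ ≠ 0 := by
    rintro rfl
    exact hδ ⟨0, by rw [mul_zero]⟩
  set θ : V →ₗ[F] V := hl.lin.toLinearMap with hθ
  have hθM : ∀ v, θ v = M v := fun _ => rfl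
  have hsq' : ∀ v, θ (θ v) = δ • v := hsq
  have h := E.form
  have hθs : ∀ u v, B (θ u) v = B u (θ v) := by
    intro u v
    have h3 := hl.form (M u) v
    rw [hsq, hmu, LinearMap.map_smul₂, smul_eq_mul] at h3
    exact (mul_left_cancel₀ hδ0 h3).symm
  have hself : ∀ v, B v (θ v) = 0 := by
    intro v
    have h3 : B v (θ v) = - B v (θ v) := (hθs v v).symm.trans (h.swap _ _)
    have h4 : (2 : F) * B v (θ v) = 0 := by linear_combination h3
    exact (mul_eq_zero.1 h4).resolve_left h2
  -- the vector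
  have hnt : Nontrivial V := Module.nontrivial_of_finrank_pos (R := F) (by have := E.dim; omega)
  obtain ⟨e, he⟩ := exists_ne (0 : V)
  have hef : ∀ s : F, e ≠ s • θ e := by
    intro s hs
    have h3 : θ e = (s * δ) • e := by
      conv_lhs => rw [hs]
      rw [map_smul, hsq', smul_smul]
    have h4 : (s * (s * δ)) • e = (1 : F) • e := by
      rw [mul_smul, ← h3, ← hs, one_smul]
    have h5 : s * (s * δ) = 1 := smul_left_injective F he h4
    have hs0 : s ≠ 0 := by
      rintro rfl
      rw [zero_mul] at h5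
      exact zero_ne_one h5
    apply hδ
    refine ⟨s⁻¹, ?_⟩
    field_simp
    linear_combination h5
  obtain ⟨e', h1, h0⟩ := exists_partner h hef
  -- the element of `F[θ]`
  obtain ⟨α, β, hN0, hN1⟩ : ∃ α β : F, α * α - δ * β * β ≠ 0 ∧ α * α - δ * β * β ≠ 1 := by
    by_cases hd : δ = -1
    · refine ⟨1, 1, ?_, ?_⟩
      · rw [hd]
        intro h3
        apply h2
        linear_combination h3
      · rw [hd]
        intro h3
        apply one_ne_zero (α := F)
        linear_combination h3
    · refine ⟨0, 1, ?_, ?_⟩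
      · intro h3
        apply hδ0
        linear_combination -h3
      · intro h3
        apply hd
        linear_combination -h3
  obtain ⟨y, hy, hye⟩ := exists_dg h h2 hδ0 hsq' hθs h1 h0 hN0
  set n := α * α - δ * β * β with hn
  have hyM : ∀ v, y.1 (M v) = M (y.1 v) := hy
  have hxy : x * ρ y = ρ y * x := by
    have h3 := hM y
    rw [SS.cj_eq (M := M) (s := y) (t := y) hyM] at h3
    exact mul_inv_eq_iff_eq_mul.1 h3
  -- the line
  let A : F → ↥(Sp B) := fun c => tv h e c * tv h (θ e) (-δ⁻¹ * c)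
  have hA : ∀ c, A c = tv h e c * tv h (θ e) (-δ⁻¹ * c) := fun _ => rfl
  have hcomm : ∀ c d, tv h e c * tv h (θ e) d = tv h (θ e) d * tv h e c := by
    intro c d
    apply Subtype.ext
    apply LinearEquiv.ext
    intro v
    show (tv h e c).1 ((tv h (θ e) d).1 v) = (tv h (θ e) d).1 ((tv h e c).1 v)
    simp only [tv_apply, map_add, LinearMap.add_apply, map_smul, LinearMap.smul_apply, smul_eq_mul, hself, mul_zero,
      add_zero]
    rw [h.swap0 (hself e)]
    module
  have hAadd : ∀ c d, A (c + d) = A c * A d := by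
    intro c d
    rw [hA, hA, hA, mul_add, tv_add, tv_add]
    calc tv h e c * tv h e d * (tv h (θ e) (-δ⁻¹ * c) * tv h (θ e) (-δ⁻¹ * d)) =
        tv h e c * (tv h e d * tv h (θ e) (-δ⁻¹ * c)) * tv h (θ e) (-δ⁻¹ * d) := by group
      _ = tv h e c * (tv h (θ e) (-δ⁻¹ * c) * tv h e d) * tv h (θ e) (-δ⁻¹ * d) := by rw [hcomm]
      _ = _ := by group
  have hAy : ∀ c, y * A c * y⁻¹ = A (n * c) := by
    intro c
    rw [← SS.cj_tg, hA, map_mul, cj_tv, cj_tv, SS.tg_apply, SS.tg_apply, hy, hye]
    have h3 : ∀ d : F, (SS.tg y).σ d * (SS.tg y).l⁻¹ = d := by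
      intro d
      show d * (1 : F)⁻¹ = d
      rw [inv_one, mul_one]
    rw [h3, h3, tv_pair h h2 hδ0 hsq' hθs]
  have hAx : ∀ c, SS.cj M (A c) = A (-1 * c) := by
    intro c
    have h3 : ∀ d : F, M.σ d = d := by
      intro d
      rw [show M.σ = 1 from hl]
      rfl
    rw [hA, map_mul, cj_tv, cj_tv, h3, h3, hmu, ← hθM, ← hθM, hsq', tv_smul, ← hcomm, hA]
    congr 2
    · field_simp
    · ring
  refine line_rule E.env (R := F) (κ := Bool) (z := fun b => cond b (ρ y) x) (ν := fun b => cond b n (-1))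
    (a := fun c => ρ (A c)) ?_ ?_ ?_ ?_ ?_ ?_
  · rintro (_ | _) (_ | _)
    · rfl
    · exact hxy
    · exact hxy.symm
    · rfl
  · intro ω
    rcases hcov ω with h3 | h3
    · exact ⟨true, h3 y hyM⟩
    · exact ⟨false, h3⟩
  · intro c d
    show ρ (A (c + d)) = ρ (A c) * ρ (A d)
    rw [hAadd, map_mul]
  · refine ⟨1, fun h3 => ?_⟩
    obtain ⟨s, hs⟩ := (E.ker _).1 h3
    have h4 : ∀ v, (A 1).1 v = (tv h e 1).1 ((tv h (θ e) (-δ⁻¹ * 1)).1 v) := fun _ => rfl
    have h5 := hs e
    rw [h4, tv_apply, tv_apply, hself, mul_zero, zero_smul, add_zero, h.alt, mul_zero, zero_smul, add_zero] at h5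
    have h6 : s = 1 := by
      apply smul_left_injective F he
      show s • e = (1 : F) • e
      rw [← h5, one_smul]
    have h7 := hs e'
    rw [h4, h6, one_smul, tv_apply, tv_apply, h.swap0 h0, mul_zero, zero_smul, add_zero, add_eq_left, one_mul,
      h.swap, h1, neg_smul, one_smul, neg_eq_zero] at h7
    exact he h7
  · rintro (_ | _)
    · show (-1 : F) ≠ 1
      intro h3
      apply h2
      linear_combination -h3
    · exact hN1
  · rintro (_ | _) c
    · show x * ρ (A c) * x⁻¹ = ρ (A (-1 * c))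
      rw [hM, hAx]
    · show ρ y * ρ (A c) * (ρ y)⁻¹ = ρ (A (n * c))
      rw [← map_inv, ← map_mul, ← map_mul, hAy]

end main

/-- the conclusion of the M-rule for a field `F[θ]` of self-adjoint operators (helper575, D5), for the family `x, M` -/
def MK {F V : Type*} [Field F] [AddCommGroup V] [Module F V]
    {B : LinearMap.BilinForm F V} {G : Type*} [Group G] {Ω : Type*} [MulAction G Ω]
    (ρ : ↥(Sp B) →* G) {ι : Type*} (x : ι → G) (M : ι → SS B) (θ : Module.End F V) (ω : Ω) : Prop :=
  (∀ t : ↥(Sp B), (∀ v, t.1 (θ v) = θ (t.1 v)) → ρ t • ω = ω) ∨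
      ∃ i, (∃ P : Polynomial F, ∀ v, M i v = Polynomial.aeval θ P v) ∧ x i • ω = ω

/-- polynomials in a self-adjoint operator are self-adjoint -/
theorem aeval_self {F V : Type*} [Field F] [AddCommGroup V] [Module F V] {B : LinearMap.BilinForm F V}
    {θ : Module.End F V} (hθs : ∀ u v, B (θ u) v = B u (θ v)) (P : Polynomial F) (u v : V) :
    B (Polynomial.aeval θ P u) v = B u (Polynomial.aeval θ P v) := by
  induction P using Polynomial.induction_on' with
  | add p q hp hq =>
    rw [map_add, LinearMap.add_apply, LinearMap.add_apply, map_add, map_add, LinearMap.add_apply, hp, hq]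
  | monomial n a =>
    have h1 : ∀ (n : ℕ) (u v : V), B ((θ ^ n) u) v = B u ((θ ^ n) v) := by
      intro n
      induction n with
      | zero => intro u v; rfl
      | succ n ih =>
        intro u v
        rw [pow_succ]
        show B ((θ ^ n) (θ u)) v = B u ((θ ^ n) (θ v))
        rw [ih, hθs]
        congr 1
        have h2 : θ * θ ^ n = θ ^ n * θ := by rw [← pow_succ', pow_succ]
        exact congrArg (fun f : Module.End F V => f v) h2
    rw [Polynomial.aeval_monomial]
    show B (algebraMap F (Module.End F V) a ((θ ^ n) u)) v = B u (algebraMap F (Module.End F V) a ((θ ^ n) v))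
    rw [Module.algebraMap_end_apply, Module.algebraMap_end_apply, map_smul, map_smul, LinearMap.smul_apply, h1]

/-- the minimal polynomial of a square root of a nonsquare -/
theorem minpoly_irr {F A : Type*} [Field F] [Ring A] [Nontrivial A] [Algebra F A] {θ : A} {δ : F} (hδ : ¬ IsSquare δ)
    (h : θ * θ = algebraMap F A δ) : Irreducible (minpoly F θ) := by
  have h1 : Irreducible (Polynomial.X ^ 2 - Polynomial.C δ : Polynomial F) := by
    apply X_pow_sub_C_irreducible_of_prime Nat.prime_two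
    intro b hb
    exact hδ ⟨b, by rw [← hb, sq]⟩
  have h2 : Polynomial.aeval θ (Polynomial.X ^ 2 - Polynomial.C δ : Polynomial F) = 0 := by
    rw [map_sub, map_pow, Polynomial.aeval_X, Polynomial.aeval_C, sq, h, sub_self]
  have h3 : (Polynomial.X ^ 2 - Polynomial.C δ : Polynomial F).Monic := Polynomial.monic_X_pow_sub_C δ two_ne_zero
  rw [← minpoly.eq_of_irreducible_of_monic h1 h2 h3]
  exact h1

section main2

variable {F V : Type} [Field F] [Finite F] [AddCommGroup V] [Module F V] [FiniteDimensional F V]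
  {B : LinearMap.BilinForm F V} {G : Type} [Group G] [Finite G] {Ω : Type} [Finite Ω] [Nonempty Ω] [MulAction G Ω]
  {N : Subgroup G} {ρ : ↥(Sp B) →* G} {ι : Type} [Finite ι] {x : ι → G} {r : ι → ℕ} {M : ι → SS B}

/-- (SYM), given the M-rule for `F[θ]` -/
theorem dead_sym_of (E : SpEnv Ω N ρ) (h2 : (2 : F) ≠ 0) (hx : PF x r) 
    (hM : ∀ i, Lf ρ (x i) (M i)) (hl : ∀ i, (M i).IsLin) (i0 : ι) {δ : F} (hδ : ¬ IsSquare δ)
    (hsq : ∀ v, M i0 (M i0 v) = δ • v) (hmu : (M i0).l = δ)
    (hex : Nat.card F = 3 → finrank F V = 4 → ∀ i j, i ≠ i0 → j ≠ i0 → i = j)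
    (mrk : ¬ (Nat.card F = 2 ∧ finrank F V = 4) → ∀ (θ : Module.End F V)
      (_ : ∀ u v, B (θ u) v = B u (θ v)) (_ : Irreducible (minpoly F θ)) (_ : ∀ a : F, θ ≠ algebraMap F _ a)
      (_ : ∀ i v, M i (θ v) = θ (M i v))
      (_ : Nat.card F = 3 → finrank F V = 4 → ∀ i j, (¬ ∃ P : Polynomial F, ∀ v, M i v = Polynomial.aeval θ P v) →
        (¬ ∃ P : Polynomial F, ∀ v, M j v = Polynomial.aeval θ P v) → i = j) (ω : Ω), MK ρ x M θ ω) : False := by
  classical
  have hδ0 : δ ≠ 0 := by
    rintro rfl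
    exact hδ ⟨0, by rw [mul_zero]⟩
  have h := E.form
  have hnt : Nontrivial V := Module.nontrivial_of_finrank_pos (R := F) (by have := E.dim; omega)
  set θ : Module.End F V := (hl i0).lin.toLinearMap with hθ
  have hθM : ∀ v, θ v = M i0 v := fun _ => rfl
  have hθs : ∀ u v, B (θ u) v = B u (θ v) := by
    intro u v
    have h3 := (hl i0).form (M i0 u) v
    rw [hsq, hmu, LinearMap.map_smul₂, smul_eq_mul] at h3
    exact (mul_left_cancel₀ hδ0 h3).symm
  have hθ2 : θ * θ = algebraMap F (Module.End F V) δ := by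
    apply LinearMap.ext
    intro v
    rw [Module.algebraMap_end_apply]
    exact hsq v
  -- a nonzero vector
  obtain ⟨e, he⟩ := exists_ne (0 : V)
  have hscal : ∀ a b : F, (∀ v : V, a • v = b • v) → a = b := fun a b hab => smul_left_injective F he (hab e)
  -- orders
  have hord : ∀ i, (∃ a : F, ∀ v, M i (M i v) = a • v) → r i = 2 := by
    rintro i ⟨a, ha⟩
    have h3 : x i ^ 2 = 1 := by
      refine (E.eq_one_iff ((hM i).pow 2)).2 ⟨a, ?_, ?_⟩
      · rintro rfl
        apply he
        apply (M i).injective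
        apply (M i).injective
        rw [ha, zero_smul, (M i).map_zero, (M i).map_zero]
      · intro v
        rw [SS.pow_apply]
        exact ha v
    have hp := hx.prime i
    have hf : Fact (r i).Prime := ⟨hp⟩
    have h4 : orderOf (x i) = r i := orderOf_eq_prime (hx.pow i) (hx.ne i)
    have h5 : r i ∣ 2 := h4 ▸ orderOf_dvd_of_pow_eq_one h3
    exact (Nat.prime_dvd_prime_iff_eq hp Nat.prime_two).1 h5
  have hr0 : r i0 = 2 := hord i0 ⟨δ, hsq⟩
  have hcm : ∀ i v, M i (θ v) = θ (M i v) := by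
    intro i v
    by_cases hi : i = i0
    · subst hi; rfl
    obtain ⟨a, ha0, ha⟩ := E.lf_comm (hM i) (hM i0) (hx.comm i i0)
    have h3 : a ^ 2 = 1 := by
      have h4 : ∀ w, δ • M i w = (a ^ 2 * δ) • M i w := by
        intro w
        calc δ • M i w = M i (δ • w) := ((hl i).map_smul _ _).symm
          _ = M i (M i0 (M i0 w)) := by rw [hsq]
          _ = a • M i0 (a • M i0 (M i w)) := by rw [ha, ha]
          _ = (a ^ 2 * δ) • M i w := by
            rw [(hl i0).map_smul, hsq, smul_smul, smul_smul]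
            congr 1
            ring
      have h5 : δ = a ^ 2 * δ := by
        apply hscal
        intro w
        obtain ⟨w, rfl⟩ := (M i).surjective w
        exact h4 w
      have h6 : (a ^ 2 - 1) * δ = 0 := by linear_combination -h5
      exact sub_eq_zero.1 ((mul_eq_zero.1 h6).resolve_right hδ0)
    have h4 : a ^ r i = 1 := by
      obtain ⟨s, hs0, hs⟩ := E.pow_scal (hM i) (hx.pow i)
      have h5 : ∀ (n : ℕ) w, (M i)^[n] (M i0 w) = a ^ n • M i0 ((M i)^[n] w) := by
        intro n
        induction n with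
        | zero => intro w; simp
        | succ n ih =>
          intro w
          rw [Function.iterate_succ_apply', Function.iterate_succ_apply', ih, (hl i).map_smul, ha, smul_smul, pow_succ]
      have h6 : s = a ^ r i * s := by
        apply hscal
        intro w
        obtain ⟨w, rfl⟩ := (M i0).surjective w
        rw [← hs, h5, hs, (hl i0).map_smul, smul_smul]
      have h7 : (a ^ r i - 1) * s = 0 := by linear_combination -h6
      exact sub_eq_zero.1 ((mul_eq_zero.1 h7).resolve_right hs0)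
    have h5 : Nat.Coprime 2 (r i) := by
      rw [Nat.coprime_primes Nat.prime_two (hx.prime i)]
      intro h6
      exact hi (hx.inj (h6.symm.trans hr0.symm))
    have h6 : a = 1 := by
      have h7 := Nat.dvd_gcd (orderOf_dvd_of_pow_eq_one h3) (orderOf_dvd_of_pow_eq_one h4)
      rw [h5] at h7
      exact orderOf_eq_one_iff.1 (Nat.dvd_one.1 h7)
    show M i (M i0 v) = M i0 (M i v)
    rw [ha, h6, one_smul]
  have hX : ∃ P : Polynomial F, ∀ v, M i0 v = Polynomial.aeval θ P v :=
    ⟨Polynomial.X, fun v => by rw [Polynomial.aeval_X]; rfl⟩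
  have h22 : ¬ (Nat.card F = 2 ∧ finrank F V = 4) := by
    rintro ⟨h3, -⟩
    apply h2
    have := Fintype.ofFinite F
    rw [Nat.card_eq_fintype_card] at h3
    have h4 := Nat.cast_card_eq_zero F
    rw [h3] at h4
    exact_mod_cast h4
  have hmk := mrk h22 θ hθs (minpoly_irr hδ hθ2) (by
      intro a ha
      apply hδ
      refine ⟨a, ?_⟩
      apply hscal
      intro v
      have h3 : ∀ w, θ w = a • w := by
        intro w
        rw [ha, Module.algebraMap_end_apply]
      rw [← hsq, ← hθM, ← hθM, h3, h3, smul_smul]) hcm (by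
      intro h3 h4 i j hi hj
      refine hex h3 h4 i j ?_ ?_
      · rintro rfl
        exact hi hX
      · rintro rfl
        exact hj hX)
  refine sym_core E h2 (hM i0) (hl i0) hδ hsq hmu (fun ω => ?_)
  rcases hmk ω with h3 | ⟨i, ⟨P, hP⟩, hi⟩
  · exact Or.inl h3
  · right
    have h3 : i = i0 := by
      apply hx.inj
      rw [hr0]
      apply hord
      refine ⟨(M i).l, fun v => ?_⟩
      rw [← sub_eq_zero]
      apply h.nd'
      intro u
      rw [map_sub, map_smul, smul_eq_mul, ← (hl i).form, hP (M i v), ← aeval_self hθs, ← hP, sub_self]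
    rw [← h3]
    exact hi

end main2

end Cfsg.Agent.H579.RC
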