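import Cfsg.Agent.H579.RC.MixRing
import Cfsg.Agent.H579.RC.Opg

/-!
# S3510, triality type iii, MIX-LIN (helper579)

For an isometry `a ≠ 1` of prime order `r ≠ 2, p` commuting with `u ≠ 1` of order `p` on an eight-dimensional space:
elements `c` of the algebra `F[a]` which are isometries with `c + c⁻¹` scalar on a nondegenerate `W`, `c = 1` on `W^⊥`.
-/

set_option autoImplicit false
open Cfsg

namespace Cfsg.Agent.H579.RC.Mix

open Module QuadraticMap MulAction
open Cfsg.Agent.LieClassical.OrthCore Cfsg.Agent.LieClassical.OrthTrans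
open Cfsg.Agent.H579.RC.Opg

variable {F V : Type*} [Field F] [AddCommGroup V] [Module F V] {Q : QuadraticForm F V}

/-- an element `a` of the isometry group, `a ^ r = 1`, and the action of `F[X]/(X^r - 1)` -/
structure Dat (Q : QuadraticForm F V) (r : ℕ) (a : V ≃ₗ[F] V) : Prop where
  r0 : r ≠ 0
  rF : (r : F) ≠ 0
  iso : ∀ v, Q (a v) = Q v
  pow : a ^ r = 1

variable {r : ℕ} {a : V ≃ₗ[F] V}

/-- `a` as an endomorphism -/
def en (a : V ≃ₗ[F] V) : Module.End F V := (a : V →ₗ[F] V)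

theorem en_apply (a : V ≃ₗ[F] V) (v : V) : en a v = a v := rfl

theorem en_pow (a : V ≃ₗ[F] V) (n : ℕ) : en a ^ n = en (a ^ n) := by
  induction n with
  | zero => rfl
  | succ n ih => rw [pow_succ, pow_succ, ih]; rfl

theorem Dat.en_pow (h : Dat Q r a) : en a ^ r = 1 := by rw [Mix.en_pow, h.pow]; rfl

/-- the action -/
noncomputable def Dat.ac (h : Dat Q r a) : Rr F r →ₐ[F] Module.End F V := hm (en a) h.en_pow

theorem Dat.ac_rt (h : Dat Q r a) : h.ac (rt F r) = en a := hm_rt _ _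

theorem Dat.pol (h : Dat Q r a) (v w : V) : polar Q (a v) (a w) = polar Q v w := by
  simp only [QuadraticMap.polar]
  rw [← map_add, h.iso, h.iso, h.iso]

theorem Dat.pol1 (h : Dat Q r a) (v w : V) : polar Q (a v) w = polar Q v ((en a ^ (r - 1)) w) := by
  have h1 : a ((a ^ (r - 1)) w) = w := by
    have h2 : a * a ^ (r - 1) = 1 := by
      rw [← pow_succ', Nat.sub_add_cancel (Nat.one_le_iff_ne_zero.2 h.r0), h.pow]
    exact LinearEquiv.congr_fun h2 w
  have h2 := h.pol v ((a ^ (r - 1)) w)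
  rw [h1] at h2
  rw [h2, Mix.en_pow]
  rfl

/-- adjoints -/
theorem Dat.adj (h : Dat Q r a) (x : Rr F r) (v w : V) : polar Q (h.ac x v) w = polar Q v (h.ac (st x) w) := by
  obtain ⟨p, rfl⟩ := Ideal.Quotient.mk_surjective x
  induction p using Polynomial.induction_on' generalizing v w with
  | add p q hp hq =>
    rw [map_add, map_add, map_add st, map_add h.ac, LinearMap.add_apply, LinearMap.add_apply, polar_add_left,
      polar_add_right, hp, hq]
  | monomial n c =>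
    have e1 : (Ideal.Quotient.mk (Ideal.span {(Polynomial.X ^ r - 1 : Polynomial F)}) (Polynomial.monomial n c)) =
        algebraMap F (Rr F r) c * rt F r ^ n := by
      rw [← Polynomial.C_mul_X_pow_eq_monomial, map_mul, map_pow]
      rfl
    rw [e1, map_mul, map_mul st, map_mul h.ac, AlgHom.commutes, AlgHom.commutes, AlgHom.commutes, map_pow, map_pow st,
      map_pow h.ac, st_rt, map_pow h.ac, h.ac_rt]
    rw [Module.End.mul_apply, Module.End.mul_apply, Module.algebraMap_end_apply, Module.algebraMap_end_apply,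
      polar_smul_left, polar_smul_right]
    congr 1
    clear e1
    induction n generalizing v w with
    | zero => rfl
    | succ n ih =>
      have e2 : (en a ^ (n + 1)) v = a ((en a ^ n) v) := by rw [pow_succ', Module.End.mul_apply]; rfl
      have e3 : ((en a ^ (r - 1)) ^ (n + 1)) w = ((en a ^ (r - 1)) ^ n) ((en a ^ (r - 1)) w) := by
        rw [pow_succ, Module.End.mul_apply]
      rw [e2, e3, h.pol1]
      exact ih v _


/-- everything commuting with `a` commutes with the action -/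
theorem Dat.comm (h : Dat Q r a) {b : V ≃ₗ[F] V} (hb : b * a = a * b) (x : Rr F r) (v : V) :
    h.ac x (b v) = b (h.ac x v) := by
  have h1 : ((b.conjAlgEquiv F).toAlgHom.comp h.ac) (rt F r) = h.ac (rt F r) := by
    rw [AlgHom.comp_apply, h.ac_rt]
    ext w
    change b (a (b.symm w)) = a w
    have h2 : b (a (b.symm w)) = a (b (b.symm w)) := LinearEquiv.congr_fun hb (b.symm w)
    rw [h2, LinearEquiv.apply_symm_apply]
  have h3 := LinearMap.congr_fun (ext_Rr h1 x) (b v)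
  have h4 : b (h.ac x (b.symm (b v))) = h.ac x (b v) := h3
  rw [← h4, LinearEquiv.symm_apply_apply]

/-- there is a relevant maximal ideal -/
theorem Dat.exists_max (h : Dat Q r a) (ha : a ≠ 1) :
    ∃ (I : Ideal (Rr F r)) (ε : Rr F r), I.IsMaximal ∧ Idem I ε ∧ rt F r - 1 ∉ I ∧ h.ac ε ≠ 0 := by
  have := finite_Rr (F := F) h.r0
  have := reduced_Rr (F := F) h.rF
  have : IsArtinianRing (Rr F r) := IsArtinianRing.of_finite F _
  let M : Ideal (Rr F r) :=
    { carrier := {y | h.ac (y * (rt F r - 1)) = 0}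
      zero_mem' := by
        change h.ac (0 * (rt F r - 1)) = 0
        rw [zero_mul, map_zero]
      add_mem' := by
        intro y z hy hz
        change h.ac ((y + z) * (rt F r - 1)) = 0
        have hy' : h.ac (y * (rt F r - 1)) = 0 := hy
        have hz' : h.ac (z * (rt F r - 1)) = 0 := hz
        rw [add_mul, map_add, hy', hz', add_zero]
      smul_mem' := by
        intro c y hy
        change h.ac (c * y * (rt F r - 1)) = 0
        have hy' : h.ac (y * (rt F r - 1)) = 0 := hy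
        rw [mul_assoc, map_mul, hy', mul_zero] }
  have hmem : ∀ y, y ∈ M ↔ h.ac (y * (rt F r - 1)) = 0 := fun y => Iff.rfl
  have hM : M ≠ ⊤ := by
    intro hM
    have h1 : (1 : Rr F r) ∈ M := by rw [hM]; exact Submodule.mem_top
    rw [hmem, one_mul, map_sub, map_one, h.ac_rt, sub_eq_zero] at h1
    apply ha
    ext v
    exact LinearMap.congr_fun h1 v
  obtain ⟨I, hI, hMI⟩ := Ideal.exists_le_maximal M hM
  obtain ⟨ε, hε⟩ := exists_idem hI
  have hεI : ε ∉ I := by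
    intro h1
    apply hI.ne_top
    rw [Ideal.eq_top_iff_one]
    have := I.sub_mem h1 hε.one
    rwa [sub_sub_cancel] at this
  refine ⟨I, ε, hI, hε, fun h1 => hεI (hMI ?_), fun h1 => hεI (hMI ?_)⟩
  · rw [hmem, mul_comm, hε.mul_zero h1, map_zero]
  · rw [hmem, map_mul, h1, zero_mul]

/-- inverses modulo `I` -/
theorem exists_mul (hr0 : r ≠ 0) (hrF : (r : F) ≠ 0) {I : Ideal (Rr F r)} {ε : Rr F r} (hI : I.IsMaximal)
    (hε : Idem I ε) {y : Rr F r} (hy : y ∉ I) : ∃ b, b * y * ε = ε := by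
  have := finite_Rr (F := F) hr0
  have := reduced_Rr (F := F) hrF
  have : IsArtinianRing (Rr F r) := IsArtinianRing.of_finite F _
  obtain ⟨b, i, hi, h1⟩ := hI.exists_inv hy
  refine ⟨b, ?_⟩
  have h2 := hε.mul_zero hi
  have h3 : b * y = 1 - i := by rw [← h1]; ring
  rw [h3, sub_mul, one_mul, h2, sub_zero]

/-- packing -/
theorem Dat.pack (h : Dat Q r a) [FiniteDimensional F V] (hG : Good Q) {n : ℕ} (hn : Odd n) {I : Ideal (Rr F r)}
    {ε η x : Rr F r} (hI : I.IsMaximal) (hε : Idem I ε) (hac : h.ac ε ≠ 0) (hηε : η * ε = ε)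
    (hηη : η * η = η) (hst : st η = η) (hx : x * st x = 1) (hx1 : x * (1 - η) = 1 - η)
    (hb : ∃ b, η = (1 - rt F r) * b) (hxn : x ^ n = 1) (hord : ∀ k, x ^ k - 1 ∈ I → n ∣ k) :
    ∃ c : V ≃ₗ[F] V, c ∈ E Q ∧ (∀ v, c v = h.ac x v) ∧ orderOf c = n ∧ LinearMap.range (h.ac η) ≠ ⊥ ∧
      (∀ v ∈ LinearMap.range (h.ac η), c v ∈ LinearMap.range (h.ac η)) ∧
      (∀ v ∈ LinearMap.range (h.ac η), (∀ w ∈ LinearMap.range (h.ac η), polar Q v w = 0) → v = 0) ∧
      (∀ v, (∀ w ∈ LinearMap.range (h.ac η), polar Q v w = 0) → c v = v) := by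
  have hst' : ∀ y : Rr F r, st (st y) = y := st_st h.r0
  have hmul : ∀ (y z : Rr F r) (v : V), h.ac (y * z) v = h.ac y (h.ac z v) := by
    intro y z v
    rw [map_mul, Module.End.mul_apply]
  let c : V ≃ₗ[F] V := LinearEquiv.ofLinearMap (h.ac x) (h.ac (st x))
    (LinearMap.ext fun v => by
      rw [LinearMap.comp_apply, ← hmul, hx, map_one]
      rfl)
    (LinearMap.ext fun v => by
      rw [LinearMap.comp_apply, ← hmul, mul_comm, hx, map_one]
      rfl)
  have hc : ∀ v, c v = h.ac x v := fun v => rfl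
  have hcpow : ∀ k v, (c ^ k) v = h.ac (x ^ k) v := by
    intro k
    induction k with
    | zero => intro v; rw [pow_zero, pow_zero, map_one]; rfl
    | succ k ih =>
      intro v
      rw [pow_succ, pow_succ, hmul]
      exact ih (h.ac x v)
  have hpol : ∀ v w, polar Q (c v) (c w) = polar Q v w := by
    intro v w
    rw [hc, hc, h.adj, ← hmul, mul_comm, hx, map_one]
    rfl
  have hadd : ∀ v w, Q (v + w) = Q v + Q w + polar Q v w := by
    intro v w
    simp only [QuadraticMap.polar]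
    ring
  -- the defect
  have hθadd : ∀ v w, Q (c (v + w)) - Q (v + w) = (Q (c v) - Q v) + (Q (c w) - Q w) := by
    intro v w
    rw [map_add, hadd, hadd, hpol]
    ring
  have hθa : ∀ v, Q (c (a v)) - Q (a v) = Q (c v) - Q v := by
    intro v
    rw [hc, h.comm rfl, ← hc, h.iso, h.iso]
  have hθ1 : ∀ v, Q (c (v - a v)) - Q (v - a v) = 0 := by
    intro v
    have h1 := hθadd (v - a v) (a v)
    rw [sub_add_cancel, hθa] at h1
    linear_combination -h1
  have hO : c ∈ O Q := by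
    intro v
    obtain ⟨b, hb⟩ := hb
    have e1 : v = h.ac η v + h.ac (1 - η) v := by
      rw [map_sub, map_one, LinearMap.sub_apply]
      change v = h.ac η v + (v - h.ac η v)
      abel
    have e2 : h.ac η v = h.ac b v - a (h.ac b v) := by
      rw [hb, hmul, map_sub, map_one, h.ac_rt]
      rfl
    have e3 : c (h.ac (1 - η) v) = h.ac (1 - η) v := by
      rw [hc, ← hmul, hx1]
    have h1 := hθadd (h.ac η v) (h.ac (1 - η) v)
    rw [← e1, e3, sub_self, add_zero, e2, hθ1] at h1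
    exact sub_eq_zero.1 h1
  have hcn : c ^ n = 1 := by
    ext v
    rw [hcpow, hxn, map_one]
    rfl
  have hrng : ∀ v w, (∀ w ∈ LinearMap.range (h.ac η), polar Q v w = 0) → polar Q (h.ac η v) w = 0 := by
    intro v w hv
    rw [h.adj, hst]
    exact hv _ ⟨w, rfl⟩
  have hnd : ∀ v, (∀ w ∈ LinearMap.range (h.ac η), polar Q v w = 0) → h.ac η v = 0 := by
    intro v hv
    exact hG.nondeg _ fun w => hrng v w hv
  refine ⟨c, ?_, hc, ?_, ?_, ?_, ?_, ?_⟩
  · obtain ⟨k, hk⟩ := hn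
    have h1 : c = (c ^ (k + 1)) * (c ^ (k + 1)) := by
      rw [← pow_add]
      have : k + 1 + (k + 1) = n + 1 := by omega
      rw [this, pow_succ, hcn, one_mul]
    rw [h1]
    exact sq_mem_E hG (Subgroup.pow_mem _ hO _)
  · apply Nat.dvd_antisymm (orderOf_dvd_of_pow_eq_one hcn)
    apply hord
    by_contra hI'
    obtain ⟨b, hb⟩ := exists_mul h.r0 h.rF hI hε hI'
    apply hac
    rw [← hb, map_mul, map_mul]
    have h2 : h.ac (x ^ orderOf c - 1) = 0 := by
      ext v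
      rw [map_sub, map_one, LinearMap.sub_apply, ← hcpow, pow_orderOf_eq_one]
      change v - v = 0
      exact sub_self v
    rw [h2, mul_zero, zero_mul]
  · intro h1
    rw [LinearMap.range_eq_bot] at h1
    apply hac
    rw [← hηε, map_mul, h1, zero_mul]
  · rintro _ ⟨v, rfl⟩
    refine ⟨h.ac x v, ?_⟩
    rw [hc, ← hmul, ← hmul, mul_comm]
  · rintro _ ⟨v, rfl⟩ hv
    have h1 := hnd _ hv
    rw [← hmul, hηη] at h1
    exact h1
  · intro v hv
    have h1 := hnd v hv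
    have e1 : v = h.ac η v + h.ac (1 - η) v := by
      rw [map_sub, map_one, LinearMap.sub_apply]
      change v = h.ac η v + (v - h.ac η v)
      abel
    rw [h1, zero_add] at e1
    rw [e1, hc, ← hmul, hx1]


/-- the first alternative for one `n` -/
def Con (Q : QuadraticForm F V) (a : V ≃ₗ[F] V) (n : ℕ) : Prop :=
  ∃ c ∈ E Q, ∃ (τ : F) (W : Submodule F V), W ≠ ⊥ ∧ orderOf c = n ∧ (∀ b : V ≃ₗ[F] V, b * a = a * b → c * b = b * c) ∧
    (∀ v ∈ W, c v ∈ W) ∧ (∀ v ∈ W, c (c v) + v = τ • c v) ∧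
    (∀ v ∈ W, (∀ w ∈ W, polar Q v w = 0) → v = 0) ∧ (∀ v, (∀ w ∈ W, polar Q v w = 0) → c v = v)

theorem Dat.con (h : Dat Q r a) [FiniteDimensional F V] (hG : Good Q) {n : ℕ} (hn : Odd n) {I : Ideal (Rr F r)}
    {ε η x : Rr F r} (hI : I.IsMaximal) (hε : Idem I ε) (hac : h.ac ε ≠ 0) (hηε : η * ε = ε)
    (hηη : η * η = η) (hst : st η = η) (hx : x * st x = 1) (hx1 : x * (1 - η) = 1 - η)
    (hb : ∃ b, η = (1 - rt F r) * b) (hxn : x ^ n = 1) (hord : ∀ k, x ^ k - 1 ∈ I → n ∣ k) {τ : F}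
    (hτ : (x * x + 1 - algebraMap F (Rr F r) τ * x) * η = 0) : Con Q a n := by
  obtain ⟨c, hcE, hc, ho, hW, hcW, h1, h2⟩ := h.pack hG hn hI hε hac hηε hηη hst hx hx1 hb hxn hord
  refine ⟨c, hcE, τ, _, hW, ho, fun b hb => ?_, hcW, ?_, h1, h2⟩
  · ext v
    change c (b v) = b (c v)
    rw [hc, hc, h.comm hb]
  · rintro _ ⟨v, rfl⟩
    have h3 : h.ac ((x * x + 1 - algebraMap F (Rr F r) τ * x) * η) v = 0 := by rw [hτ, map_zero]; rfl
    rw [map_mul, map_sub, map_add, map_mul, map_mul, map_one, AlgHom.commutes] at h3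
    have h4 : h.ac x (h.ac x (h.ac η v)) + h.ac η v - τ • h.ac x (h.ac η v) = 0 := h3
    rw [hc, hc]
    exact sub_eq_zero.1 h4

theorem st_surj (hr0 : r ≠ 0) : Function.Surjective (st : Rr F r →ₐ[F] Rr F r) := fun x => ⟨st x, st_st hr0 x⟩

theorem comap_comap_st (hr0 : r ≠ 0) (I : Ideal (Rr F r)) :
    (I.comap (st : Rr F r →ₐ[F] Rr F r)).comap (st : Rr F r →ₐ[F] Rr F r) = I := by
  ext x
  rw [Ideal.mem_comap, Ideal.mem_comap, st_st hr0]

theorem idem_st (hr0 : r ≠ 0) {I : Ideal (Rr F r)} {ε : Rr F r} (hε : Idem I ε) :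
    Idem (I.comap (st : Rr F r →ₐ[F] Rr F r)) (st ε) := by
  constructor
  · rw [Ideal.mem_comap, map_sub, st_st hr0, map_one]
    exact hε.one
  · intro J hJ hne
    have h1 : (J.comap (st : Rr F r →ₐ[F] Rr F r)).IsMaximal := Ideal.comap_isMaximal_of_surjective _ (st_surj hr0)
    have h2 : J.comap (st : Rr F r →ₐ[F] Rr F r) ≠ I := by
      intro h2
      apply hne
      rw [← h2, comap_comap_st hr0]
    have h3 := hε.mem _ h1 h2
    rwa [Ideal.mem_comap] at h3

theorem orderOf_of {K : Type*} [Field K] [Algebra F K] {I : Ideal (Rr F r)} {π : Rr F r →ₐ[F] K}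
    (hπ : ∀ y, π y = 0 ↔ y ∈ I) {x : Rr F r} (k : ℕ) (hx : x ^ k - 1 ∈ I) : orderOf (π x) ∣ k := by
  apply orderOf_dvd_of_pow_eq_one
  rw [← hπ, map_sub, map_pow, map_one, sub_eq_zero] at hx
  exact hx

/-- the residue field -/
theorem exists_K.{u} {F : Type u} [Field F] (hr0 : r ≠ 0) {I : Ideal (Rr F r)} (hI : I.IsMaximal) :
    ∃ (K : Type u) (_ : Field K) (_ : Algebra F K) (_ : Module.Finite F K) (π : Rr F r →ₐ[F] K),
      Function.Surjective π ∧ (∀ y, π y = 0 ↔ y ∈ I) ∧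
        (I.comap (st : Rr F r →ₐ[F] Rr F r) = I → ∃ σ : K →ₐ[F] K, ∀ y, σ (π y) = π (st y)) := by
  have := finite_Rr (F := F) hr0
  refine ⟨Rr F r ⧸ I, Ideal.Quotient.field I, inferInstance, inferInstance, Ideal.Quotient.mkₐ F I,
    Ideal.Quotient.mkₐ_surjective F I, fun y => Ideal.Quotient.eq_zero_iff_mem, fun h => ?_⟩
  exact ⟨Ideal.quotientMapₐ I st (le_of_eq h.symm), fun y => rfl⟩

/-- case A: `I` is not self dual -/
theorem Dat.caseA (h : Dat Q r a) [Finite F] [FiniteDimensional F V] (hG : Good Q) {I : Ideal (Rr F r)} {ε : Rr F r}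
    (hI : I.IsMaximal) (hε : Idem I ε) (hrI : rt F r - 1 ∉ I) (hac : h.ac ε ≠ 0)
    (hne : I.comap (st : Rr F r →ₐ[F] Rr F r) ≠ I) {n : ℕ} (hn : n ∣ Nat.card F - 1) (hodd : Odd n) : Con Q a n := by
  have := finite_Rr (F := F) h.r0
  have := reduced_Rr (F := F) h.rF
  have : IsArtinianRing (Rr F r) := IsArtinianRing.of_finite F _
  obtain ⟨z, hz⟩ := exists_order hn
  have hz0 : z ≠ 0 := by
    rintro rfl
    have h4 : ¬ IsOfFinOrder (0 : F) := by
      rw [isOfFinOrder_iff_pow_eq_one]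
      rintro ⟨k, hk, h⟩
      rw [zero_pow hk.ne'] at h
      exact zero_ne_one h
    rw [orderOf_eq_zero h4] at hz
    rw [← hz] at hodd
    exact absurd hodd (by decide)
  have hε' := idem_st h.r0 hε
  set ε' := st ε with hdef
  have hst1 : st ε' = ε := st_st h.r0 ε
  have h1 : ε * ε = ε := hε.sq
  have h2 : ε' * ε' = ε' := hε'.sq
  have h3 : ε * ε' = 0 := hε.mul_zero_of_ne hI hε' hne
  let A := algebraMap F (Rr F r)
  have hA : A z * A z⁻¹ = 1 := by rw [← map_mul, mul_inv_cancel₀ hz0, map_one]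
  have hAn : A z ^ n = 1 := by rw [← map_pow, ← hz, pow_orderOf_eq_one, map_one]
  have hAn' : A z⁻¹ ^ n = 1 := by rw [← map_pow, inv_pow, ← hz, pow_orderOf_eq_one, inv_one, map_one]
  have hstA : ∀ t : F, st (A t) = A t := fun t => AlgHom.commutes _ t
  have hpow : ∀ k : ℕ, (1 - (ε + ε') + A z * ε + A z⁻¹ * ε') ^ k = 1 - (ε + ε') + A z ^ k * ε + A z⁻¹ ^ k * ε' := by
    intro k
    induction k with
    | zero => rw [pow_zero, pow_zero, pow_zero]; ring
    | succ k ih =>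
      rw [pow_succ, ih]
      linear_combination (1 - A z ^ k - A z + A z ^ k * A z) * h1 +
        (1 - A z⁻¹ ^ k - A z⁻¹ + A z⁻¹ ^ k * A z⁻¹) * h2 +
        (2 - A z - A z⁻¹ - A z ^ k - A z⁻¹ ^ k + A z ^ k * A z⁻¹ + A z⁻¹ ^ k * A z) * h3
  obtain ⟨b, hb⟩ := exists_mul h.r0 h.rF hI hε hrI
  have hb' : st b * (rt F r ^ (r - 1) - 1) * ε' = ε' := by
    have := congrArg (st : Rr F r →ₐ[F] Rr F r) hb
    rw [map_mul, map_mul, map_sub, st_rt, map_one] at this
    exact this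
  have hrt := rt_mul (F := F) h.r0
  obtain ⟨K, _, _, _, π, hπs, hπ, -⟩ := exists_K (F := F) h.r0 hI
  refine h.con hG hodd (η := ε + ε') (x := 1 - (ε + ε') + A z * ε + A z⁻¹ * ε') (τ := z + z⁻¹) hI hε hac ?_ ?_ ?_ ?_ ?_ ?_ ?_ ?_
    ?_
  · linear_combination h1 + h3
  · linear_combination h1 + h2 + 2 * h3
  · rw [map_add, hst1, ← hdef, add_comm]
  · rw [map_add st, map_add st, map_sub st, map_one, map_add st, map_mul st, map_mul st, hstA, hstA, hst1, ← hdef]
    linear_combination (A z - 1) * (A z⁻¹ - 1) * (h1 + h2) + ((A z - 1) ^ 2 + (A z⁻¹ - 1) ^ 2) * h3 +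
      (ε + ε') * hA
  · linear_combination (- A z + 1) * h1 + (- A z⁻¹ + 1) * h2 + (2 - A z - A z⁻¹) * h3
  · refine ⟨- (b * ε) + rt F r ^ (r - 1) * st b * ε', ?_⟩
    linear_combination - hb - hb' + st b * ε' * hrt
  · rw [hpow, hAn, hAn']
    ring
  · intro k hk
    have h5 := orderOf_of hπ k hk
    have h6 : π (1 - (ε + ε') + A z * ε + A z⁻¹ * ε') = algebraMap F K z := by
      have h7 : π ε = 1 := by
        have h8 := (hπ _).2 hε.one
        rw [map_sub, map_one, sub_eq_zero] at h8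
        exact h8
      have h9 : π ε' = 0 := (hπ _).2 (hε'.mem I hI (Ne.symm hne))
      rw [map_add, map_add, map_sub, map_one, map_add, map_mul, map_mul, h7, h9, AlgHom.commutes, AlgHom.commutes]
      ring
    rw [h6] at h5
    have h7 : orderOf (algebraMap F K z) = orderOf z :=
      orderOf_injective (algebraMap F K : F →* K) (algebraMap F K).injective z
    rwa [h7, hz] at h5
  · have e : algebraMap F (Rr F r) (z + z⁻¹) = A z + A z⁻¹ := map_add _ _ _
    rw [e]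
    have k1 : (1 - (ε + ε') + A z * ε + A z⁻¹ * ε') * (ε + ε') = A z * ε + A z⁻¹ * ε' := by
      linear_combination (A z - 1) * h1 + (A z⁻¹ - 1) * h2 + (A z + A z⁻¹ - 2) * h3
    have k2 : (1 - (ε + ε') + A z * ε + A z⁻¹ * ε') * (A z * ε + A z⁻¹ * ε') = A z ^ 2 * ε + A z⁻¹ ^ 2 * ε' := by
      linear_combination A z * (A z - 1) * h1 + A z⁻¹ * (A z⁻¹ - 1) * h2 +
        (A z * (A z⁻¹ - 1) + A z⁻¹ * (A z - 1)) * h3
    linear_combination (1 - (ε + ε') + A z * ε + A z⁻¹ * ε') * k1 + k2 - (A z + A z⁻¹) * k1 - (ε + ε') * hA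


theorem pi_one {K : Type*} [Field K] [Algebra F K] {I : Ideal (Rr F r)} {ε : Rr F r} (hε : Idem I ε)
    {π : Rr F r →ₐ[F] K} (hπ : ∀ y, π y = 0 ↔ y ∈ I) : π ε = 1 := by
  have h8 := (hπ _).2 hε.one
  rw [map_sub, map_one, sub_eq_zero] at h8
  exact h8

/-- case B: the element of `R` -/
theorem caseB (hr0 : r ≠ 0) (hrF : (r : F) ≠ 0) {K : Type*} [Field K] [Algebra F K] {I : Ideal (Rr F r)} {ε : Rr F r}
    (hε : Idem I ε) (hstε : st ε = ε) {π : Rr F r →ₐ[F] K} (hπs : Function.Surjective π)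
    (hπ : ∀ y, π y = 0 ↔ y ∈ I) {σ : K →ₐ[F] K} (hσ : ∀ y, σ (π y) = π (st y)) {z : K} {n : ℕ}
    (hz : orderOf z = n) (hzσ : z * σ z = 1) :
    ∃ x : Rr F r, x * st x = 1 ∧ x * (1 - ε) = 1 - ε ∧ x ^ n = 1 ∧ (∀ k, x ^ k - 1 ∈ I → n ∣ k) ∧
      ∀ t : F, z * z + 1 = algebraMap F K t * z → (x * x + 1 - algebraMap F (Rr F r) t * x) * ε = 0 := by
  have := finite_Rr (F := F) hr0
  have := reduced_Rr (F := F) hrF
  have : IsArtinianRing (Rr F r) := IsArtinianRing.of_finite F _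
  obtain ⟨y, hy⟩ := hπs z
  have hzero : ∀ w, π w = 0 → w * ε = 0 := fun w hw => hε.mul_zero ((hπ _).1 hw)
  have h1 : ε * ε = ε := hε.sq
  have hpow : ∀ k : ℕ, (1 - ε + y * ε) ^ k = 1 - ε + y ^ k * ε := by
    intro k
    induction k with
    | zero => rw [pow_zero, pow_zero]; ring
    | succ k ih =>
      rw [pow_succ, ih]
      linear_combination (y ^ k - 1) * (y - 1) * h1
  have hpi := pi_one hε hπ
  refine ⟨1 - ε + y * ε, ?_, ?_, ?_, ?_, ?_⟩
  · rw [map_add st, map_sub st, map_one, map_mul st, hstε]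
    have h2 := hzero (y * st y - 1) (by rw [map_sub, map_mul, map_one, ← hσ, hy, hzσ, sub_self])
    linear_combination (y - 1) * (st y - 1) * h1 + h2
  · linear_combination (1 - y) * h1
  · rw [hpow]
    have h2 := hzero (y ^ n - 1) (by rw [map_sub, map_pow, map_one, hy, ← hz, pow_orderOf_eq_one, sub_self])
    linear_combination h2
  · intro k hk
    have h5 := orderOf_of hπ k hk
    have h6 : π (1 - ε + y * ε) = z := by
      rw [map_add, map_sub, map_one, map_mul, hpi, hy]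
      ring
    rwa [h6, hz] at h5
  · intro t ht
    have h2 := hzero (y * y + 1 - algebraMap F (Rr F r) t * y) (by
      rw [map_sub, map_add, map_mul, map_mul, map_one, AlgHom.commutes, hy, ht, sub_self])
    have k1 : (1 - ε + y * ε) * ε = y * ε := by linear_combination (y - 1) * h1
    linear_combination (1 - ε + y * ε + y - algebraMap F (Rr F r) t) * k1 + h2

/-- the dimension of the residue field -/
theorem Dat.finrank_le (h : Dat Q r a) [FiniteDimensional F V] {K : Type*} [Field K] [Algebra F K] {I : Ideal (Rr F r)}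
    {ε : Rr F r} (hI : I.IsMaximal) (hε : Idem I ε) (hac : h.ac ε ≠ 0) {π : Rr F r →ₐ[F] K}
    (hπs : Function.Surjective π) (hπ : ∀ y, π y = 0 ↔ y ∈ I) :
    ∃ w : V, (∀ y, h.ac y w = 0 ↔ π y = 0) ∧ finrank F K ≤ finrank F V ∧
      (finrank F K = finrank F V → ∀ v, ∃ y, h.ac y w = v) := by
  have := finite_Rr (F := F) h.r0
  have := reduced_Rr (F := F) h.rF
  have : IsArtinianRing (Rr F r) := IsArtinianRing.of_finite F _
  have hmul : ∀ (y z : Rr F r) (v : V), h.ac (y * z) v = h.ac y (h.ac z v) := by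
    intro y z v
    rw [map_mul, Module.End.mul_apply]
  obtain ⟨v₀, hv₀⟩ : ∃ v, h.ac ε v ≠ 0 := by
    by_contra hcon
    push Not at hcon
    exact hac (LinearMap.ext hcon)
  let φ : Rr F r →ₗ[F] V := (LinearMap.applyₗ (h.ac ε v₀)).comp h.ac.toLinearMap
  have hφ : ∀ y, φ y = h.ac y (h.ac ε v₀) := fun y => rfl
  have hker : ∀ y, h.ac y (h.ac ε v₀) = 0 ↔ π y = 0 := by
    intro y
    rw [hπ]
    constructor
    · intro h1
      by_contra h2
      obtain ⟨b, hb⟩ := exists_mul h.r0 h.rF hI hε h2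
      apply hv₀
      rw [← hb, mul_assoc, hmul, hmul, h1, map_zero]
    · intro h1
      rw [← hmul, hε.mul_zero h1, map_zero]
      rfl
  have hk2 : LinearMap.ker φ = LinearMap.ker π.toLinearMap := by
    ext y
    rw [LinearMap.mem_ker, LinearMap.mem_ker, hφ, hker]
    rfl
  have e1 := φ.finrank_range_add_finrank_ker
  have e2 := π.toLinearMap.finrank_range_add_finrank_ker
  have e3 : LinearMap.range π.toLinearMap = ⊤ := LinearMap.range_eq_top.2 hπs
  rw [e3, finrank_top, ← hk2] at e2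
  have e4 : finrank F (LinearMap.range φ) = finrank F K := by omega
  refine ⟨h.ac ε v₀, hker, ?_, ?_⟩
  · rw [← e4]
    exact Submodule.finrank_le _
  · intro h5 v
    have h6 : LinearMap.range φ = ⊤ := Submodule.eq_top_of_finrank_eq (by rw [e4, h5])
    have h7 : v ∈ LinearMap.range φ := by rw [h6]; exact Submodule.mem_top
    obtain ⟨y, hy⟩ := h7
    exact ⟨y, hy⟩

/-- `V` is not a cyclic module -/
theorem Dat.not_cyclic (h : Dat Q r a) {K : Type*} [Field K] [Algebra F K]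
    {π : Rr F r →ₐ[F] K} {w : V} (hw : ∀ y, h.ac y w = 0 ↔ π y = 0) (hs : ∀ v, ∃ y, h.ac y w = v)
    {p : ℕ} [CharP F p] (hp : p.Prime) {u : V ≃ₗ[F] V} (hup : u ^ p = 1) (hua : u * a = a * u) : u = 1 := by
  have hmul : ∀ (y z : Rr F r) (v : V), h.ac (y * z) v = h.ac y (h.ac z v) := by
    intro y z v
    rw [map_mul, Module.End.mul_apply]
  obtain ⟨y₀, hy₀⟩ := hs (u w)
  have hu : ∀ v, u v = h.ac y₀ v := by
    intro v
    obtain ⟨y, rfl⟩ := hs v
    rw [← h.comm hua, ← hy₀, ← hmul, ← hmul, mul_comm]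
  have hpow : ∀ k v, (u ^ k) v = h.ac (y₀ ^ k) v := by
    intro k
    induction k with
    | zero => intro v; rw [pow_zero, pow_zero, map_one]; rfl
    | succ k ih =>
      intro v
      rw [pow_succ, pow_succ, hmul, ← hu]
      exact ih (u v)
  have := Fact.mk hp
  have : CharP K p := charP_of_injective_algebraMap (algebraMap F K).injective p
  have h1 : π (y₀ ^ p - 1) = 0 := by
    rw [← hw, map_sub, map_one, LinearMap.sub_apply, ← hpow, hup]
    exact sub_self _
  have h2 : π (y₀ - 1) = 0 := by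
    rw [map_sub, map_pow, map_one, sub_eq_zero] at h1
    have h3 : frobenius K p (π y₀) = frobenius K p 1 := by
      rw [frobenius_def, h1, map_one]
    rw [map_sub, map_one, sub_eq_zero]
    exact frobenius_inj K p h3
  have h3 : u w = w := by
    rw [← hw, map_sub, map_one, LinearMap.sub_apply, ← hu] at h2
    exact sub_eq_zero.1 h2
  ext v
  obtain ⟨y, rfl⟩ := hs v
  rw [← h.comm hua, h3]
  rfl

/-- the main theorem for one element -/
theorem Dat.main (h : Dat Q r a) [Finite F] [FiniteDimensional F V] (hG : Good Q) (hdim : finrank F V = 8)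
    (hro : Odd r) (ha : a ≠ 1) {p : ℕ} [CharP F p] (hp : p.Prime) {u : V ≃ₗ[F] V} (hup : u ^ p = 1) (hu1 : u ≠ 1)
    (hua : u * a = a * u) :
    (∃ n0, (n0 = Nat.card F - 1 ∨ n0 = Nat.card F + 1) ∧ ∀ n, n ∣ n0 → Odd n → Con Q a n) ∨
      (∀ l, l.Prime → l ≠ 2 → l ∣ Nat.card F ^ 2 + 1 → ∃ c ∈ E Q, orderOf c = l ∧
        ∀ b : V ≃ₗ[F] V, b * a = a * b → c * b = b * c) := by
  classical
  have hr0 := h.r0
  have := finite_Rr (F := F) h.r0
  have := reduced_Rr (F := F) h.rF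
  have : IsArtinianRing (Rr F r) := IsArtinianRing.of_finite F _
  obtain ⟨I, ε, hI, hε, hrI, hac⟩ := h.exists_max ha
  by_cases hne : I.comap (st : Rr F r →ₐ[F] Rr F r) = I
  swap
  · left
    exact ⟨_, Or.inl rfl, fun n hn hodd => h.caseA hG hI hε hrI hac hne hn hodd⟩
  have hstε : st ε = ε := by
    have h1 := idem_st hr0 hε
    rw [hne] at h1
    exact h1.uniq hε
  obtain ⟨K, _, _, _, π, hπs, hπ, hσ⟩ := exists_K (F := F) h.r0 hI
  obtain ⟨σ, hσ⟩ := hσ hne
  have : Finite K := Module.finite_of_finite F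
  have := Fintype.ofFinite F
  have hσ2 : ∀ x, σ (σ x) = x := by
    intro x
    obtain ⟨y, rfl⟩ := hπs x
    rw [hσ, hσ, st_st hr0]
  have hσ1 : ∃ x, σ x ≠ x := by
    refine ⟨π (rt F r), fun h1 => ?_⟩
    apply hrI
    rw [hσ, st_rt, map_pow] at h1
    have h2 : π (rt F r) ^ r = 1 := by rw [← map_pow, rt_pow, map_one]
    have h3 : π (rt F r) ^ 2 = 1 := by
      have h4 : π (rt F r) ^ (r - 1) * π (rt F r) = 1 := by
        rw [← pow_succ, Nat.sub_add_cancel (Nat.one_le_iff_ne_zero.2 hr0), h2]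
      rw [h1] at h4
      rw [pow_two, h4]
    obtain ⟨k, hk⟩ := hro
    have h5 : π (rt F r) ^ (2 * k + 1) = 1 := by
      rw [← hk]
      exact h2
    rw [pow_succ, pow_mul, h3, one_pow, one_mul] at h5
    rw [← hπ, map_sub, map_one, h5, sub_self]
  obtain ⟨m, hm0, hm, hσm⟩ := inv_frob hσ2 hσ1
  obtain ⟨w, hw, hle, hcy⟩ := h.finrank_le hI hε hac hπs hπ
  have hb : ∃ b, ε = (1 - rt F r) * b := by
    obtain ⟨b, hb⟩ := exists_mul h.r0 h.rF hI hε hrI
    exact ⟨- (b * ε), by linear_combination -hb⟩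
  have hcase : Odd m ∨ m = 2 ∨ m = 4 := by
    have h5 : m = 1 ∨ m = 2 ∨ m = 3 ∨ m = 4 := by omega
    rcases h5 with rfl | rfl | rfl | rfl
    · left; decide
    · right; left; rfl
    · left; decide
    · right; right; rfl
  rcases hcase with hodd | rfl | rfl
  · left
    refine ⟨_, Or.inr rfl, fun n hn hno => ?_⟩
    rw [Nat.card_eq_fintype_card] at hn
    obtain ⟨z, hz, hz1, τ, hτ⟩ := exists_norm_one hm hodd hn
    obtain ⟨x, hx1, hx2, hx3, hx4, hx5⟩ := caseB h.r0 h.rF hε hstε hπs hπ hσ hz (by rw [hσm]; exact hz1)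
    exact h.con hG hno hI hε hac hε.sq hε.sq hstε hx1 hx2 hb hx3 hx4 (hx5 τ hτ)
  · right
    intro l hl hl2 hlq
    have hcard : Nat.card K = Fintype.card F ^ (2 * 2) := by
      rw [Module.natCard_eq_pow_finrank (K := F), hm, Nat.card_eq_fintype_card]
    rw [Nat.card_eq_fintype_card] at hlq
    have h6 : l ∣ Nat.card K - 1 := by
      rw [hcard]
      have h3 : Fintype.card F ^ (2 * 2) - 1 = (Fintype.card F ^ 2 + 1) * (Fintype.card F ^ 2 - 1) := by
        rw [pow_mul', ← Nat.sq_sub_sq, one_pow]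
      rw [h3]
      exact hlq.trans (dvd_mul_right _ _)
    obtain ⟨z, hz⟩ := exists_order h6
    obtain ⟨x, hx1, hx2, hx3, hx4, -⟩ := caseB h.r0 h.rF hε hstε hπs hπ hσ hz (by
      rw [hσm, ← pow_succ']
      exact orderOf_dvd_iff_pow_eq_one.1 (by rw [hz]; exact hlq))
    obtain ⟨c, hcE, hc, ho, -⟩ := h.pack hG (hl.odd_of_ne_two hl2) hI hε hac hε.sq hε.sq hstε hx1 hx2 hb hx3 hx4
    refine ⟨c, hcE, ho, fun b hb => ?_⟩
    ext v
    change c (b v) = b (c v)
    rw [hc, hc, h.comm hb]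
  · exfalso
    exact hu1 (h.not_cyclic hw (hcy (by rw [hm, hdim])) hp hup hua)

end Cfsg.Agent.H579.RC.Mix

namespace Cfsg.Agent.H864.RC

open Module QuadraticMap MulAction
open Cfsg.Agent.LieClassical.OrthCore Cfsg.Agent.LieClassical.OrthTrans
open Cfsg.Agent.LieClassical.OrthSimple Cfsg.Agent.ClassicalGeometry.OrthSemi
open Cfsg.Agent.ClassicalGeometry.OrthAut1 Cfsg.Agent.H106.RC Cfsg.Agent.H93.RC Cfsg.Agent.H566.RC
open Cfsg.Agent.LieClassical.QuadForms Cfsg.Agent.ClassicalGeometry.TrialityOct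
open Cfsg.Agent.ClassicalGeometry.Triality Cfsg.Agent.ClassicalGeometry.TrialitySpaces
open Cfsg.Agent.H198.TriBase Cfsg.Agent.H198.TriAut Cfsg.Agent.H206.Balance Cfsg.Agent.H198.TriDia
open Cfsg.Agent.H198.TwComp Cfsg.Agent.H198

variable {F : Type} [Field F]

/-- MIX-LIN -/
theorem mix_lin [Finite F] {ι : Type} [Finite ι] {p : ℕ} [CharP F p] (hp : p.Prime) (hG : Good (plusForm 4 F))
    {g : ι → (V8 F ≃ₗ[F] V8 F)} (hg : ∀ i, g i ∈ E (plusForm 4 F)) {r : ι → ℕ}
    (hr : ∀ i, (r i).Prime) (hrp : ∀ i, r i ≠ p) (hr2 : ∀ i, r i ≠ 2) (hpow : ∀ i, g i ^ r i = 1)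
    (hc : ∀ i j, g i * g j = g j * g i) (i₁ : ι) (hi₁ : g i₁ ≠ 1) {u : V8 F ≃ₗ[F] V8 F} (hu : u ∈ E (plusForm 4 F))
    (hup : u ^ p = 1) (hu1 : u ≠ 1) (huc : ∀ i, u * g i = g i * u) :
    (∃ n0, (n0 = Nat.card F - 1 ∨ n0 = Nat.card F + 1) ∧ ∀ n, n ∣ n0 → Odd n → ∃ c ∈ E (plusForm 4 F),
      ∃ (τ : F) (W : Submodule F (V8 F)), W ≠ ⊥ ∧ orderOf c = n ∧ (∀ i, c * g i = g i * c) ∧ c * u = u * c ∧
      (∀ v ∈ W, c v ∈ W) ∧ (∀ v ∈ W, c (c v) + v = τ • c v) ∧
      (∀ v ∈ W, (∀ w ∈ W, polar (plusForm 4 F) v w = 0) → v = 0) ∧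
      (∀ v, (∀ w ∈ W, polar (plusForm 4 F) v w = 0) → c v = v)) ∨
    (∀ l, l.Prime → l ≠ 2 → l ∣ Nat.card F ^ 2 + 1 → ∃ c ∈ E (plusForm 4 F), c ^ l = 1 ∧ c ≠ 1 ∧
      (∀ i, c * g i = g i * c) ∧ c * u = u * c) := by
  have hdim : finrank F (V8 F) = 8 := by simp
  have hD : H579.RC.Mix.Dat (plusForm 4 F) (r i₁) (g i₁) := by
    refine ⟨(hr i₁).ne_zero, fun h => ?_, fun v => E_le_O (hg i₁) v, hpow i₁⟩
    have h1 := (CharP.cast_eq_zero_iff F p (r i₁)).1 h
    exact hrp i₁ ((Nat.prime_dvd_prime_iff_eq hp (hr i₁)).1 h1).symm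
  rcases hD.main hG hdim ((hr i₁).odd_of_ne_two (hr2 i₁)) hi₁ hp hup hu1 (huc i₁) with ⟨n0, hn0, h⟩ | h
  · left
    refine ⟨n0, hn0, fun n hn hodd => ?_⟩
    obtain ⟨c, hcE, τ, W, hW, ho, hcc, h1, h2, h3, h4⟩ := h n hn hodd
    exact ⟨c, hcE, τ, W, hW, ho, fun i => hcc _ (hc i i₁), hcc _ (huc i₁), h1, h2, h3, h4⟩
  · right
    intro l hl hl2 hlq
    obtain ⟨c, hcE, ho, hcc⟩ := h l hl hl2 hlq
    refine ⟨c, hcE, ?_, ?_, fun i => hcc _ (hc i i₁), hcc _ (huc i₁)⟩
    · rw [← ho, pow_orderOf_eq_one]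
    · rintro rfl
      rw [orderOf_one] at ho
      exact hl.one_lt.ne ho

end Cfsg.Agent.H864.RC
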