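import Mathlib

/-!
# S3510, triality type iii, MIX-LIN: ring theory (helper579)

* idempotents of a reduced artinian commutative ring;
* automorphisms of order two of finite fields, elements of norm one;
* the ring `F[X]/(X^r - 1)` with its involution and its action by a linear map `A`, `A^r = 1`.
-/

set_option autoImplicit false

namespace Cfsg.Agent.H579.RC.Mix

open Polynomial Module

section idem

variable {R : Type*} [CommRing R] [IsReduced R] [IsArtinianRing R]

theorem eq_zero_of_mem {x : R} (h : ∀ I : Ideal R, I.IsMaximal → x ∈ I) : x = 0 := by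
  apply (IsArtinianRing.equivPi R).injective
  funext I
  rw [IsArtinianRing.equivPi_apply, map_zero, Pi.zero_apply]
  exact Ideal.Quotient.eq_zero_iff_mem.2 (h _ I.2)

/-- the idempotent of the maximal ideal `I` -/
structure Idem (I : Ideal R) (ε : R) : Prop where
  one : ε - 1 ∈ I
  mem : ∀ J : Ideal R, J.IsMaximal → J ≠ I → ε ∈ J

theorem exists_idem {I : Ideal R} (hI : I.IsMaximal) : ∃ ε : R, Idem I ε := by
  classical
  let s : ∀ J : MaximalSpectrum R, R ⧸ J.asIdeal := Pi.single ⟨I, hI⟩ 1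
  refine ⟨(IsArtinianRing.equivPi R).symm s, ?_, fun J hJ hne => ?_⟩
  · have h1 : IsArtinianRing.equivPi R ((IsArtinianRing.equivPi R).symm s) ⟨I, hI⟩ = s ⟨I, hI⟩ := by
      rw [AlgEquiv.apply_symm_apply]
    rw [IsArtinianRing.equivPi_apply] at h1
    have h2 : s ⟨I, hI⟩ = 1 := Pi.single_eq_same _ _
    rw [h2] at h1
    exact Ideal.Quotient.eq.1 (h1.trans (map_one _).symm)
  · have h1 : IsArtinianRing.equivPi R ((IsArtinianRing.equivPi R).symm s) ⟨J, hJ⟩ = s ⟨J, hJ⟩ := by
      rw [AlgEquiv.apply_symm_apply]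
    rw [IsArtinianRing.equivPi_apply] at h1
    have h2 : s ⟨J, hJ⟩ = 0 := Pi.single_eq_of_ne (fun h => hne (congrArg MaximalSpectrum.asIdeal h)) _
    rw [h2] at h1
    exact Ideal.Quotient.eq_zero_iff_mem.1 h1

variable {I : Ideal R} {ε : R}

theorem Idem.mul_zero (h : Idem I ε) {y : R} (hy : y ∈ I) : y * ε = 0 := by
  apply eq_zero_of_mem
  intro J hJ
  by_cases hne : J = I
  · rw [hne]; exact I.mul_mem_right _ hy
  · exact J.mul_mem_left _ (h.mem J hJ hne)

theorem Idem.sq (h : Idem I ε) : ε * ε = ε := by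
  have h1 := h.mul_zero h.one
  rw [sub_mul, one_mul, sub_eq_zero] at h1
  exact h1

theorem Idem.uniq {ε' : R} (h : Idem I ε) (h' : Idem I ε') : ε = ε' := by
  have h1 := h.mul_zero h'.one
  have h2 := h'.mul_zero h.one
  rw [sub_mul, one_mul, sub_eq_zero] at h1 h2
  exact (h1.symm.trans (mul_comm _ _)).trans h2

theorem Idem.mul_zero_of_ne {J : Ideal R} (hI : I.IsMaximal) {ε' : R} (h : Idem I ε) (h' : Idem J ε') (hne : J ≠ I) :
    ε * ε' = 0 := by
  have h1 : ε' ∈ I := h'.mem I hI (Ne.symm hne)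
  rw [mul_comm]
  exact h.mul_zero h1

end idem

section field

variable {F K : Type*} [Field F] [Fintype F] [Field K] [Finite K] [Algebra F K]

/-- an involutory automorphism -/
theorem inv_frob {σ : K →ₐ[F] K} (h2 : ∀ x, σ (σ x) = x) (h1 : ∃ x, σ x ≠ x) :
    ∃ m, 0 < m ∧ finrank F K = 2 * m ∧ ∀ x, σ x = x ^ (Fintype.card F ^ m) := by
  obtain ⟨⟨j, hj⟩, hσ⟩ := (FiniteField.bijective_frobeniusAlgHom_pow F K).2 σ
  have hσ' : FiniteField.frobeniusAlgHom F K ^ j = σ := hσ
  have hx : ∀ x, σ x = x ^ (Fintype.card F ^ j) := by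
    intro x
    rw [← hσ', AlgHom.coe_pow, FiniteField.coe_frobeniusAlgHom, pow_iterate]
  have hj0 : j ≠ 0 := by
    rintro rfl
    obtain ⟨x, hx'⟩ := h1
    apply hx'
    rw [hx, pow_zero, pow_one]
  have h3 : FiniteField.frobeniusAlgHom F K ^ (2 * j) = 1 := by
    rw [two_mul, pow_add, hσ']
    ext x
    exact h2 x
  have h4 := orderOf_dvd_of_pow_eq_one h3
  rw [FiniteField.orderOf_frobeniusAlgHom] at h4
  obtain ⟨k, hk⟩ := h4
  refine ⟨j, Nat.pos_of_ne_zero hj0, ?_, hx⟩
  have hk1 : k = 1 := by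
    have h5 : k ≠ 0 := by
      rintro rfl
      omega
    by_contra h6
    have h7 : 2 ≤ k := by omega
    have h8 : finrank F K * 2 ≤ finrank F K * k := Nat.mul_le_mul_left _ h7
    omega
  rw [hk1] at hk
  omega

theorem exists_order {n : ℕ} (hn : n ∣ Nat.card K - 1) : ∃ z : K, orderOf z = n := by
  classical
  have := Fintype.ofFinite K
  obtain ⟨g, hg⟩ := IsCyclic.exists_ofOrder_eq_natCard (α := Kˣ)
  rw [Nat.card_units] at hg
  obtain ⟨k, hk⟩ := hn
  have hpos : 0 < Nat.card K - 1 := by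
    have := Finite.one_lt_card (α := K)
    omega
  have hk0 : k ≠ 0 := by
    rintro rfl
    omega
  refine ⟨((g ^ k : Kˣ) : K), ?_⟩
  rw [orderOf_units, orderOf_pow_of_dvd hk0 (by rw [hg, hk]; exact dvd_mul_left _ _), hg, hk,
    Nat.mul_div_cancel _ (Nat.pos_of_ne_zero hk0)]

/-- fixed by the Frobenius -/
theorem mem_of_frob {t : K} (h : t ^ Fintype.card F = t) : ∃ τ : F, algebraMap F K τ = t := by
  have h1 : ∀ f : K ≃ₐ[F] K, f t = t := by
    intro f
    obtain ⟨⟨j, hj⟩, hf⟩ := (FiniteField.bijective_frobeniusAlgEquivOfAlgebraic_pow F K).2 f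
    have hf' : FiniteField.frobeniusAlgEquivOfAlgebraic F K ^ j = f := hf
    rw [← hf', AlgEquiv.coe_pow, FiniteField.coe_frobeniusAlgEquivOfAlgebraic]
    exact Function.iterate_fixed h j
  exact (IsGalois.mem_range_algebraMap_iff_fixed t).2 h1

/-- `m` odd: elements of order `n ∣ q + 1` -/
theorem exists_norm_one {m : ℕ} (hd : finrank F K = 2 * m) (hm : Odd m) {n : ℕ} (hn : n ∣ Fintype.card F + 1) :
    ∃ z : K, orderOf z = n ∧ z * z ^ (Fintype.card F ^ m) = 1 ∧ ∃ τ : F, z * z + 1 = algebraMap F K τ * z := by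
  have hcard : Nat.card K = Fintype.card F ^ (2 * m) := by
    rw [Module.natCard_eq_pow_finrank (K := F), hd, Nat.card_eq_fintype_card]
  have h1 : Fintype.card F + 1 ∣ Fintype.card F ^ m + 1 := by
    have := hm.nat_add_dvd_pow_add_pow (Fintype.card F) 1
    rwa [one_pow] at this
  have h2 : n ∣ Nat.card K - 1 := by
    rw [hcard]
    have h3 : Fintype.card F ^ (2 * m) - 1 = (Fintype.card F ^ m + 1) * (Fintype.card F ^ m - 1) := by
      rw [pow_mul', ← Nat.sq_sub_sq, one_pow]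
    rw [h3]
    exact (hn.trans h1).trans (dvd_mul_right _ _)
  obtain ⟨z, hz⟩ := exists_order h2
  have hz0 : z ≠ 0 := by
    rintro rfl
    have h4 : ¬ IsOfFinOrder (0 : K) := by
      rw [isOfFinOrder_iff_pow_eq_one]
      rintro ⟨k, hk, h⟩
      rw [zero_pow hk.ne'] at h
      exact zero_ne_one h
    rw [orderOf_eq_zero h4] at hz
    rw [← hz] at hn
    have := Nat.eq_zero_of_zero_dvd hn
    omega
  have hq1 : z ^ (Fintype.card F + 1) = 1 := orderOf_dvd_iff_pow_eq_one.1 (by rw [hz]; exact hn)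
  refine ⟨z, hz, ?_, ?_⟩
  · rw [← pow_succ']
    exact orderOf_dvd_iff_pow_eq_one.1 (by rw [hz]; exact hn.trans h1)
  · have hzq : z ^ Fintype.card F = z⁻¹ := by
      rw [pow_succ] at hq1
      exact eq_inv_of_mul_eq_one_left hq1
    obtain ⟨τ, hτ⟩ := mem_of_frob (F := F) (t := z + z⁻¹) (by
      have h5 := map_add (FiniteField.frobeniusAlgHom F K) z z⁻¹
      rw [FiniteField.coe_frobeniusAlgHom] at h5
      have h6 : (z + z⁻¹) ^ Fintype.card F = z ^ Fintype.card F + z⁻¹ ^ Fintype.card F := h5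
      rw [h6, inv_pow, hzq, inv_inv, add_comm])
    refine ⟨τ, ?_⟩
    rw [hτ, add_mul, inv_mul_cancel₀ hz0]

end field

section cyc

variable (F : Type*) [Field F] (r : ℕ)

/-- `F[X]/(X^r - 1)` -/
abbrev Rr : Type _ := F[X] ⧸ Ideal.span {(X ^ r - 1 : F[X])}

/-- the class of `X` -/
noncomputable def rt : Rr F r := Ideal.Quotient.mk _ X

theorem rt_pow : rt F r ^ r = 1 := by
  have h : (X ^ r - 1 : F[X]) ∈ Ideal.span {(X ^ r - 1 : F[X])} := Ideal.mem_span_singleton_self _
  have h1 := Ideal.Quotient.eq_zero_iff_mem.2 h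
  rw [map_sub, map_pow, map_one, sub_eq_zero] at h1
  exact h1

variable {F r}

theorem monic (hr : r ≠ 0) : (X ^ r - 1 : F[X]).Monic := by
  have := monic_X_pow_sub_C (1 : F) hr
  rwa [map_one] at this

theorem finite_Rr (hr : r ≠ 0) : Module.Finite F (Rr F r) := by
  have h := (monic (F := F) hr).finite_quotient
  exact h

theorem reduced_Rr (hr : (r : F) ≠ 0) : IsReduced (Rr F r) := by
  have h1 := (X_pow_sub_one_separable_iff.2 hr).squarefree
  have h2 : (X ^ r - 1 : F[X]) ≠ 0 := h1.ne_zero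
  have h3 := (isRadical_iff_squarefree_of_ne_zero h2).2 h1
  have h4 := isRadical_iff_span_singleton.1 h3
  exact (Ideal.isRadical_iff_quotient_reduced _).1 h4

/-- the homomorphism defined by an element `A` with `A ^ r = 1` -/
noncomputable def hm {S : Type*} [Ring S] [Algebra F S] (A : S) (hA : A ^ r = 1) : Rr F r →ₐ[F] S :=
  Ideal.Quotient.liftₐ _ (aeval A) (by
    intro a ha
    obtain ⟨b, rfl⟩ := Ideal.mem_span_singleton.1 ha
    rw [map_mul, map_sub, map_pow, aeval_X, hA, map_one, sub_self, zero_mul])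

theorem hm_mk {S : Type*} [Ring S] [Algebra F S] (A : S) (hA : A ^ r = 1) (f : F[X]) :
    hm A hA (Ideal.Quotient.mk _ f) = aeval A f := rfl

theorem hm_rt {S : Type*} [Ring S] [Algebra F S] (A : S) (hA : A ^ r = 1) : hm A hA (rt F r) = A := by
  rw [rt, hm_mk, aeval_X]

/-- the involution -/
noncomputable def st : Rr F r →ₐ[F] Rr F r := hm (rt F r ^ (r - 1)) (by rw [← pow_mul, mul_comm, pow_mul, rt_pow, one_pow])

theorem st_rt : st (rt F r) = rt F r ^ (r - 1) := hm_rt _ _

theorem ext_Rr {S : Type*} [Ring S] [Algebra F S] {f g : Rr F r →ₐ[F] S} (h : f (rt F r) = g (rt F r)) (x : Rr F r) :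
    f x = g x := by
  obtain ⟨p, rfl⟩ := Ideal.Quotient.mk_surjective x
  have h1 : f.comp (Ideal.Quotient.mkₐ F (Ideal.span {(X ^ r - 1 : F[X])})) =
      g.comp (Ideal.Quotient.mkₐ F (Ideal.span {(X ^ r - 1 : F[X])})) := by
    apply Polynomial.algHom_ext
    exact h
  exact AlgHom.congr_fun h1 p

theorem rt_mul (hr : r ≠ 0) : rt F r * rt F r ^ (r - 1) = 1 := by
  rw [← pow_succ', Nat.sub_add_cancel (Nat.one_le_iff_ne_zero.2 hr), rt_pow]

theorem st_st (hr : r ≠ 0) (x : Rr F r) : st (st x) = x := by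
  have h : (st.comp st : Rr F r →ₐ[F] Rr F r) (rt F r) = (AlgHom.id F (Rr F r)) (rt F r) := by
    rw [AlgHom.comp_apply, st_rt, map_pow, st_rt, AlgHom.id_apply]
    have h1 := rt_mul (F := F) hr
    have h2 : (rt F r ^ (r - 1)) ^ (r - 1) * (rt F r ^ (r - 1)) = 1 := by
      rw [← pow_succ, Nat.sub_add_cancel (Nat.one_le_iff_ne_zero.2 hr), ← pow_mul, mul_comm, pow_mul, rt_pow, one_pow]
    exact (left_inv_eq_right_inv h2 (by rw [mul_comm]; exact h1))
  exact ext_Rr h x

end cyc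

end Cfsg.Agent.H579.RC.Mix
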