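import Cfsg.Agent.H579.RC.DeadSym
import Cfsg.Agent.H236.RC.D5

/-!
# S3510, row D: the case (SYM), final form (helper579)
-/

set_option autoImplicit false
open Cfsg

namespace Cfsg.Agent.H579.RC

open MulAction Module Cfsg.Agent.H106.RC Cfsg.Agent.H520.RC

variable {F V : Type} [Field F] [Finite F] [AddCommGroup V] [Module F V] [FiniteDimensional F V]
  {B : LinearMap.BilinForm F V} {G : Type} [Group G] [Finite G] {Ω : Type} [Finite Ω] [Nonempty Ω] [MulAction G Ω]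
  {N : Subgroup G} {ρ : ↥(Sp B) →* G} {ι : Type} [Finite ι] {x : ι → G} {r : ι → ℕ} {M : ι → SS B}

/-- (SYM) -/
theorem dead_sym (E : SpEnv Ω N ρ) (hIH : IH (Nat.card N)) (h2 : (2 : F) ≠ 0) (hx : PF x r) (hcov : Cov Ω x)
    (hM : ∀ i, Lf ρ (x i) (M i)) (hl : ∀ i, (M i).IsLin) (i0 : ι) {δ : F} (hδ : ¬ IsSquare δ)
    (hsq : ∀ v, M i0 (M i0 v) = δ • v) (hmu : (M i0).l = δ)
    (hex : Nat.card F = 3 → finrank F V = 4 → ∀ i j, i ≠ i0 → j ≠ i0 → i = j) : False :=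
  dead_sym_of E h2 hx hM hl i0 hδ hsq hmu hex (fun h22 θ h1 h3 h4 h5 h6 w =>
    Cfsg.Agent.H236.RC.D5.m_rule_K E hIH h22 hx hcov hM hl θ h1 h3 h4 h5 h6 w)

end Cfsg.Agent.H579.RC
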